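import Mathlib
import Cfsg.Prelude.Def_Local
import Cfsg.Agent.Eqn.Local

/-!
Interfaces for the bound of the `2`-length by the derived length of a Sylow `2`-subgroup.
-/

set_option autoImplicit false

open scoped commutatorElement

namespace CfsgLib.TwoLengthDerived

universe u v w

/-- The term `m` of the derived series of a Sylow `2`-subgroup, seen in the group. -/
def derTerm {H : Type w} [Group H] (T : Sylow 2 H) (m : ℕ) : Subgroup H :=
  (derivedSeries (T : Subgroup H) m).map (T : Subgroup H).subtype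

theorem derTerm_zero {H : Type w} [Group H] (T : Sylow 2 H) : derTerm T 0 = (T : Subgroup H) := by
  rw [derTerm, derivedSeries_zero, ← MonoidHom.range_eq_map, Subgroup.range_subtype]

theorem derTerm_succ {H : Type w} [Group H] (T : Sylow 2 H) (i : ℕ) :
    derTerm T (i + 1) = ⁅derTerm T i, derTerm T i⁆ := by
  rw [derTerm, derTerm, derivedSeries_succ, Subgroup.map_commutator]

/-- The subgroup generated by the last derived terms of all the Sylow `2`-subgroups. -/
def derClosure (H : Type w) [Group H] (m : ℕ) : Subgroup H := ⨆ T : Sylow 2 H, derTerm T m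

/-- The data read off from the blocks of a critical `3`-subgroup: on every block the last derived
term acts by at most one involution, and involutions of the term before commute with that term. -/
structure PureData (H : Type w) [Group H] (m : ℕ) (ι : Type v) where
  fix : ι → Subgroup H
  ker : ι → Subgroup H
  ker_le : ∀ i, ker i ≤ fix i
  ker_norm : ∀ i, ∀ x ∈ fix i, ∀ y ∈ ker i, x * y * x⁻¹ ∈ ker i
  der_le_fix : ∀ (T : Sylow 2 H) i, derTerm T m ≤ fix i
  sq : ∀ (T : Sylow 2 H), ∀ a ∈ derTerm T m, a * a = 1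
  pair : ∀ (T : Sylow 2 H) i, ∀ a ∈ derTerm T m, ∀ a' ∈ derTerm T m,
    a ∉ ker i → a' ∉ ker i → a⁻¹ * a' ∈ ker i
  inv_comm : ∀ (T : Sylow 2 H) i, ∀ n ∈ derTerm T (m - 1), ∀ b ∈ derTerm T (m - 1),
    n * n = 1 → ⁅n, b⁆ ∈ ker i
  faithful : ∀ x ∈ derClosure H m, (∃ k, x ^ 2 ^ k = 1) → (∀ i, x ∈ ker i) → x = 1

/-- A projective representation of a symplectic `q`-space: the inverted lifts on one block. -/
structure Heis (K : Type u) [Field K] (W : Type v) [AddCommGroup W] [Module K W] (q : ℕ)
    (Y : Type w) [AddCommGroup Y] where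
  ζ : K
  hζ : IsPrimitiveRoot ζ q
  ω : Y →+ Y →+ ZMod q
  alt : ∀ y, ω y y = 0
  nondeg : ∀ y, (∀ z, ω y z = 0) → y = 0
  exp : ∀ y : Y, q • y = 0
  X : Y → Module.End K W
  X_zero : X 0 = 1
  X_neg : ∀ y, X y * X (-y) = 1
  X_nsmul : ∀ (n : ℕ) y, X (n • y) = X y ^ n
  X_add : ∀ y z, ∃ c : K, c ≠ 0 ∧ X y * X z = c • X (y + z)
  X_comm : ∀ y z, X y * X z = ζ ^ (ω y z).val • (X z * X y)

/-- The symmetric sum of a lift and its inverse. -/
def Heis.S {K : Type u} [Field K] {W : Type v} [AddCommGroup W] [Module K W] {q : ℕ} {Y : Type w}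
    [AddCommGroup Y] (P : Heis K W q Y) (y : Y) : Module.End K W := P.X y + P.X (-y)

end CfsgLib.TwoLengthDerived
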