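import Mathlib
import Cfsg.Agent.Lib.TwoLengthDerived.Defs

/-!
The iterated displacement predicate along a chain of subgroups.
-/

set_option autoImplicit false

namespace CfsgLib.TwoLengthDerived

universe u v w

variable {K : Type u} [Field K] {W : Type v} [AddCommGroup W] [Module K W] {H : Type w} [Group H]

/-- `f` is killed by every product `(τ xₖ₊ₙ₋₁ - 1) ⋯ (τ xₖ - 1)` with `xᵢ` in the `i`-th term. -/
def Kills (τ : H →* Module.End K W) (D : ℕ → Subgroup H) : ℕ → ℕ → Module.End K W → Prop
  | 0, _, f => f = 0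
  | n + 1, k, f => ∀ x ∈ D k, Kills τ D n (k + 1) ((τ x - 1) * f)

theorem kills_zero {τ : H →* Module.End K W} {D : ℕ → Subgroup H} {k : ℕ} {f : Module.End K W} :
    Kills τ D 0 k f ↔ f = 0 := by rw [Kills]

theorem kills_succ {τ : H →* Module.End K W} {D : ℕ → Subgroup H} {n k : ℕ} {f : Module.End K W} :
    Kills τ D (n + 1) k f ↔ ∀ x ∈ D k, Kills τ D n (k + 1) ((τ x - 1) * f) := by rw [Kills]

end CfsgLib.TwoLengthDerived
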