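import Mathlib
import Cfsg.Agent.Lib.TwoLengthDerived.Kills

/-!
Global hypotheses and the predicate of acting trivially on the space of a block.
-/

set_option autoImplicit false

open scoped commutatorElement

namespace CfsgLib.TwoLengthDerived

universe u v w

variable {K : Type u} [Field K] {V : Type v} [AddCommGroup V] [Module K V] {H : Type w} [Group H]

/-- The iterated displacement relations along the derived series of a Sylow `2`-subgroup. -/
def RelKills (ρ : H →* Module.End K V) (T : Sylow 2 H) (d : ℕ) : Prop :=
  Kills ρ (fun i => derTerm T i) d 0 1 ∧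
    ∀ k n, k + n = d → ∀ y ∈ derTerm T k, Kills ρ (fun i => derTerm T i) n k (ρ y - 1)

/-- `x` moves the elements of `Q` on the block `e` only within the radical of the commutator form. -/
def TrivB (ρ : H →* Module.End K V) (Q : Subgroup H) (e : Module.End K V) (x : H) : Prop :=
  ∀ g ∈ Q, ∀ h ∈ Q, ρ ⁅⁅x, g⁆, h⁆ * e = e

end CfsgLib.TwoLengthDerived
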