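import Cfsg.Agent.Lib.TwoLengthDerived.Defs

/-!
An involution inverting a projective representation of a symplectic space, fixed on the right by an
element moving the space, moves vectors only to their opposites or in a plane over three elements.
-/

set_option autoImplicit false
set_option linter.unusedSectionVars false

namespace CfsgLib.TwoLengthDerived

universe u v w

variable {K : Type u} [Field K] [CharP K 2] [IsAlgClosed K] {W : Type v} [AddCommGroup W] [Module K W]
  [FiniteDimensional K W] {q : ℕ} [Fact q.Prime] {Y : Type w} [AddCommGroup Y] [Finite Y] (P : Heis K W q Y)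
  {a β b : Module.End K W} {σ : Y →+ Y}

/-- In characteristic two a vanishing sum of two vectors means equality. -/
private theorem eq_of_add_eq_zero (K : Type u) [Field K] [CharP K 2] [Module K W] {x y : W} (h : x + y = 0) :
    x = y := by
  have h' : x = -y := eq_neg_of_add_eq_zero_left h
  rw [h', ← neg_one_smul K y, CharTwo.neg_eq (1 : K), one_smul]

private theorem q_pos (_P : Heis K W q Y) : 0 < q := (Fact.out : q.Prime).pos

private theorem X_pow_q (y : Y) : P.X y ^ q = 1 := by rw [← P.X_nsmul, P.exp, P.X_zero]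

private theorem X_left_inv (y : Y) (w : W) : P.X (-y) (P.X y w) = w := by
  have h := P.X_neg (-y)
  rw [neg_neg] at h
  exact LinearMap.congr_fun h w

private theorem commute_X {y z : Y} (h : P.ω y z = 0) : P.X y * P.X z = P.X z * P.X y := by
  rw [P.X_comm, h, ZMod.val_zero, pow_zero, one_smul]

private theorem zeta_ne_zero (_P : Heis K W q Y) : _P.ζ ≠ 0 := _P.hζ.ne_zero (Fact.out : q.Prime).ne_zero

private theorem cast_q_ne_zero (hq2 : q ≠ 2) : (q : K) ≠ 0 := by
  rw [Ne, CharP.cast_eq_zero_iff K 2]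
  intro h
  rcases (Nat.dvd_prime (Fact.out : q.Prime)).1 h with h' | h' <;> omega

/-- The projection to the eigenspace of `c` of an element of order dividing `q`. -/
private def proj (f : Module.End K W) (q : ℕ) (c : K) : Module.End K W :=
  ∑ j ∈ Finset.range q, (c⁻¹) ^ j • f ^ j

private theorem proj_spec {f : Module.End K W} {c : K} (hf : f ^ q = 1) (hc : c ^ q = 1) :
    f * proj f q c = c • proj f q c := by
  have hq : 0 < q := (Fact.out : q.Prime).pos
  have hc0 : c ≠ 0 := fun h => by rw [h, zero_pow hq.ne'] at hc; exact zero_ne_one hc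
  let F : ℕ → Module.End K W := fun j => (c⁻¹) ^ j • f ^ j
  have hstep : ∀ j, f * F j = c • F (j + 1) := fun j => by
    simp only [F]
    rw [mul_smul_comm, smul_smul, ← pow_succ', pow_succ' c⁻¹, ← mul_assoc, mul_inv_cancel₀ hc0, one_mul]
  have hper : F q = F 0 := by simp [F, hf, inv_pow, hc]
  have hshift : ∑ j ∈ Finset.range q, F (j + 1) = ∑ j ∈ Finset.range q, F j := by
    have h1 := Finset.sum_range_succ' F q
    have h2 := Finset.sum_range_succ F q
    rw [h2, hper] at h1
    exact (add_right_cancel h1).symm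
  rw [proj, Finset.mul_sum, show (∑ j ∈ Finset.range q, f * ((c⁻¹) ^ j • f ^ j)) =
    ∑ j ∈ Finset.range q, c • F (j + 1) from Finset.sum_congr rfl fun j _ => hstep j, ← Finset.smul_sum,
    hshift]

private theorem sum_proj {ζ : K} (hζ : IsPrimitiveRoot ζ q) (f : Module.End K W) :
    ∑ i ∈ Finset.range q, proj f q (ζ ^ i) = (q : K) • 1 := by
  have hq : 0 < q := (Fact.out : q.Prime).pos
  have hin : ∀ j ∈ Finset.range q, ∑ i ∈ Finset.range q, ((ζ ^ i)⁻¹) ^ j =
      if j = 0 then (q : K) else 0 := by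
    intro j hj
    split_ifs with h0
    · subst h0; simp
    · have hx : ∀ i, ((ζ ^ i)⁻¹) ^ j = ((ζ⁻¹) ^ j) ^ i := fun i => by
        rw [← inv_pow, ← pow_mul, mul_comm, pow_mul]
      simp only [hx]
      have hne : (ζ⁻¹) ^ j ≠ 1 := fun h =>
        h0 (Nat.eq_zero_of_dvd_of_lt ((hζ.inv.pow_eq_one_iff_dvd j).1 h) (Finset.mem_range.1 hj))
      have hone : ((ζ⁻¹) ^ j) ^ q = 1 := by rw [← pow_mul, mul_comm, pow_mul, hζ.inv.pow_eq_one, one_pow]
      rw [geom_sum_eq hne, hone, sub_self, zero_div]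
  simp only [proj]
  rw [Finset.sum_comm]
  simp only [← Finset.sum_smul]
  rw [Finset.sum_congr rfl fun j hj => by rw [hin j hj]]
  rw [Finset.sum_eq_single 0 (fun j _ hj => by rw [if_neg hj, zero_smul])
    (fun h => absurd (Finset.mem_range.2 hq) h), if_pos rfl, pow_zero]

/-- An eigenvector on which `β` does not vanish. -/
private theorem exists_eigen (hq2 : q ≠ 2) {ζ : K} (hζ : IsPrimitiveRoot ζ q) {f g β : Module.End K W}
    (hf : f ^ q = 1) {w : W} (hw : β w ≠ 0) :
    ∃ i : ℕ, ∃ v : W, f v = ζ ^ i • v ∧ β v ≠ 0 ∧ (Commute f g → ∀ c : K, g w = c • w → g v = c • v) := by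
  have hsum : ∑ i ∈ Finset.range q, β (proj f q (ζ ^ i) w) = (q : K) • β w := by
    rw [← map_sum, ← LinearMap.sum_apply, sum_proj hζ f, LinearMap.smul_apply, map_smul,
      Module.End.one_apply]
  obtain ⟨i, -, hi⟩ : ∃ i ∈ Finset.range q, β (proj f q (ζ ^ i) w) ≠ 0 := by
    by_contra hne
    push Not at hne
    rw [Finset.sum_eq_zero hne, eq_comm, smul_eq_zero] at hsum
    exact hsum.elim (cast_q_ne_zero hq2) hw
  refine ⟨i, proj f q (ζ ^ i) w, ?_, hi, fun hcomm c hc => ?_⟩
  · exact LinearMap.congr_fun (proj_spec hf (by rw [← pow_mul, mul_comm, pow_mul, hζ.pow_eq_one, one_pow])) w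
  · have hgp : Commute g (proj f q (ζ ^ i)) :=
      Commute.sum_right _ _ _ fun j _ => ((hcomm.symm.pow_right j).smul_right _)
    have := LinearMap.congr_fun hgp.eq w
    rw [Module.End.mul_apply, Module.End.mul_apply, hc, map_smul] at this
    exact this

private theorem beta_ne_zero_X {β : Module.End K W} (hβX : ∀ y, Commute β (P.X y)) {w : W} (hw : β w ≠ 0)
    (z : Y) : β (P.X z w) ≠ 0 := by
  intro h
  have e : β (P.X z w) = P.X z (β w) := LinearMap.congr_fun (hβX z).eq w
  rw [e] at h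
  exact hw (by rw [← X_left_inv P z (β w), h, map_zero])

/-- Translation of eigenvalues. -/
private theorem eigen_shift {y : Y} {c : K} {w : W} (h : P.X y w = c • w) (z : Y) :
    P.X y (P.X z w) = (P.ζ ^ (P.ω y z).val * c) • P.X z w := by
  have e := LinearMap.congr_fun (P.X_comm y z) w
  rw [Module.End.mul_apply, LinearMap.smul_apply, Module.End.mul_apply, h, map_smul, smul_smul] at e
  exact e

private theorem zeta_pow_add (r s : ZMod q) : P.ζ ^ r.val * P.ζ ^ s.val = P.ζ ^ (r + s).val := by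
  rw [← pow_add, ZMod.val_add]
  exact pow_eq_pow_mod _ P.hζ.pow_eq_one

private theorem zeta_natCast (i : ℕ) : P.ζ ^ i = P.ζ ^ ((i : ZMod q)).val := by
  rw [ZMod.val_natCast]
  exact pow_eq_pow_mod _ P.hζ.pow_eq_one

/-- An element inverting `X` inverts eigenvalues. -/
private theorem eigen_inv (haX : ∀ y, a * P.X y = P.X (-y) * a) {y : Y} {c : K} (hc : c ≠ 0) {w : W}
    (h : P.X y w = c • w) : P.X y (a w) = c⁻¹ • a w := by
  have e := LinearMap.congr_fun (haX (-y)) w
  rw [neg_neg, Module.End.mul_apply, Module.End.mul_apply] at e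
  rw [← e]
  have h2 : P.X (-y) w = c⁻¹ • w := by
    have h3 := congrArg (P.X (-y)) h
    rw [X_left_inv, map_smul] at h3
    rw [eq_inv_smul_iff₀ hc]
    exact h3.symm
  rw [h2, map_smul]

private theorem exists_omega {y : Y} (hy : y ≠ 0) (r : ZMod q) : ∃ z, P.ω y z = r := by
  obtain ⟨z, hz⟩ : ∃ z, P.ω y z ≠ 0 := by
    by_contra h
    push Not at h
    exact hy (P.nondeg y h)
  refine ⟨(r * (P.ω y z)⁻¹).val • z, ?_⟩
  rw [map_nsmul, nsmul_eq_mul, ZMod.natCast_zmod_val, inv_mul_cancel_right₀ hz]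

private theorem exists_omega₂ {y y' : Y} (hy : y ≠ 0) (hind : ∀ n : ℕ, n • y ≠ y') (r s : ZMod q) :
    ∃ z, P.ω y z = r ∧ P.ω y' z = s := by
  obtain ⟨z₁, hz₁⟩ := exists_omega P hy 1
  set t := P.ω y' z₁ with ht
  set y'' := y' - t.val • y with hy''
  have hy0 : y'' ≠ 0 := fun h => hind t.val (sub_eq_zero.1 h).symm
  have hω : ∀ z, P.ω y'' z = P.ω y' z - t * P.ω y z := fun z => by
    rw [hy'', map_sub, AddMonoidHom.sub_apply, map_nsmul, AddMonoidHom.nsmul_apply, nsmul_eq_mul,
      ZMod.natCast_zmod_val]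
  obtain ⟨z₂, hz₂⟩ := exists_omega P hy0 (s - t * r)
  refine ⟨z₂ + (r - P.ω y z₂).val • z₁, ?_, ?_⟩
  · rw [map_add, map_nsmul, nsmul_eq_mul, ZMod.natCast_zmod_val, hz₁, mul_one, add_sub_cancel]
  · rw [map_add, map_nsmul, nsmul_eq_mul, ZMod.natCast_zmod_val, ← ht]
    rw [hω] at hz₂
    linear_combination hz₂

/-- An eigenvector of `X y` with given eigenvalue on which `β` does not vanish. -/
private theorem exists_eigen₁ (hq2 : q ≠ 2) (hβX : ∀ y, Commute β (P.X y)) (hβ : β ≠ 0) {y : Y}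
    (hy : y ≠ 0) (r : ZMod q) : ∃ w, P.X y w = P.ζ ^ r.val • w ∧ β w ≠ 0 := by
  obtain ⟨w₀, hw₀⟩ : ∃ w, β w ≠ 0 := by
    by_contra h
    push Not at h
    exact hβ (LinearMap.ext h)
  obtain ⟨i, v, hv, hβv, -⟩ := exists_eigen hq2 P.hζ (g := 1) (X_pow_q P y) hw₀
  rw [zeta_natCast] at hv
  obtain ⟨z, hz⟩ := exists_omega P hy (r - (i : ZMod q))
  refine ⟨P.X z v, ?_, beta_ne_zero_X P hβX hβv z⟩
  rw [eigen_shift P hv z, hz, zeta_pow_add, sub_add_cancel]

/-- A common eigenvector of two commuting lifts with given eigenvalues on which `β` does not vanish. -/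
private theorem exists_eigen₂ (hq2 : q ≠ 2) (hβX : ∀ y, Commute β (P.X y)) (hβ : β ≠ 0) {y y' : Y}
    (hy : y ≠ 0) (hind : ∀ n : ℕ, n • y ≠ y') (h0 : P.ω y y' = 0) (r s : ZMod q) :
    ∃ w, P.X y w = P.ζ ^ r.val • w ∧ P.X y' w = P.ζ ^ s.val • w ∧ β w ≠ 0 := by
  obtain ⟨w₀, hw₀, hβ₀⟩ := exists_eigen₁ P hq2 hβX hβ hy r
  obtain ⟨i, v, hv, hβv, hkeep⟩ := exists_eigen hq2 P.hζ (g := P.X y) (X_pow_q P y') hβ₀
  have hvy : P.X y v = P.ζ ^ r.val • v := hkeep (commute_X P h0).symm _ hw₀
  rw [zeta_natCast] at hv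
  obtain ⟨z, hz, hz'⟩ := exists_omega₂ P hy hind 0 (s - (i : ZMod q))
  refine ⟨P.X z v, ?_, ?_, beta_ne_zero_X P hβX hβv z⟩
  · rw [eigen_shift P hvy z, hz, ZMod.val_zero, pow_zero, one_mul]
  · rw [eigen_shift P hv z, hz', zeta_pow_add, sub_add_cancel]

theorem S_eq_of_fixed (haX : ∀ y, a * P.X y = P.X (-y) * a) (hβX : ∀ y, Commute β (P.X y))
    (hbX : ∀ y, b * P.X y = P.X (σ y) * b) (hfix : b * (β * (a + 1)) = β * (a + 1)) (y : Y) :
    β * (a + 1) * P.S (σ y) = β * (a + 1) * P.S y := by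
  have hc : ∀ z, β * (a + 1) * P.S z = P.S z * (β * (a + 1)) := by
    intro z
    have h1 : Commute β (P.S z) := (hβX z).add_right (hβX (-z))
    have h2 : Commute (a + 1) (P.S z) := by
      refine Commute.add_left ?_ (Commute.one_left _)
      show a * (P.X z + P.X (-z)) = (P.X z + P.X (-z)) * a
      rw [mul_add, haX, haX, neg_neg, ← add_mul, add_comm]
    exact (h1.mul_left h2).eq
  have hb : b * P.S y = P.S (σ y) * b := by
    rw [Heis.S, mul_add, hbX, hbX, map_neg, ← add_mul]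
    rfl
  calc β * (a + 1) * P.S (σ y) = P.S (σ y) * (b * (β * (a + 1))) := by rw [hfix, hc]
    _ = b * (β * (a + 1) * P.S y) := by rw [← mul_assoc, ← hb, mul_assoc, hc]
    _ = β * (a + 1) * P.S y := by rw [← mul_assoc b, hfix]

private theorem zeta_inv_ne (hq2 : q ≠ 2) {z : K} (hz : IsPrimitiveRoot z q) : z ≠ z⁻¹ := by
  intro h
  have h2 : z ^ 2 = 1 := by
    rw [sq]
    nth_rewrite 2 [h]
    exact mul_inv_cancel₀ (hz.ne_zero (Fact.out : q.Prime).ne_zero)
  have h3 := Nat.le_of_dvd two_pos ((hz.pow_eq_one_iff_dvd 2).1 h2)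
  have := (Fact.out : q.Prime).two_le
  omega

/-- `φ = β (a + 1)` does not vanish on an eigenvector with an eigenvalue different from its inverse. -/
private theorem phi_ne_zero (haX : ∀ y, a * P.X y = P.X (-y) * a) (hβX : ∀ y, Commute β (P.X y))
    {y : Y} {c : K} (hc : c ≠ 0) (hcne : c ≠ c⁻¹) {w : W} (hw : P.X y w = c • w) (hβw : β w ≠ 0) :
    (β * (a + 1)) w ≠ 0 := by
  intro h
  rw [Module.End.mul_apply, LinearMap.add_apply, Module.End.one_apply, map_add] at h
  have e : β (a w) = β w := eq_of_add_eq_zero K h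
  have hc1 : ∀ v, P.X y (β v) = β (P.X y v) := fun v => (LinearMap.congr_fun (hβX y).eq v).symm
  have h1 := hc1 (a w)
  rw [eigen_inv P haX hc hw, map_smul, e, hc1, hw, map_smul] at h1
  exact hcne (smul_left_injective K hβw h1)

/-- The symmetric sum on an eigenvector. -/
private theorem S_apply {y : Y} {c : K} (hc : c ≠ 0) {w : W} (h : P.X y w = c • w) :
    P.S y w = (c + c⁻¹) • w := by
  have h2 : P.X (-y) w = c⁻¹ • w := by
    have h3 := congrArg (P.X (-y)) h
    rw [X_left_inv, map_smul] at h3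
    rw [eq_inv_smul_iff₀ hc]
    exact h3.symm
  rw [Heis.S, LinearMap.add_apply, h, h2, add_smul]

theorem orth_case (hq2 : q ≠ 2) (haX : ∀ y, a * P.X y = P.X (-y) * a) (haa : a * a = 1)
    (hβX : ∀ y, Commute β (P.X y)) (hβ : β ≠ 0) (hbX : ∀ y, b * P.X y = P.X (σ y) * b)
    (hfix : b * (β * (a + 1)) = β * (a + 1)) {y : Y} (hy : P.ω y (σ y) = 0) : σ y = y ∨ σ y = -y := by
  by_cases hy0 : y = 0
  · left; rw [hy0, map_zero]
  have hz0 := zeta_ne_zero P
  have hne := zeta_inv_ne hq2 P.hζ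
  have hq : 1 < q := (Fact.out : q.Prime).one_lt
  have h1v : ((1 : ZMod q)).val = 1 := by
    rw [ZMod.val_one_eq_one_mod, Nat.mod_eq_of_lt hq]
  have key := S_eq_of_fixed P haX hβX hbX hfix y
  by_cases hind : ∀ n : ℕ, n • y ≠ σ y
  · exfalso
    obtain ⟨w, hw, hw', hβw⟩ := exists_eigen₂ P hq2 hβX hβ hy0 hind hy 0 1
    rw [ZMod.val_zero, pow_zero] at hw
    rw [h1v, pow_one] at hw'
    have hφ := phi_ne_zero P haX hβX hz0 hne hw' hβw
    have e := LinearMap.congr_fun key w
    rw [Module.End.mul_apply, Module.End.mul_apply (β * (a + 1)) (P.S y), S_apply P hz0 hw',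
      S_apply P one_ne_zero hw, inv_one, CharTwo.add_self_eq_zero, zero_smul, map_zero, map_smul] at e
    have hsum : P.ζ + P.ζ⁻¹ ≠ 0 := fun h => hne (CharTwo.add_eq_zero.1 h)
    exact (smul_eq_zero.1 e).elim hsum hφ
  · push Not at hind
    obtain ⟨n, hn⟩ := hind
    obtain ⟨w, hw, hβw⟩ := exists_eigen₁ P hq2 hβX hβ hy0 1
    rw [h1v, pow_one] at hw
    have hpow : ∀ m : ℕ, (P.X y ^ m) w = P.ζ ^ m • w := by
      intro m
      induction m with
      | zero => simp
      | succ m ih => rw [pow_succ', Module.End.mul_apply, ih, map_smul, hw, smul_smul, ← pow_succ]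
    have hw' : P.X (σ y) w = P.ζ ^ n • w := by rw [← hn, P.X_nsmul, hpow]
    have hφ := phi_ne_zero P haX hβX hz0 hne hw hβw
    have e := LinearMap.congr_fun key w
    rw [Module.End.mul_apply, Module.End.mul_apply (β * (a + 1)) (P.S y), S_apply P (pow_ne_zero _ hz0) hw',
      S_apply P hz0 hw, map_smul, map_smul] at e
    have e' := smul_left_injective K hφ e
    have hn0 : P.ζ ^ n ≠ 0 := pow_ne_zero _ hz0
    have hprod : (P.ζ ^ n - P.ζ) * (P.ζ ^ n * P.ζ - 1) = 0 := by
      field_simp at e'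
      linear_combination e'
    rcases mul_eq_zero.1 hprod with h | h
    · left
      have h2 : P.ζ ^ n = P.ζ ^ 1 := by rw [pow_one]; exact sub_eq_zero.1 h
      rw [zeta_natCast, zeta_natCast P 1] at h2
      have h3 := ZMod.val_injective q (P.hζ.pow_inj (ZMod.val_lt _) (ZMod.val_lt _) h2)
      have h4 : (n % q) = 1 := by
        have := congrArg ZMod.val h3
        rwa [ZMod.val_natCast, ZMod.val_natCast, Nat.mod_eq_of_lt hq] at this
      rw [← hn, ← Nat.mod_add_div n q, add_nsmul, mul_comm q, mul_nsmul, P.exp, h4, one_nsmul,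
        add_zero]
    · right
      have h2 : P.ζ ^ (n + 1) = 1 := by rw [pow_succ]; exact sub_eq_zero.1 h
      obtain ⟨d, hd⟩ := (P.hζ.pow_eq_one_iff_dvd _).1 h2
      rw [← hn, eq_neg_iff_add_eq_zero, ← succ_nsmul, hd, mul_nsmul, P.exp, nsmul_zero]

theorem q_eq_three (hq2 : q ≠ 2) (haX : ∀ y, a * P.X y = P.X (-y) * a) (haa : a * a = 1)
    (hβX : ∀ y, Commute β (P.X y)) (hβ : β ≠ 0) (hbX : ∀ y, b * P.X y = P.X (σ y) * b)
    (hfix : b * (β * (a + 1)) = β * (a + 1)) {y : Y} (hy : P.ω y (σ y) ≠ 0) : q = 3 := by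
  by_contra hq3
  have hprime : q.Prime := Fact.out
  have hy0 : y ≠ 0 := fun h => hy (by rw [h, map_zero, AddMonoidHom.zero_apply])
  set r := P.ω y (σ y) with hr
  set z := P.ζ ^ r.val with hzdef
  have hz : IsPrimitiveRoot z q := by
    refine P.hζ.pow_of_coprime _ ((hprime.coprime_iff_not_dvd.2 fun h => hy ?_).symm)
    have := Nat.eq_zero_of_dvd_of_lt h (ZMod.val_lt r)
    exact (ZMod.val_eq_zero r).1 this
  have hz0 : z ≠ 0 := hz.ne_zero hprime.ne_zero
  have hpw : ∀ m : ℕ, 0 < m → m < 5 → z ^ m ≠ 1 := by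
    intro m hm hm5 h
    have hd := (hz.pow_eq_one_iff_dvd m).1 h
    have hle := Nat.le_of_dvd hm hd
    have h2 := hprime.two_le
    rcases (show q = 2 ∨ q = 3 ∨ q = 4 by omega) with e | e | e
    · exact hq2 e
    · exact hq3 e
    · exact absurd (e ▸ hprime) (by decide)
  obtain ⟨w, hw, hβw⟩ := exists_eigen₁ P hq2 hβX hβ hy0 r
  rw [← hzdef] at hw
  have hu : P.X y (P.X (σ y) w) = (z * z) • P.X (σ y) w := by
    rw [eigen_shift P hw, ← hr, ← hzdef]
  have hu' : P.X y (P.X (-σ y) w) = (1 : K) • P.X (-σ y) w := by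
    rw [eigen_shift P hw, map_neg, ← hr]
    congr 1
    rw [hzdef, zeta_pow_add, neg_add_cancel, ZMod.val_zero, pow_zero]
  set φ := β * (a + 1) with hφ
  -- the relation
  have key : φ (P.X (σ y) w) + φ (P.X (-σ y) w) + φ ((z + z⁻¹) • w) = 0 := by
    have e := LinearMap.congr_fun (S_eq_of_fixed P haX hβX hbX hfix y) w
    rw [Module.End.mul_apply, Module.End.mul_apply (β * (a + 1)) (P.S y), S_apply P hz0 hw, Heis.S,
      LinearMap.add_apply, map_add] at e
    rw [hφ, e, ← two_smul K, CharTwo.two_eq_zero, zero_smul]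
  let g := P.X y
  let T : Module.End K W := (g - (1 : K) • 1) * ((g - z • 1) * ((g - z⁻¹ • 1) * (g - (z * z)⁻¹ • 1)))
  have hT : ∀ (v : W) (e : K), g v = e • v →
      T v = ((e - 1) * ((e - z) * ((e - z⁻¹) * (e - (z * z)⁻¹)))) • v := by
    intro v e hv
    have h1 : ∀ c : K, (g - c • (1 : Module.End K W)) v = (e - c) • v := fun c => by
      rw [LinearMap.sub_apply, LinearMap.smul_apply, Module.End.one_apply, hv, sub_smul]
    simp only [T, Module.End.mul_apply, h1, map_smul, smul_smul]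
    congr 1
    ring
  have hβe : ∀ (v : W) (e : K), g v = e • v → g (β v) = e • β v := fun v e hv => by
    rw [show g (β v) = β (g v) from (LinearMap.congr_fun (hβX y).eq v).symm, hv, map_smul]
  have expand : ∀ v : W, φ v = β (a v) + β v := fun v => by
    rw [hφ, Module.End.mul_apply, LinearMap.add_apply, Module.End.one_apply, map_add]
  have e := congrArg T key
  simp only [expand, map_add, map_zero] at e
  have hzz : z * z ≠ 0 := mul_ne_zero hz0 hz0
  rw [hT _ _ (hβe _ _ (eigen_inv P haX hzz hu)), hT _ _ (hβe _ _ hu),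
    hT _ _ (hβe _ _ (eigen_inv P haX one_ne_zero hu')), hT _ _ (hβe _ _ hu'),
    map_smul a, map_smul β, map_smul β, map_smul T, map_smul T,
    hT _ _ (hβe _ _ (eigen_inv P haX hz0 hw)), hT _ _ (hβe _ _ hw)] at e
  simp only [sub_self, zero_mul, mul_zero, inv_one, zero_smul, smul_zero, add_zero, zero_add] at e
  rcases smul_eq_zero.1 e with h | h
  · have p2 := hpw 2 (by norm_num) (by norm_num)
    have p1 := hpw 1 (by norm_num) (by norm_num)
    have p3 := hpw 3 (by norm_num) (by norm_num)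
    have p4 := hpw 4 (by norm_num) (by norm_num)
    rcases mul_eq_zero.1 h with h | h
    · exact p2 (by rw [sq]; exact sub_eq_zero.1 h)
    rcases mul_eq_zero.1 h with h | h
    · exact p1 (mul_left_cancel₀ hz0 (by rw [pow_one, mul_one]; exact sub_eq_zero.1 h))
    rcases mul_eq_zero.1 h with h | h
    · apply p3
      have h' := sub_eq_zero.1 h
      calc z ^ 3 = z * z * z := by ring
        _ = z⁻¹ * z := by rw [h']
        _ = 1 := inv_mul_cancel₀ hz0
    · apply p4
      have h' := sub_eq_zero.1 h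
      calc z ^ 4 = z * z * (z * z) := by ring
        _ = (z * z)⁻¹ * (z * z) := by nth_rewrite 1 [h']; rfl
        _ = 1 := inv_mul_cancel₀ hzz
  · exact beta_ne_zero_X P hβX hβw (σ y) h

theorem card_eq_nine {Y : Type w} [AddCommGroup Y] [Finite Y] [Nontrivial Y] (ω : Y →+ Y →+ ZMod 3)
    (halt : ∀ y, ω y y = 0) (hnd : ∀ y, (∀ z, ω y z = 0) → y = 0) (h3 : ∀ y : Y, 3 • y = 0)
    (i : Y →+ Y) (hi : ∀ y, i (i y) = -y) (hiω : ∀ y z, ω (i y) (i z) = ω y z)
    (hanis : ∀ y, ω y (i y) = 0 → i y = y ∨ i y = -y) : Nat.card Y = 9 := by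
  have hsk : ∀ x y, ω x y = -ω y x := fun x y => by
    have h := halt (x + y)
    simp only [map_add, AddMonoidHom.add_apply, halt, zero_add, add_zero] at h
    exact eq_neg_of_add_eq_zero_right h
  have hf : ∀ x, x ≠ 0 → ω x (i x) ≠ 0 := by
    intro x hx h
    refine hx ?_
    have h2 : -x = x := by
      rcases hanis x h with e | e
      · calc -x = i (i x) := (hi x).symm
          _ = x := by rw [e, e]
      · calc -x = i (i x) := (hi x).symm
          _ = x := by rw [e, map_neg, e, neg_neg]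
    have h4 : x + x = 0 := by nth_rewrite 1 [← h2]; exact neg_add_cancel x
    calc x = 3 • x - (x + x) := by abel
      _ = 0 := by rw [h3, h4, sub_zero]
  obtain ⟨y, hy⟩ := exists_ne (0 : Y)
  set f := ω y (i y) with hfdef
  have hf0 : f ≠ 0 := hf y hy
  have hdec : ∀ a b : ZMod 3, a ≠ 0 → b ≠ 0 → a + b ≠ 0 → b = a := by decide
  -- nothing is orthogonal to both
  have horth : ∀ z₀, ω y z₀ = 0 → ω (i y) z₀ = 0 → z₀ = 0 := by
    intro z₀ h1 h2
    by_contra hz₀
    have ho : ∀ x, ω y x = 0 → ω (i y) x = 0 → ω y (i x) = 0 ∧ ω (i y) (i x) = 0 := by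
      intro x hx hx'
      refine ⟨?_, by rw [hiω, hx]⟩
      rw [← hiω y (i x), hi, map_neg, hx', neg_zero]
    have hval : ∀ x, x ≠ 0 → ω y x = 0 → ω (i y) x = 0 → ω x (i x) = f := by
      intro x hx hx1 hx2
      refine hdec f _ hf0 (hf x hx) fun h => ?_
      have hne : y + x ≠ 0 := fun e => by
        rw [eq_neg_of_add_eq_zero_right e, map_neg, neg_eq_zero, hsk, neg_eq_zero] at hx2
        exact hf0 hx2
      refine hf _ hne ?_
      simp only [map_add, AddMonoidHom.add_apply, (ho x hx1 hx2).1, hsk x (i y), hx2, neg_zero, add_zero]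
      rw [zero_add]
      exact h
    set z₁ := i z₀
    obtain ⟨h1', h2'⟩ := ho z₀ h1 h2
    have hz₁ : z₁ ≠ 0 := fun e => hz₀ (by
      have := congrArg i e
      rwa [hi, map_zero, neg_eq_zero] at this)
    have e2 : ω (z₀ + z₁) (i (z₀ + z₁)) = f + f := by
      have c1 : ω z₀ (i z₁) = 0 := by rw [hi, map_neg, halt, neg_zero]
      have c2 : ω z₁ (i z₀) = 0 := halt _
      simp only [map_add, AddMonoidHom.add_apply, c1, c2, hval z₀ hz₀ h1 h2, hval z₁ hz₁ h1' h2',
        add_zero, zero_add]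
    have hff : ∀ a : ZMod 3, a ≠ 0 → a + a ≠ a ∧ a + a ≠ 0 := by decide
    by_cases hs : z₀ + z₁ = 0
    · rw [hs, map_zero, map_zero] at e2
      exact (hff f hf0).2 e2.symm
    · rw [hval _ hs (by rw [map_add, h1, h1', add_zero]) (by rw [map_add, h2, h2', add_zero])] at e2
      exact (hff f hf0).1 e2.symm
  let Φ : Y →+ ZMod 3 × ZMod 3 := (ω y).prod (ω (i y))
  have hΦ : Function.Bijective Φ := by
    refine ⟨(injective_iff_map_eq_zero Φ).2 fun x hx =>
      horth x (congrArg Prod.fst hx) (congrArg Prod.snd hx), fun p => ?_⟩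
    have hfs : ∀ a : ZMod 3, a ≠ 0 → a * a = 1 := by decide
    refine ⟨(p.1 * f).val • i y + (-(p.2 * f)).val • y, Prod.ext ?_ ?_⟩
    · show ω y _ = p.1
      simp only [map_add, map_nsmul, halt, ← hfdef, nsmul_eq_mul, ZMod.natCast_zmod_val, mul_zero, add_zero]
      rw [mul_assoc, hfs f hf0, mul_one]
    · show ω (i y) _ = p.2
      simp only [map_add, map_nsmul, halt, hsk (i y) y, ← hfdef, nsmul_eq_mul, ZMod.natCast_zmod_val,
        mul_zero, zero_add]
      rw [neg_mul_neg, mul_assoc, hfs f hf0, mul_one]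
  rw [Nat.card_congr (Equiv.ofBijective _ hΦ), Nat.card_prod, Nat.card_zmod]

end CfsgLib.TwoLengthDerived
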