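import Mathlib
import Cfsg.Agent.Lib.TwoLengthDerived.Defs

/-!
The symplectic space of a `q`-group with scalar commutators on a block, and the action of the
group on it.
-/

set_option autoImplicit false
set_option linter.style.haveILetI false
set_option linter.unusedSectionVars false

open scoped commutatorElement

namespace CfsgLib.TwoLengthDerived

universe u v w

variable {K : Type u} [Field K] {W : Type v} [AddCommGroup W] [Module K W] {L : Type w} [Group L]

/-- The space `Q / rad` of a normal `q`-subgroup whose commutators act by scalars, with the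
commutator form and the conjugation action. -/
structure BlockSpace (τ : L →* Module.End K W) (Q : Subgroup L) [Q.Normal] (q : ℕ)
    (S : Type w) [AddCommGroup S] where
  ζ : K
  hζ : IsPrimitiveRoot ζ q
  pr : Q → S
  pr_mul : ∀ g h, pr (g * h) = pr g + pr h
  surj : Function.Surjective pr
  exp : ∀ s : S, q • s = 0
  ω : S →+ S →+ ZMod q
  alt : ∀ s, ω s s = 0
  nondeg : ∀ s, (∀ t, ω s t = 0) → s = 0
  comm : ∀ g h : Q, τ g * τ h = ζ ^ (ω (pr g) (pr h)).val • (τ h * τ g)
  σ : L →* AddMonoid.End S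
  σ_pr : ∀ (x : L) (g : Q),
    σ x (pr g) = pr ⟨x * g * x⁻¹, (inferInstance : Q.Normal).conj_mem _ g.2 x⟩
  σω : ∀ x s t, ω (σ x s) (σ x t) = ω s t

variable {τ : L →* Module.End K W} {Q : Subgroup L} [Q.Normal] {q : ℕ}

theorem tau_mul_inv (τ : L →* Module.End K W) (x : L) : τ x * τ x⁻¹ = 1 := by
  rw [← map_mul, mul_inv_cancel, map_one]

theorem tau_inv_mul (τ : L →* Module.End K W) (x : L) : τ x⁻¹ * τ x = 1 := by
  rw [← map_mul, inv_mul_cancel, map_one]

theorem tau_ne_zero [Nontrivial W] (τ : L →* Module.End K W) (x : L) : τ x ≠ 0 := fun h => by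
  have h1 := tau_mul_inv τ x
  rw [h, zero_mul] at h1
  exact zero_ne_one h1

theorem smul_cancel [Nontrivial W] {c c' : K} {x : L} (h : c • τ x = c' • τ x) : c = c' := by
  by_contra hne
  exact tau_ne_zero τ x ((smul_eq_zero.1 (by rw [sub_smul, h, sub_self] : (c - c') • τ x = 0)).resolve_left
    (sub_ne_zero.2 hne))

theorem zeta_pow_add [NeZero q] {ζ : K} (hζ : IsPrimitiveRoot ζ q) (a b : ZMod q) :
    ζ ^ (a + b).val = ζ ^ a.val * ζ ^ b.val := by
  rw [← pow_add, ZMod.val_add]
  exact (pow_eq_pow_mod _ hζ.pow_eq_one).symm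

theorem zeta_pow_inj [NeZero q] {ζ : K} (hζ : IsPrimitiveRoot ζ q) {a b : ZMod q}
    (h : ζ ^ a.val = ζ ^ b.val) : a = b :=
  ZMod.val_injective q (hζ.pow_inj (ZMod.val_lt a) (ZMod.val_lt b) h)

theorem exists_blockSpace [IsAlgClosed K] [Nontrivial W] [Finite L] [Fact q.Prime]
    (hqK : (q : K) ≠ 0)
    (hcomm : ∀ a ∈ Q, ∀ b ∈ Q, ∃ c : K, τ ⁅a, b⁆ = c • 1)
    (hpow : ∀ g ∈ Q, ∃ c : K, τ (g ^ q) = c • 1) :
    ∃ (S : Type w) (_ : AddCommGroup S) (_ : Finite S), Nonempty (BlockSpace τ Q q S) := by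
  classical
  haveI : NeZero (q : K) := ⟨hqK⟩
  haveI : NeZero q := ⟨(Fact.out : q.Prime).ne_zero⟩
  obtain ⟨ζ, hζ⟩ := HasEnoughRootsOfUnity.exists_primitiveRoot K q
  -- the exponent of the commutation scalar
  have hex : ∀ g h : Q, ∃ v : ZMod q, τ g * τ h = ζ ^ v.val • (τ h * τ g) := by
    intro g h
    obtain ⟨c, hc⟩ := hcomm g g.2 h h.2
    have h1 : τ g * τ h = c • (τ h * τ g) := by
      rw [← map_mul, ← map_mul, show (g : L) * h = ⁅(g : L), (h : L)⁆ * (h * g) by
        rw [commutatorElement_def]; group, map_mul, hc, smul_mul_assoc, one_mul]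
    have h2 : ∀ n : ℕ, τ g ^ n * τ h = c ^ n • (τ h * τ g ^ n) := by
      intro n
      induction n with
      | zero => simp
      | succ n ih =>
        rw [pow_succ', mul_assoc, ih, mul_smul_comm, ← mul_assoc, h1, smul_mul_assoc, smul_smul,
          mul_assoc, ← pow_succ' (τ g), ← pow_succ]
    obtain ⟨d, hd⟩ := hpow g g.2
    have h3 := h2 q
    rw [← map_pow, hd, smul_mul_assoc, one_mul, mul_smul_comm, mul_one, smul_smul] at h3
    have hd0 : d ≠ 0 := fun h0 => tau_ne_zero τ ((g : L) ^ q) (by rw [hd, h0, zero_smul])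
    have h4 : c ^ q = 1 := by
      have h5 := smul_cancel h3
      rw [mul_comm] at h5
      exact (mul_eq_left₀ hd0).1 h5.symm
    obtain ⟨i, hi, hic⟩ := hζ.eq_pow_of_pow_eq_one h4
    exact ⟨i, by rw [ZMod.val_natCast, Nat.mod_eq_of_lt hi, hic, h1]⟩
  choose e he using hex
  have huniq : ∀ (g h : Q) (v : ZMod q), τ g * τ h = ζ ^ v.val • (τ h * τ g) → e g h = v := by
    intro g h v hv
    refine zeta_pow_inj hζ ?_
    have := (he g h).symm.trans hv
    rw [← map_mul] at this
    exact smul_cancel this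
  have hadd₁ : ∀ g g' h : Q, e (g * g') h = e g h + e g' h := by
    intro g g' h
    refine huniq _ _ _ ?_
    rw [Subgroup.coe_mul, map_mul, mul_assoc, he g' h, mul_smul_comm, ← mul_assoc, he g h,
      smul_mul_assoc, smul_smul, zeta_pow_add hζ, mul_comm, mul_assoc]
  have hadd₂ : ∀ g h h' : Q, e g (h * h') = e g h + e g h' := by
    intro g h h'
    refine huniq _ _ _ ?_
    rw [Subgroup.coe_mul, map_mul, ← mul_assoc, he g h, smul_mul_assoc, mul_assoc, he g h',
      mul_smul_comm, smul_smul, ← mul_assoc, zeta_pow_add hζ]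
  have halt : ∀ g, e g g = 0 := fun g => huniq _ _ _ (by simp)
  have hskew : ∀ g h, e g h = - e h g := fun g h => by
    have h1 := halt (g * h)
    rw [hadd₁, hadd₂, hadd₂, halt, halt, zero_add, add_zero] at h1
    exact eq_neg_of_add_eq_zero_left h1
  let rad : Subgroup Q :=
    { carrier := {g | ∀ h, e g h = 0}
      one_mem' := fun h => huniq _ _ _ (by simp)
      mul_mem' := fun {a b} ha hb h => by rw [hadd₁, ha h, hb h, add_zero]
      inv_mem' := fun {a} ha h => by
        have h1 := hadd₁ a a⁻¹ h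
        rw [mul_inv_cancel, ha h, zero_add] at h1
        rw [← h1]
        exact huniq _ _ _ (by simp) }
  have hcommrad : ∀ a b : Q, ⁅a, b⁆ ∈ rad := fun a b h => by
    obtain ⟨c, hc⟩ := hcomm a a.2 b b.2
    refine huniq _ _ _ ?_
    rw [show (((⁅a, b⁆ : Q)) : L) = ⁅(a : L), (b : L)⁆ from rfl, hc, ZMod.val_zero, pow_zero, one_smul,
      smul_mul_assoc, one_mul, mul_smul_comm, mul_one]
  haveI : rad.Normal := ⟨fun a ha b => by
    rw [show b * a * b⁻¹ = ⁅b, a⁆ * a by rw [commutatorElement_def]; group]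
    exact rad.mul_mem (hcommrad b a) ha⟩
  have hcm : ∀ a b : Q ⧸ rad, a * b = b * a := fun a b => by
    induction a using QuotientGroup.induction_on with | _ a =>
    induction b using QuotientGroup.induction_on with | _ b =>
    rw [← QuotientGroup.mk_mul, ← QuotientGroup.mk_mul, QuotientGroup.eq,
      show (a * b)⁻¹ * (b * a) = ⁅b⁻¹, a⁻¹⁆ by rw [commutatorElement_def]; group]
    exact hcommrad _ _
  letI : CommGroup (Q ⧸ rad) := { (inferInstance : Group (Q ⧸ rad)) with mul_comm := hcm }
  let S := Additive (Q ⧸ rad)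
  let mk : Q → S := fun g => Additive.ofMul (g : Q ⧸ rad)
  have hmk : ∀ g h, mk (g * h) = mk g + mk h := fun g h => rfl
  have hsurj : Function.Surjective mk := fun s => by
    obtain ⟨g, hg⟩ := QuotientGroup.mk_surjective (Additive.toMul s)
    exact ⟨g, congrArg Additive.ofMul hg⟩
  have hwd : ∀ g g' : Q, mk g = mk g' → ∀ h, e g h = e g' h ∧ e h g = e h g' := by
    intro g g' hgg h
    have h1 : g⁻¹ * g' ∈ rad := QuotientGroup.eq.1 (congrArg Additive.toMul hgg)
    have h2 : e g' h = e g h := by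
      conv_lhs => rw [← mul_inv_cancel_left g g']
      rw [hadd₁, h1 h, add_zero]
    exact ⟨h2.symm, by rw [hskew h g, hskew h g', h2]⟩
  let lift : S → Q := Function.surjInv hsurj
  have hlift : ∀ s, mk (lift s) = s := Function.surjInv_eq hsurj
  let ω : S →+ S →+ ZMod q := AddMonoidHom.mk' (fun s => AddMonoidHom.mk' (fun t => e (lift s) (lift t))
      (fun t t' => by
        rw [← hadd₂]
        exact (hwd (lift (t + t')) (lift t * lift t') (by rw [hlift, hmk, hlift, hlift]) _).2))
    (fun s s' => AddMonoidHom.ext fun t => by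
      show e (lift (s + s')) (lift t) = e (lift s) (lift t) + e (lift s') (lift t)
      rw [← hadd₁]
      exact (hwd (lift (s + s')) (lift s * lift s') (by rw [hlift, hmk, hlift, hlift]) _).1)
  have hω : ∀ g h, ω (mk g) (mk h) = e g h := fun g h => by
    show e (lift (mk g)) (lift (mk h)) = e g h
    rw [(hwd _ g (hlift _) _).1, (hwd _ h (hlift _) _).2]
  have hconj : ∀ (x : L) (g h : Q), e (MulAut.conjNormal x g) (MulAut.conjNormal x h) = e g h := by
    intro x g h
    refine huniq _ _ _ ?_
    rw [MulAut.conjNormal_apply, MulAut.conjNormal_apply]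
    have h1 := congrArg (fun f => τ x * f * τ x⁻¹) (he g h)
    simp only [mul_smul_comm, smul_mul_assoc, ← map_mul] at h1
    rw [← map_mul, ← map_mul]
    convert h1 using 2
    · group
    · congr 1; group
  have hradconj : ∀ (x : L), rad ≤ rad.comap (MulAut.conjNormal x : MulAut Q).toMonoidHom := by
    intro x g hg h
    show e (MulAut.conjNormal x g) h = 0
    conv_lhs => rw [← (MulAut.conjNormal x : MulAut Q).apply_symm_apply h]
    rw [hconj]
    exact hg _
  let act : L → AddMonoid.End S := fun x =>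
    MonoidHom.toAdditive (QuotientGroup.map rad rad (MulAut.conjNormal x : MulAut Q).toMonoidHom
      (hradconj x))
  have hact : ∀ x g, act x (mk g) = mk (MulAut.conjNormal x g) := fun x g => rfl
  let σ : L →* AddMonoid.End S :=
    { toFun := act
      map_one' := AddMonoidHom.ext fun s => by
        obtain ⟨g, rfl⟩ := hsurj s
        refine (hact 1 g).trans ?_
        rw [map_one]; rfl
      map_mul' := fun x y => AddMonoidHom.ext fun s => by
        obtain ⟨g, rfl⟩ := hsurj s
        refine (hact (x * y) g).trans ?_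
        rw [map_mul]
        show _ = act x (act y (mk g))
        rw [hact, hact]; rfl }
  refine ⟨S, inferInstance, (inferInstance : Finite (Q ⧸ rad)), ⟨{
    ζ := ζ, hζ := hζ, pr := mk, pr_mul := hmk, surj := hsurj, ω := ω, σ := σ
    exp := fun s => ?_, alt := fun s => halt _, nondeg := fun s hs => ?_
    comm := fun g h => ?_, σ_pr := fun x g => ?_, σω := fun x s t => ?_ }⟩⟩
  · obtain ⟨g, rfl⟩ := hsurj s
    show Additive.ofMul ((g : Q ⧸ rad) ^ q) = 0
    rw [← QuotientGroup.mk_pow, (QuotientGroup.eq_one_iff _).2 (show g ^ q ∈ rad from fun h => ?_)]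
    · rfl
    obtain ⟨d, hd⟩ := hpow g g.2
    refine huniq _ _ _ ?_
    rw [Subgroup.coe_pow, hd, ZMod.val_zero, pow_zero, one_smul, smul_mul_assoc, one_mul, mul_smul_comm,
      mul_one]
  · obtain ⟨g, rfl⟩ := hsurj s
    exact congrArg Additive.ofMul ((QuotientGroup.eq_one_iff g).2 fun h => (hω g h).symm.trans (hs (mk h)))
  · rw [hω]; exact he g h
  · show mk (MulAut.conjNormal x g) = _
    exact congrArg mk (Subtype.ext (MulAut.conjNormal_apply x g))
  · obtain ⟨g, rfl⟩ := hsurj s
    obtain ⟨h, rfl⟩ := hsurj t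
    show ω (act x (mk g)) (act x (mk h)) = _
    rw [hact, hact, hω, hω, hconj]

end CfsgLib.TwoLengthDerived
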