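import Mathlib
import Cfsg.Agent.Lib.TwoLengthDerived.Space

/-!
A subgroup acting quadratically on a block: it acts by at most one involution on the symplectic
space, and the inverted lifts give a projective representation of the inverted part.
-/

set_option autoImplicit false
set_option linter.style.haveILetI false
set_option linter.unusedSectionVars false

open scoped commutatorElement

namespace CfsgLib.TwoLengthDerived

universe u v w

variable {K : Type u} [Field K] [CharP K 2] {W : Type v} [AddCommGroup W] [Module K W] [Nontrivial W]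

theorem end_add_self (f : Module.End K W) : f + f = 0 := by
  rw [← two_smul K f, CharTwo.two_eq_zero, zero_smul]

theorem end_sub_one (f : Module.End K W) : f - 1 = f + 1 :=
  sub_eq_iff_eq_add.2 (by rw [add_assoc, end_add_self, add_zero])

variable {L : Type w} [Group L] [Finite L] {τ : L →* Module.End K W} {Q : Subgroup L} [Q.Normal]
  {q : ℕ} [Fact q.Prime] {S : Type w} [AddCommGroup S]

theorem two_nsmul_inj (hq2 : q ≠ 2) {M : Type*} [AddCommGroup M] (hexp : ∀ m : M, q • m = 0) {m : M}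
    (h : m + m = 0) : m = 0 := by
  obtain ⟨n, hn⟩ := (Fact.out : q.Prime).odd_of_ne_two hq2
  have h1 := hexp m
  rw [hn, add_nsmul, one_nsmul, mul_nsmul, two_nsmul, h, nsmul_zero, zero_add] at h1
  exact h1

theorem eq_one_of_mul_self (hq2 : q ≠ 2) (hQ : IsPGroup q Q) {r : L} (hr : r ∈ Q)
    (h : τ r * τ r = 1) : τ r = 1 := by
  obtain ⟨k, hk⟩ := hQ ⟨r, hr⟩
  obtain ⟨n, hn⟩ := ((Fact.out : q.Prime).odd_of_ne_two hq2).pow (n := k)
  have h1 : r ^ (q ^ k) = 1 := congrArg Subtype.val hk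
  have h2 := congrArg τ h1
  rw [map_pow, map_one, hn, pow_succ, pow_mul, pow_two, h, one_pow, one_mul] at h2
  exact h2

namespace BlockSpace

variable (P : BlockSpace τ Q q S)

theorem pr_one : P.pr 1 = 0 := by
  have h := P.pr_mul 1 1
  rw [mul_one, left_eq_add] at h
  exact h

theorem pr_inv (g : Q) : P.pr g⁻¹ = - P.pr g :=
  eq_neg_of_add_eq_zero_left (by rw [← P.pr_mul, inv_mul_cancel, P.pr_one])

theorem pr_pow (g : Q) (n : ℕ) : P.pr (g ^ n) = n • P.pr g := by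
  induction n with
  | zero => rw [pow_zero, P.pr_one, zero_nsmul]
  | succ n ih => rw [pow_succ, P.pr_mul, ih, succ_nsmul]

theorem skew (s t : S) : P.ω s t = - P.ω t s := by
  have h1 := P.alt (s + t)
  simp only [map_add, AddMonoidHom.add_apply, P.alt, zero_add, add_zero] at h1
  exact eq_neg_of_add_eq_zero_left (by rw [add_comm]; exact h1)

theorem comm_of_omega {g h : Q} (hgh : P.ω (P.pr g) (P.pr h) = 0) : Commute (τ g) (τ h) := by
  have h1 := P.comm g h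
  rw [hgh, ZMod.val_zero, pow_zero, one_smul] at h1
  exact h1

theorem comm_rad {g : Q} (hg : P.pr g = 0) (h : Q) : Commute (τ g) (τ h) :=
  P.comm_of_omega (by rw [hg, map_zero, AddMonoidHom.zero_apply])

theorem omega_eq_zero {g h : Q} {f : Module.End K W} (hf : f ≠ 0) (hc : τ g * τ h * f = τ h * τ g * f) :
    P.ω (P.pr g) (P.pr h) = 0 := by
  haveI : NeZero q := ⟨(Fact.out : q.Prime).ne_zero⟩
  rw [P.comm g h, smul_mul_assoc] at hc
  have hne : τ h * τ g * f ≠ 0 := by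
    intro h0
    refine hf ?_
    have h1 := congrArg (fun z => τ (g : L)⁻¹ * (τ (h : L)⁻¹ * z)) h0
    simp only [mul_zero] at h1
    rwa [mul_assoc (τ (h : L)), ← mul_assoc (τ (h : L)⁻¹), tau_inv_mul, one_mul, ← mul_assoc,
      tau_inv_mul, one_mul] at h1
  have h2 : P.ζ ^ (P.ω (P.pr g) (P.pr h)).val = 1 := by
    by_contra hne1
    exact hne ((smul_eq_zero.1 (by rw [sub_smul, hc, one_smul, sub_self] :
      (P.ζ ^ (P.ω (P.pr g) (P.pr h)).val - 1) • (τ h * τ g * f) = 0)).resolve_left (sub_ne_zero.2 hne1))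
  refine zeta_pow_inj P.hζ ?_
  rw [h2, ZMod.val_zero, pow_zero]

theorem pr_eq_of_tau {g h : Q} (hgh : τ g = τ h) : P.pr g = P.pr h := by
  haveI : NeZero q := ⟨(Fact.out : q.Prime).ne_zero⟩
  refine sub_eq_zero.1 (P.nondeg _ fun t => ?_)
  obtain ⟨x, rfl⟩ := P.surj t
  have h1 := P.comm g x
  rw [hgh, P.comm h x, ← map_mul] at h1
  rw [map_sub, AddMonoidHom.sub_apply, sub_eq_zero]
  exact (zeta_pow_inj P.hζ (smul_cancel h1)).symm

theorem sigma_eq_of_tau {x y : L} (hxy : τ x = τ y) : P.σ x = P.σ y := by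
  refine DFunLike.ext _ _ fun s => ?_
  obtain ⟨g, rfl⟩ := P.surj s
  rw [P.σ_pr, P.σ_pr]
  refine P.pr_eq_of_tau ?_
  have h1 : τ x⁻¹ = τ y⁻¹ :=
    calc τ x⁻¹ = τ x⁻¹ * (τ y * τ y⁻¹) := by rw [tau_mul_inv, mul_one]
      _ = τ y⁻¹ := by rw [← mul_assoc, ← hxy, tau_inv_mul, one_mul]
  show τ (x * g * x⁻¹) = τ (y * g * y⁻¹)
  rw [map_mul, map_mul, map_mul, map_mul, hxy, h1]

theorem sigma_one : P.σ 1 = 1 := map_one _

theorem sigma_apply_mul (x y : L) (s : S) : P.σ (x * y) s = P.σ x (P.σ y s) := by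
  rw [map_mul]; rfl

theorem sigma_inv_apply (x : L) (s : S) : P.σ x⁻¹ (P.σ x s) = s := by
  rw [← P.sigma_apply_mul, inv_mul_cancel, map_one]; rfl

end BlockSpace

/-- A subgroup acting quadratically and commuting with the radical. -/
structure QuadOn (P : BlockSpace τ Q q S) (A : Subgroup L) : Prop where
  quad : ∀ a ∈ A, ∀ b ∈ A, (τ a - 1) * (τ b - 1) = 0
  rad : ∀ a ∈ A, ∀ g : Q, P.pr g = 0 → Commute (τ a) (τ g)

namespace QuadOn

variable {P : BlockSpace τ Q q S} {A : Subgroup L}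

theorem mul_self (hA : QuadOn P A) {a : L} (ha : a ∈ A) : τ a * τ a = 1 := by
  have h := hA.quad a ha a ha
  rw [end_sub_one, add_mul, mul_add, mul_one, one_mul, add_assoc, ← add_assoc (τ a) (τ a) 1,
    end_add_self, zero_add, ← end_sub_one, sub_eq_zero] at h
  exact h

theorem inv_eq (hA : QuadOn P A) {a : L} (ha : a ∈ A) : τ a⁻¹ = τ a :=
  calc τ a⁻¹ = τ a⁻¹ * (τ a * τ a) := by rw [hA.mul_self ha, mul_one]
    _ = τ a := by rw [← mul_assoc, tau_inv_mul, one_mul]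

theorem commute (hA : QuadOn P A) {a b : L} (ha : a ∈ A) (hb : b ∈ A) : Commute (τ a) (τ b) := by
  have h1 := hA.quad a ha b hb
  have h2 := hA.quad b hb a ha
  rw [sub_mul, one_mul, mul_sub, mul_one, sub_eq_zero] at h1 h2
  show τ a * τ b = τ b * τ a
  rw [sub_eq_iff_eq_add.1 h1, sub_eq_iff_eq_add.1 h2]
  abel

theorem sigma_self (hA : QuadOn P A) {a : L} (ha : a ∈ A) (s : S) : P.σ a (P.σ a s) = s := by
  rw [← P.sigma_apply_mul, P.sigma_eq_of_tau (x := a * a) (y := 1) (by rw [map_mul, hA.mul_self ha, map_one]),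
    map_one]
  rfl

theorem sigma_comm (hA : QuadOn P A) {a b : L} (ha : a ∈ A) (hb : b ∈ A) (s : S) :
    P.σ a (P.σ b s) = P.σ b (P.σ a s) := by
  rw [← P.sigma_apply_mul, ← P.sigma_apply_mul,
    P.sigma_eq_of_tau (x := a * b) (y := b * a) (by rw [map_mul, map_mul]; exact hA.commute ha hb)]

theorem fix_exact (hA : QuadOn P A) (hq2 : q ≠ 2) (hQ : IsPGroup q Q) {a : L} (ha : a ∈ A) {g : Q}
    (hg : P.σ a (P.pr g) = P.pr g) : Commute (τ a) (τ g) := by
  set g' : Q := ⟨a * g * a⁻¹, (inferInstance : Q.Normal).conj_mem _ g.2 a⟩ with hg'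
  set r := g⁻¹ * g' with hr
  have hr0 : P.pr r = 0 := by
    rw [hr, P.pr_mul, P.pr_inv, hg', ← P.σ_pr, hg, neg_add_cancel]
  have hg'r : τ g' = τ g * τ r := by rw [← map_mul, hr, Subgroup.coe_mul, Subgroup.coe_inv, mul_inv_cancel_left]
  have har : τ a * τ r * τ a = τ r := by
    rw [(hA.rad a ha r hr0).eq, mul_assoc, hA.mul_self ha, mul_one]
  have hg'2 : τ a * τ g' * τ a = τ g := by
    rw [hg']
    show τ a * τ (a * g * a⁻¹) * τ a = τ g
    rw [map_mul, map_mul, hA.inv_eq ha, ← mul_assoc, ← mul_assoc, hA.mul_self ha, one_mul, mul_assoc,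
      hA.mul_self ha, mul_one]
  have hgconj : τ a * τ g * τ a = τ g' := by
    rw [hg']
    show _ = τ (a * g * a⁻¹)
    rw [map_mul, map_mul, hA.inv_eq ha]
  have h1 : τ g * (τ r * τ r) = τ g := by
    conv_rhs => rw [← hg'2, hg'r]
    rw [show τ a * (τ g * τ r) * τ a = τ a * τ g * (τ a * τ a) * τ r * τ a by
      rw [hA.mul_self ha, mul_one, ← mul_assoc]]
    rw [show τ a * τ g * (τ a * τ a) * τ r * τ a = (τ a * τ g * τ a) * (τ a * τ r * τ a) by
      simp only [mul_assoc]]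
    rw [hgconj, har, hg'r, mul_assoc]
  have h2 : τ (r : L) * τ r = 1 := by
    have h3 := congrArg (τ (g : L)⁻¹ * ·) h1
    simp only [← mul_assoc, tau_inv_mul, one_mul] at h3
    exact h3
  rw [eq_one_of_mul_self hq2 hQ r.2 h2, mul_one] at hg'r
  show τ a * τ g = τ g * τ a
  calc τ a * τ g = τ a * τ g * (τ a * τ a) := by rw [hA.mul_self ha, mul_one]
    _ = τ a * τ g * τ a * τ a := by rw [mul_assoc (τ a * τ g)]
    _ = τ g * τ a := by rw [hgconj, hg'r]

/-- The inverted lifts. -/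
def Inv (τ : L →* Module.End K W) (a g : L) : Prop := τ a * τ g * τ a = τ g⁻¹

theorem inv_unique (hA : QuadOn P A) (hq2 : q ≠ 2) (hQ : IsPGroup q Q) {a : L} (ha : a ∈ A) {g h : Q}
    (hg : Inv τ a g) (hh : Inv τ a h) (hgh : P.pr g = P.pr h) : τ g = τ h := by
  set r := g⁻¹ * h with hr
  have hr0 : P.pr r = 0 := by rw [hr, P.pr_mul, P.pr_inv, hgh, neg_add_cancel]
  have hhr : τ h = τ g * τ r := by rw [← map_mul, hr, Subgroup.coe_mul, Subgroup.coe_inv, mul_inv_cancel_left]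
  have h1 : τ (g : L)⁻¹ * τ r = τ (h : L)⁻¹ := by
    rw [← hh, hhr, ← mul_assoc (τ a), mul_assoc (τ a * τ g), ← (hA.rad a ha r hr0).eq, ← mul_assoc, hg]
  have h2 : τ (h : L)⁻¹ = τ (g : L)⁻¹ * τ (r : L)⁻¹ := by
    have hc : Commute (τ (r : L)⁻¹) (τ (g : L)⁻¹) := by
      have := P.comm_rad (g := r⁻¹) (by rw [P.pr_inv, hr0, neg_zero]) g⁻¹
      simpa using this
    rw [← hc.eq, ← map_mul, ← mul_inv_rev, ← Subgroup.coe_mul, hr, mul_inv_cancel_left]
  have h3 : τ (r : L) * τ r = 1 := by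
    have h4 := congrArg (fun z => τ (g : L) * z * τ (r : L)) (h1.trans h2)
    simp only [← mul_assoc, tau_mul_inv, one_mul, tau_inv_mul] at h4
    exact h4
  rw [hhr, eq_one_of_mul_self hq2 hQ r.2 h3, mul_one]

theorem exists_inv (hA : QuadOn P A) (hq2 : q ≠ 2) {a : L} (ha : a ∈ A) {s : S}
    (hs : P.σ a s = -s) : ∃ g : Q, P.pr g = s ∧ Inv τ a g := by
  obtain ⟨n, hn⟩ := (Fact.out : q.Prime).odd_of_ne_two hq2
  obtain ⟨g₀, hg₀⟩ := P.surj (n • s)
  set g₁ : Q := ⟨a * g₀ * a⁻¹, (inferInstance : Q.Normal).conj_mem _ g₀.2 a⟩ with hg₁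
  refine ⟨g₀⁻¹ * g₁, ?_, ?_⟩
  · have h1 := P.exp s
    rw [hn, add_nsmul, one_nsmul, mul_nsmul, two_nsmul, ← eq_neg_iff_add_eq_zero, nsmul_add] at h1
    have h2 : P.pr g₁ = -(n • s) := by rw [hg₁, ← P.σ_pr, hg₀, map_nsmul, hs, smul_neg]
    rw [P.pr_mul, P.pr_inv, hg₀, h2, ← neg_add, h1, neg_neg]
  · have e1 : τ a * τ g₁ * τ a = τ g₀ := by
      rw [hg₁]
      show τ a * τ (a * g₀ * a⁻¹) * τ a = τ g₀
      rw [map_mul, map_mul, hA.inv_eq ha, ← mul_assoc, ← mul_assoc, hA.mul_self ha, one_mul, mul_assoc,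
        hA.mul_self ha, mul_one]
    have hcm : ∀ z : Module.End K W, τ a * (τ a * z) = z := fun z => by
      rw [← mul_assoc, hA.mul_self ha, one_mul]
    show τ a * τ ((g₀⁻¹ * g₁ : Q) : L) * τ a = τ ((g₀⁻¹ * g₁ : Q) : L)⁻¹
    rw [Subgroup.coe_mul, Subgroup.coe_inv, mul_inv_rev, inv_inv, hg₁]
    show τ a * τ ((g₀ : L)⁻¹ * (a * g₀ * a⁻¹)) * τ a = τ ((a * g₀ * a⁻¹)⁻¹ * g₀)
    rw [show (a * (g₀ : L) * a⁻¹)⁻¹ = a * (g₀ : L)⁻¹ * a⁻¹ by group]
    simp only [map_mul, hA.inv_eq ha, mul_assoc, hcm, hA.mul_self ha, mul_one]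

/-- An element of `A` fixes the fixed points of any other one acting nontrivially. -/
theorem fixed_le (hA : QuadOn P A) (hq2 : q ≠ 2) (hQ : IsPGroup q Q) {a b : L} (ha : a ∈ A) (hb : b ∈ A)
    (hne : τ a ≠ 1) {s : S} (hs : P.σ a s = s) : P.σ b s = s := by
  have hz : ∀ z : ZMod q, z + z = 0 → z = 0 := fun z h => two_nsmul_inj hq2 (fun m => by
    rw [nsmul_eq_mul, ZMod.natCast_self, zero_mul]) h
  have hfa : τ a - 1 ≠ 0 := sub_ne_zero.2 hne
  have hbf : τ b * (τ a - 1) = τ a - 1 := by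
    have h := hA.quad b hb a ha
    rwa [sub_mul (τ b), one_mul, sub_eq_zero] at h
  have hlift : ∀ t : S, P.σ a t = t → ∃ g : Q, P.pr g = P.σ b t - t ∧ τ g * (τ a - 1) = τ a - 1 := by
    intro t ht
    obtain ⟨g, rfl⟩ := P.surj t
    refine ⟨⟨b * g * b⁻¹, (inferInstance : Q.Normal).conj_mem _ g.2 b⟩ * g⁻¹, ?_, ?_⟩
    · rw [P.pr_mul, P.pr_inv, ← P.σ_pr, sub_eq_add_neg]
    · have hc : Commute (τ a) (τ ((g⁻¹ : Q) : L)) := hA.fix_exact hq2 hQ ha (by
        rw [P.pr_inv, map_neg, ht])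
      have hc' : Commute (τ a - 1) (τ (g : L)⁻¹) := by
        rw [← Subgroup.coe_inv]; exact hc.sub_left (Commute.one_left _)
      show τ (b * g * b⁻¹ * (g : L)⁻¹) * (τ a - 1) = τ a - 1
      rw [map_mul, map_mul, map_mul, hA.inv_eq hb, mul_assoc, ← hc'.eq, ← mul_assoc,
        mul_assoc _ (τ b) (τ a - 1), hbf, mul_assoc, mul_assoc (τ b), hc'.eq, ← mul_assoc (τ (g : L)),
        tau_mul_inv, one_mul, hbf]
  have hpair : ∀ x y : S, P.σ a x = x → P.σ a y = y → P.ω (P.σ b x - x) (P.σ b y - y) = 0 := by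
    intro x y hx hy
    obtain ⟨g, hg, hgf⟩ := hlift x hx
    obtain ⟨h, hh, hhf⟩ := hlift y hy
    rw [← hg, ← hh]
    refine P.omega_eq_zero hfa ?_
    rw [mul_assoc, hhf, hgf, mul_assoc, hgf, hhf]
  set x := P.σ b s - s with hx
  have hax : P.σ a x = x := by rw [hx, map_sub, hA.sigma_comm ha hb, hs]
  have hbx : P.σ b x = -x := by rw [hx, map_sub, hA.sigma_self hb, neg_sub]
  refine sub_eq_zero.1 (P.nondeg x fun z => ?_)
  set z' := z + P.σ a z with hz'
  have haz' : P.σ a z' = z' := by rw [hz', map_add, hA.sigma_self ha, add_comm]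
  have h1 : P.ω x (P.σ a z) = P.ω x z := by
    conv_lhs => rw [← hax]
    exact P.σω a x z
  have h2 : P.ω x (z' + P.σ b z') = 0 := by
    refine hz _ ?_
    have hw : P.σ b (z' + P.σ b z') = z' + P.σ b z' := by rw [map_add, hA.sigma_self hb, add_comm]
    have h := P.σω b x (z' + P.σ b z')
    rw [hbx, hw, map_neg, AddMonoidHom.neg_apply, neg_eq_iff_add_eq_zero] at h
    exact h
  have h3 : P.ω x (P.σ b z' - z') = 0 := hpair s z' hs haz'
  refine hz _ (hz _ ?_)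
  rw [map_add] at h2
  rw [map_sub, sub_eq_zero] at h3
  rw [h3] at h2
  rw [hz', map_add, h1] at h2
  exact h2

theorem sigma_eq (hA : QuadOn P A) (hq2 : q ≠ 2) (hQ : IsPGroup q Q) {a b : L} (ha : a ∈ A) (hb : b ∈ A)
    (hsa : P.σ a ≠ 1) (hsb : P.σ b ≠ 1) : P.σ a = P.σ b := by
  have hta : τ a ≠ 1 := fun h => hsa ((P.sigma_eq_of_tau (x := a) (y := 1) (by rw [h, map_one])).trans (map_one _))
  have htb : τ b ≠ 1 := fun h => hsb ((P.sigma_eq_of_tau (x := b) (y := 1) (by rw [h, map_one])).trans (map_one _))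
  refine DFunLike.ext _ _ fun s => ?_
  have e1 : P.σ b (s + P.σ a s) = s + P.σ a s :=
    hA.fixed_le hq2 hQ ha hb hta (by rw [map_add, hA.sigma_self ha, add_comm])
  have e2 : P.σ a (s + P.σ b s) = s + P.σ b s :=
    hA.fixed_le hq2 hQ hb ha htb (by rw [map_add, hA.sigma_self hb, add_comm])
  rw [map_add] at e1 e2
  rw [hA.sigma_comm ha hb] at e2
  refine sub_eq_zero.1 (two_nsmul_inj hq2 P.exp ?_)
  calc P.σ a s - P.σ b s + (P.σ a s - P.σ b s)
      = (P.σ a s + P.σ b (P.σ a s)) - (P.σ b s + P.σ b (P.σ a s)) + (P.σ a s - P.σ b s) := by abel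
    _ = 0 := by rw [e1, e2]; abel

theorem exists_pair (hA : QuadOn P A) (hq2 : q ≠ 2) {a : L} (ha : a ∈ A) {s : S} (hs : P.σ a s = -s)
    (hs0 : s ≠ 0) : ∃ t, P.σ a t = -t ∧ P.ω s t ≠ 0 := by
  by_contra! hall
  refine hs0 (P.nondeg s fun u => ?_)
  have h := hall (u - P.σ a u) (by rw [map_sub, hA.sigma_self ha, neg_sub])
  have h1 : P.ω s (P.σ a u) = - P.ω s u := by
    have h2 := P.σω a s u
    rw [hs, map_neg, AddMonoidHom.neg_apply] at h2
    exact neg_eq_iff_eq_neg.1 h2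
  rw [map_sub, h1, sub_neg_eq_add] at h
  exact two_nsmul_inj hq2 (fun m => by rw [nsmul_eq_mul, ZMod.natCast_self, zero_mul]) h

theorem exists_neg (hA : QuadOn P A) {a : L} (ha : a ∈ A) (hsa : P.σ a ≠ 1) :
    ∃ s : S, P.σ a s = -s ∧ s ≠ 0 := by
  by_contra! hall
  refine hsa (DFunLike.ext _ _ fun t => ?_)
  have h := hall (P.σ a t - t) (by rw [map_sub, hA.sigma_self ha, neg_sub])
  exact sub_eq_zero.1 h

theorem tau_eq_one (hA : QuadOn P A) (hq2 : q ≠ 2) (hQ : IsPGroup q Q) {a b : L} (ha : a ∈ A) (hb : b ∈ A)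
    (hsa : P.σ a ≠ 1) (hsb : P.σ b = 1) : τ b = 1 := by
  set β := τ b - 1 with hβ
  have hβc : ∀ g : Q, Commute β (τ g) := fun g =>
    (hA.fix_exact hq2 hQ hb (by rw [hsb]; rfl)).sub_left (Commute.one_left _)
  have haβ : τ a * β = β := by
    have h := hA.quad a ha b hb
    rwa [sub_mul (τ a), one_mul, sub_eq_zero] at h
  have hinvβ : ∀ g : Q, Inv τ a g → τ g * β = β := by
    intro g hg
    have h1 : τ (g : L)⁻¹ * β = τ g * β := by
      rw [← hg, mul_assoc, haβ, mul_assoc, ← (hβc g).eq, ← mul_assoc, haβ]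
    have h2 : τ g * τ g * β = β := by
      rw [mul_assoc, ← h1, ← mul_assoc, tau_mul_inv, one_mul]
    obtain ⟨k, hk⟩ := hQ g
    obtain ⟨n, hn⟩ := ((Fact.out : q.Prime).odd_of_ne_two hq2).pow (n := k)
    have h3 : ∀ m : ℕ, τ g ^ (2 * m) * β = β := by
      intro m
      induction m with
      | zero => rw [mul_zero, pow_zero, one_mul]
      | succ m ih => rw [Nat.mul_succ, pow_add, mul_assoc, pow_two, h2, ih]
    have h4 : τ (g : L) ^ (2 * n + 1) = 1 := by
      rw [← hn, ← map_pow, show (g : L) ^ q ^ k = 1 from congrArg Subtype.val hk, map_one]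
    conv_rhs => rw [← one_mul β, ← h4, pow_succ', mul_assoc, h3]
  by_contra hne
  obtain ⟨s, hs, hs0⟩ := hA.exists_neg ha hsa
  obtain ⟨t, ht, hst⟩ := hA.exists_pair hq2 ha hs hs0
  obtain ⟨g, rfl, hgi⟩ := hA.exists_inv hq2 ha hs
  obtain ⟨h, rfl, hhi⟩ := hA.exists_inv hq2 ha ht
  exact hst (P.omega_eq_zero (f := β) (sub_ne_zero.2 hne) (by
    rw [mul_assoc, hinvβ h hhi, hinvβ g hgi, mul_assoc, hinvβ g hgi, hinvβ h hhi]))

theorem tau_eq (hA : QuadOn P A) (hq2 : q ≠ 2) (hQ : IsPGroup q Q) {a b : L} (ha : a ∈ A) (hb : b ∈ A)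
    (hsa : P.σ a ≠ 1) : τ b = 1 ∨ τ b = τ a := by
  by_cases hsb : P.σ b = 1
  · exact Or.inl (hA.tau_eq_one hq2 hQ ha hb hsa hsb)
  right
  have h := hA.tau_eq_one hq2 hQ ha (A.mul_mem ha hb) hsa (DFunLike.ext _ _ fun s => by
    rw [P.sigma_apply_mul, ← hA.sigma_eq hq2 hQ ha hb hsa hsb, hA.sigma_self ha]; rfl)
  rw [map_mul] at h
  calc τ b = τ a * τ a * τ b := by rw [hA.mul_self ha, one_mul]
    _ = τ a := by rw [mul_assoc, h, mul_one]

end QuadOn

end CfsgLib.TwoLengthDerived
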