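import Mathlib
import Cfsg.Agent.Lib.TwoLengthDerived.Quad

/-!
The projective representation carried by the inverted lifts of an involution on a block.
-/

set_option autoImplicit false
set_option linter.style.haveILetI false
set_option linter.unusedSectionVars false

namespace CfsgLib.TwoLengthDerived

universe u v w

variable {K : Type u} [Field K] [CharP K 2] {W : Type v} [AddCommGroup W] [Module K W] [Nontrivial W]
  {L : Type w} [Group L] [Finite L] {τ : L →* Module.End K W} {Q : Subgroup L} [Q.Normal]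
  {q : ℕ} [Fact q.Prime] {S : Type w} [AddCommGroup S]

/-- The negated part of an element of `L` on the block space. -/
def BlockSpace.negPart (P : BlockSpace τ Q q S) (a : L) : AddSubgroup S where
  carrier := {s | P.σ a s = -s}
  zero_mem' := by simp
  add_mem' := fun {s t} hs ht => by
    simp only [Set.mem_setOf_eq] at hs ht ⊢
    rw [map_add, hs, ht, neg_add]
  neg_mem' := fun {s} hs => by
    simp only [Set.mem_setOf_eq] at hs ⊢
    rw [map_neg, hs]

theorem BlockSpace.mem_negPart {P : BlockSpace τ Q q S} {a : L} {s : S} :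
    s ∈ P.negPart a ↔ P.σ a s = -s := Iff.rfl

variable {P : BlockSpace τ Q q S} {A : Subgroup L}

theorem QuadOn.sigma_neg_fixed (hA : QuadOn P A) {a : L} (ha : a ∈ A) (s : S) :
    s - P.σ a s ∈ P.negPart a := by
  rw [BlockSpace.mem_negPart, map_sub, hA.sigma_self ha, neg_sub]

/-- The inverted lifts of the negated part, with all the properties used on it. -/
theorem QuadOn.exists_heis (hA : QuadOn P A) (hq2 : q ≠ 2) (hQ : IsPGroup q Q) {a : L} (ha : a ∈ A) :
    ∃ H : Heis K W q (P.negPart a),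
      (∀ s t : P.negPart a, H.ω s t = P.ω s t) ∧
      (∀ y, τ a * H.X y = H.X (-y) * τ a) ∧
      (∀ y : P.negPart a, ∃ g : Q, P.pr g = y ∧ QuadOn.Inv τ a g ∧ H.X y = τ g) ∧
      (∀ (x : L) (y y' : P.negPart a), Commute (τ x) (τ a) → P.σ x y = y' →
        τ x * H.X y = H.X y' * τ x) := by
  classical
  have hex : ∀ y : P.negPart a, ∃ g : Q, P.pr g = y ∧ QuadOn.Inv τ a g := fun y =>
    hA.exists_inv hq2 ha y.2
  choose lift hlpr hlinv using hex
  have hinvg : ∀ g : Q, QuadOn.Inv τ a g → τ a * τ (g : L)⁻¹ * τ a = τ g := by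
    intro g hg
    rw [← hg]
    simp only [← mul_assoc]
    rw [hA.mul_self ha, one_mul, mul_assoc, hA.mul_self ha, mul_one]
  have hmem : ∀ g : Q, QuadOn.Inv τ a g → P.pr g ∈ P.negPart a := by
    intro g hg
    rw [BlockSpace.mem_negPart, P.σ_pr, ← P.pr_inv]
    refine P.pr_eq_of_tau ?_
    show τ (a * g * a⁻¹) = τ ((g⁻¹ : Q) : L)
    rw [map_mul, map_mul, hA.inv_eq ha, Subgroup.coe_inv]
    exact hg
  have huniq : ∀ (g : Q) (y : P.negPart a), QuadOn.Inv τ a g → P.pr g = y → τ g = τ (lift y) :=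
    fun g y hg hgy => hA.inv_unique hq2 hQ ha hg (hlinv y) (hgy.trans (hlpr y).symm)
  have hinv_inv : ∀ g : Q, QuadOn.Inv τ a g → QuadOn.Inv τ a ((g⁻¹ : Q) : L) := by
    intro g hg
    show τ a * τ ((g⁻¹ : Q) : L) * τ a = τ ((g⁻¹ : Q) : L)⁻¹
    rw [Subgroup.coe_inv, inv_inv]
    exact hinvg g hg
  have hinv_pow : ∀ (g : Q) (n : ℕ), QuadOn.Inv τ a g → QuadOn.Inv τ a ((g ^ n : Q) : L) := by
    intro g n hg
    show τ a * τ ((g ^ n : Q) : L) * τ a = τ ((g ^ n : Q) : L)⁻¹
    induction n with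
    | zero => simp [hA.mul_self ha]
    | succ n ih =>
      rw [pow_succ, Subgroup.coe_mul, map_mul, mul_inv_rev, map_mul]
      rw [show τ a * (τ ((g ^ n : Q) : L) * τ g) * τ a
          = (τ a * τ ((g ^ n : Q) : L) * τ a) * (τ a * τ g * τ a) by
        simp only [mul_assoc]
        rw [← mul_assoc (τ a) (τ a), hA.mul_self ha, one_mul]]
      rw [ih, hg, ← map_mul, ← map_mul, ← mul_inv_rev, ← mul_inv_rev, Subgroup.coe_pow]
      congr 2
      rw [← pow_succ', ← pow_succ]
  have hX0 : τ (lift 0) = 1 := by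
    rw [← huniq 1 0 (by show τ a * τ ((1 : Q) : L) * τ a = τ ((1 : Q) : L)⁻¹; simp [hA.mul_self ha]) P.pr_one,
      Subgroup.coe_one, map_one]
  have hXneg : ∀ y, τ (lift y) * τ (lift (-y)) = 1 := fun y => by
    rw [← huniq ((lift y)⁻¹) (-y) (hinv_inv _ (hlinv y))
      (by rw [P.pr_inv, hlpr, AddSubgroup.coe_neg]), Subgroup.coe_inv, tau_mul_inv]
  have hXn : ∀ (n : ℕ) y, τ (lift (n • y)) = τ (lift y) ^ n := fun n y => by
    rw [← huniq (lift y ^ n) (n • y) (hinv_pow _ n (hlinv y))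
      (by rw [P.pr_pow, hlpr, AddSubgroup.coe_nsmul]), Subgroup.coe_pow, map_pow]
  have hXadd : ∀ y z, ∃ c : K, c ≠ 0 ∧ τ (lift y) * τ (lift z) = c • τ (lift (y + z)) := by
    intro y z
    set k := lift (y + z) with hk
    set r := k⁻¹ * (lift y * lift z) with hr
    have hr0 : P.pr r = 0 := by
      rw [hr, P.pr_mul, P.pr_inv, P.pr_mul, hlpr, hlpr, hlpr, AddSubgroup.coe_add, neg_add_cancel]
    have hprod : τ (lift y) * τ (lift z) = τ k * τ r := by
      rw [← map_mul, ← map_mul, hr]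
      simp
    obtain ⟨c, hc0, hc⟩ : ∃ c : K, c ≠ 0 ∧ τ (r : L) * τ r = c • 1 := by
      have h1 : τ a * (τ (lift y) * τ (lift z)) * τ a = τ (lift y : L)⁻¹ * τ (lift z : L)⁻¹ := by
        rw [← hlinv y, ← hlinv z]
        simp only [mul_assoc]
        rw [← mul_assoc (τ a) (τ a), hA.mul_self ha, one_mul]
      rw [hprod] at h1
      have h2 : τ a * (τ k * τ r) * τ a = τ (k : L)⁻¹ * τ r := by
        rw [← hlinv (y + z), ← hk]
        simp only [mul_assoc]
        rw [(hA.rad a ha r hr0).eq]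
      rw [h2] at h1
      have h3 := P.comm (lift y)⁻¹ (lift z)⁻¹
      rw [Subgroup.coe_inv, Subgroup.coe_inv] at h3
      rw [h3, show τ (lift z : L)⁻¹ * τ (lift y : L)⁻¹ = τ ((lift y * lift z : Q) : L)⁻¹ by
        rw [Subgroup.coe_mul, mul_inv_rev, map_mul]] at h1
      have h4 : lift y * lift z = k * r := by rw [hr, mul_inv_cancel_left]
      have h5 : τ ((lift y * lift z : Q) : L)⁻¹ = τ (k : L)⁻¹ * τ (r : L)⁻¹ := by
        rw [h4, Subgroup.coe_mul, mul_inv_rev, map_mul]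
        have := P.comm_rad (g := r⁻¹) (by rw [P.pr_inv, hr0, neg_zero]) k⁻¹
        rw [Subgroup.coe_inv, Subgroup.coe_inv] at this
        exact this
      rw [h5] at h1
      refine ⟨P.ζ ^ (P.ω (P.pr (lift y)⁻¹) (P.pr (lift z)⁻¹)).val,
        pow_ne_zero _ (P.hζ.ne_zero (Fact.out : q.Prime).ne_zero), ?_⟩
      have h6 := congrArg (fun f => τ (k : L) * f * τ (r : L)) h1
      simp only [mul_smul_comm, smul_mul_assoc, ← mul_assoc, tau_mul_inv, one_mul, tau_inv_mul] at h6
      exact h6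
    obtain ⟨j, hj⟩ := hQ r
    obtain ⟨n, hn⟩ := ((Fact.out : q.Prime).odd_of_ne_two hq2).pow (n := j)
    have h7 : τ (r : L) = c ^ (n + 1) • 1 := by
      calc τ (r : L) = τ (r : L) * τ (r : L) ^ q ^ j := by
            rw [← map_pow, show (r : L) ^ q ^ j = 1 from congrArg Subtype.val hj, map_one, mul_one]
        _ = (τ (r : L) * τ r) ^ (n + 1) := by
          rw [hn, ← pow_succ', ← pow_two, ← pow_mul]
          ring_nf
        _ = c ^ (n + 1) • 1 := by rw [hc, smul_pow, one_pow]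
    exact ⟨c ^ (n + 1), pow_ne_zero _ hc0, by rw [hprod, h7, mul_smul_comm, mul_one]⟩
  refine ⟨{
    ζ := P.ζ, hζ := P.hζ
    ω := AddMonoidHom.mk' (fun s => (P.ω s).comp (P.negPart a).subtype)
      (fun s t => AddMonoidHom.ext fun u => by simp)
    alt := fun y => P.alt y
    nondeg := fun y hy => ?_
    exp := fun y => Subtype.ext (P.exp y)
    X := fun y => τ (lift y), X_zero := hX0, X_neg := hXneg, X_nsmul := hXn, X_add := hXadd
    X_comm := fun y z => by
      have h := P.comm (lift y) (lift z)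
      rwa [hlpr, hlpr] at h },
    fun s t => rfl, fun y => ?_, fun y => ⟨lift y, hlpr y, hlinv y, rfl⟩, ?_⟩
  · by_contra hne
    obtain ⟨t, ht, hst⟩ := hA.exists_pair hq2 ha y.2 fun h => hne (Subtype.ext h)
    exact hst (hy ⟨t, ht⟩)
  · show τ a * τ (lift y) = τ (lift (-y)) * τ a
    rw [← huniq ((lift y)⁻¹) (-y) (hinv_inv _ (hlinv y)) (by rw [P.pr_inv, hlpr, AddSubgroup.coe_neg]),
      Subgroup.coe_inv, ← hlinv y, mul_assoc, hA.mul_self ha, mul_one]
  · intro x y y' hx hy'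
    show τ x * τ (lift y) = τ (lift y') * τ x
    set g' : Q := ⟨x * lift y * x⁻¹, (inferInstance : Q.Normal).conj_mem _ (lift y).2 x⟩ with hg'
    have hxi : Commute (τ x⁻¹) (τ a) := by
      show τ x⁻¹ * τ a = τ a * τ x⁻¹
      calc τ x⁻¹ * τ a = τ x⁻¹ * (τ a * τ x) * τ x⁻¹ := by
            rw [mul_assoc, mul_assoc (τ a), tau_mul_inv, mul_one]
        _ = τ a * τ x⁻¹ := by rw [← hx.eq, ← mul_assoc, tau_inv_mul, one_mul]
    have hgi : QuadOn.Inv τ a g' := by
      show τ a * τ (x * lift y * x⁻¹) * τ a = τ (x * lift y * x⁻¹)⁻¹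
      rw [show (x * (lift y : L) * x⁻¹)⁻¹ = x * (lift y : L)⁻¹ * x⁻¹ by group, map_mul, map_mul, map_mul,
        map_mul, ← hlinv y]
      simp only [mul_assoc]
      rw [hxi.eq, ← mul_assoc (τ a) (τ x), ← hx.eq, mul_assoc]
    have h1 := huniq g' y' hgi (by rw [hg', ← P.σ_pr, hlpr, hy'])
    rw [← h1, hg']
    show τ x * τ (lift y) = τ (x * lift y * x⁻¹) * τ x
    rw [← map_mul, ← map_mul, inv_mul_cancel_right]

end CfsgLib.TwoLengthDerived
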