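import Cfsg.Agent.Lib.TwoLengthDerived.Defs
import Cfsg.Agent.Lib.PSolvable.FrattiniFacts
import Cfsg.Agent.Lib.TwoGroups.RankOne

/-!
A `2`-group acting on a block: the splitting involution, and the symplectic plane over three elements.
-/

set_option autoImplicit false
set_option linter.unusedSectionVars false
set_option linter.style.haveILetI false

open scoped commutatorElement

namespace CfsgLib.TwoLengthDerived

/-- A normal subgroup of a `2`-group inside the derived subgroup, with a commutator equal to the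
central involution `z`, has an involution central in it and central in the group modulo `z`. -/
theorem exists_involution {I : Type*} [Group I] [Finite I] (hI : IsPGroup 2 I) (B : Subgroup I)
    [B.Normal] (hBc : B ≤ commutator I) {z : I} (hzc : ∀ r, r * z = z * r) (hz2 : z * z = 1)
    (hz1 : z ≠ 1) (hzB : ∃ b ∈ B, ∃ b' ∈ B, ⁅b, b'⁆ = z) :
    ∃ u ∈ B, u ≠ 1 ∧ u ≠ z ∧ u * u = 1 ∧ (∀ b ∈ B, b * u = u * b) ∧
      ∀ r, r * u * r⁻¹ = u ∨ r * u * r⁻¹ = u * z := by
  haveI : Fact (Nat.Prime 2) := ⟨Nat.prime_two⟩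
  haveI : Group.IsNilpotent I := hI.isNilpotent
  obtain ⟨b₀, hb₀, b₁, hb₁, hb⟩ := hzB
  have hzB : z ∈ B := by
    rw [← hb, commutatorElement_def]
    exact mul_mem (mul_mem (mul_mem hb₀ hb₁) (inv_mem hb₀)) (inv_mem hb₁)
  -- the centre of `B` and a central element above it
  let Z : Subgroup I := B ⊓ Subgroup.centralizer (B : Set I)
  have hcen : (Subgroup.centralizer (B : Set I)).Normal := inferInstance
  haveI hZn : Z.Normal := Subgroup.normal_inf_normal _ _
  have hBne : B.map (QuotientGroup.mk' Z) ≠ ⊥ := by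
    intro e
    rw [Subgroup.map_eq_bot_iff, QuotientGroup.ker_mk'] at e
    refine hz1 ?_
    rw [← hb, commutatorElement_eq_one_iff_mul_comm]
    exact (Subgroup.mem_centralizer_iff.1 (e hb₀).2 b₁ hb₁).symm
  haveI : (B.map (QuotientGroup.mk' Z)).Normal :=
    Subgroup.Normal.map inferInstance _ (QuotientGroup.mk'_surjective Z)
  obtain ⟨q, hq, hq1⟩ := (Subgroup.bot_or_exists_ne_one _).resolve_left
    (PSolvable.inf_center_ne_bot hBne)
  obtain ⟨d, hd, rfl⟩ := hq.1
  have hdZ : d ∉ Z := fun h => hq1 ((QuotientGroup.eq_one_iff _).2 h)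
  have hdc : ∀ r, r * d * r⁻¹ * d⁻¹ ∈ Z := by
    intro r
    refine (QuotientGroup.eq_one_iff _).1 ?_
    have := Subgroup.mem_center_iff.1 hq.2 (QuotientGroup.mk' Z r)
    simp only [QuotientGroup.mk'_apply] at this
    simp only [QuotientGroup.mk_mul, QuotientGroup.mk_inv]
    rw [this]; group
  -- the abelian normal subgroup above the centre
  let D : Subgroup I := Z ⊔ Subgroup.zpowers d
  have hDB : D ≤ B := sup_le inf_le_left (Subgroup.zpowers_le.2 hd)
  have hdD : d ∈ D := Subgroup.mem_sup_right (Subgroup.mem_zpowers d)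
  have hDd : D ≤ Subgroup.centralizer ({d} : Set I) := sup_le
    (fun x hx => Subgroup.mem_centralizer_singleton_iff.2 (Subgroup.mem_centralizer_iff.1 hx.2 d hd).symm)
    (Subgroup.zpowers_le.2 (Subgroup.mem_centralizer_singleton_iff.2 rfl))
  have hDc : ∀ x ∈ D, ∀ y ∈ D, x * y = y * x := by
    intro x hx
    have : D ≤ Subgroup.centralizer ({x} : Set I) := sup_le
      (fun w hw => Subgroup.mem_centralizer_singleton_iff.2 (Subgroup.mem_centralizer_iff.1 hw.2 x (hDB hx)).symm)
      (Subgroup.zpowers_le.2 (Subgroup.mem_centralizer_singleton_iff.2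
        (Subgroup.mem_centralizer_singleton_iff.1 (hDd hx)).symm))
    exact fun y hy => (Subgroup.mem_centralizer_singleton_iff.1 (this hy)).symm
  haveI hDn : D.Normal := by
    refine ⟨fun x hx r => ?_⟩
    have : D ≤ D.comap (MulAut.conj r).toMonoidHom := sup_le
      (fun w hw => Subgroup.mem_sup_left (hZn.conj_mem w hw r))
      (Subgroup.zpowers_le.2 (by
        show r * d * r⁻¹ ∈ D
        rw [show r * d * r⁻¹ = (r * d * r⁻¹ * d⁻¹) * d by group]
        exact mul_mem (Subgroup.mem_sup_left (hdc r)) hdD))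
    exact this hx
  letI : CommGroup ↥D :=
    { (inferInstance : Group ↥D) with mul_comm := fun x y => Subtype.ext (hDc x x.2 y y.2) }
  -- `D` is not cyclic, as the derived subgroup would centralise it
  have hncyc : ¬ IsCyclic ↥D := by
    intro hc
    refine hdZ ⟨hd, Subgroup.mem_centralizer_iff.2 fun b hb => ?_⟩
    have hab : ∀ f g : MulAut ↥D, f * g = g * f := fun f g =>
      (IsCyclic.mulAutMulEquiv ↥D).injective (by rw [map_mul, map_mul, mul_comm])
    have hker : commutator I ≤ (MulAut.conjNormal : I →* MulAut ↥D).ker := by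
      rw [commutator_def, Subgroup.commutator_le]
      intro x _ y _
      rw [MonoidHom.mem_ker, map_commutatorElement, commutatorElement_eq_one_iff_mul_comm]
      exact hab _ _
    have h1 := congrArg (fun f : MulAut ↥D => ((f ⟨d, hdD⟩ : ↥D) : I)) (MonoidHom.mem_ker.1 (hker (hBc hb)))
    simp only [MulAut.conjNormal_apply, MulAut.one_apply] at h1
    exact mul_inv_eq_iff_eq_mul.1 h1
  -- so it has an involution other than `z`
  have hzZ : z ∈ Z := ⟨hzB, Subgroup.mem_centralizer_iff.2 fun b _ => hzc b⟩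
  let O : Subgroup I :=
    { carrier := {x | x ∈ D ∧ x * x = 1}
      one_mem' := ⟨one_mem _, mul_one 1⟩
      mul_mem' := fun {x y} hx hy => ⟨mul_mem hx.1 hy.1, by
        rw [show x * y * (x * y) = x * (y * x) * y by group, hDc y hy.1 x hx.1,
          show x * (x * y) * y = (x * x) * (y * y) by group, hx.2, hy.2, one_mul]⟩
      inv_mem' := fun {x} hx => ⟨inv_mem hx.1, by rw [← mul_inv_rev, hx.2, inv_one]⟩ }
  haveI : O.Normal := ⟨fun x hx r => ⟨hDn.conj_mem x hx.1 r, by
    rw [show r * x * r⁻¹ * (r * x * r⁻¹) = r * (x * x) * r⁻¹ by group, hx.2]; group⟩⟩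
  obtain ⟨w, hwO, hw⟩ : ∃ w ∈ O, w ∉ Subgroup.zpowers z := by
    by_contra hcon
    push Not at hcon
    refine hncyc (TwoGroups.isCyclic_of_uniqueOrderP_comm (p := 2) (hI.to_subgroup D) ?_)
    have key : ∀ a : ↥D, orderOf a = 2 → (a : I) = z := by
      intro a ha
      have ha2 : (a : I) * a = 1 := by
        have := pow_orderOf_eq_one a
        rw [ha, pow_two] at this
        exact congrArg Subtype.val this
      obtain ⟨i, hi⟩ := Subgroup.mem_zpowers_iff.1 (hcon a ⟨a.2, ha2⟩)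
      rcases Int.even_or_odd i with ⟨k, rfl⟩ | ⟨k, rfl⟩
      · exfalso
        rw [← two_mul, zpow_mul, zpow_two, hz2, one_zpow] at hi
        rw [show a = 1 from Subtype.ext hi.symm, orderOf_one] at ha
        norm_num at ha
      · rw [← hi, zpow_add, zpow_mul, zpow_two, hz2, one_zpow, one_mul, zpow_one]
    intro a b ha hb'
    rw [show b = a from Subtype.ext ((key b hb').trans (key a ha).symm)]
    exact Subgroup.mem_zpowers a
  -- a central one modulo `z`
  haveI : (Subgroup.zpowers z).Normal := ⟨fun x hx r => by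
    obtain ⟨i, rfl⟩ := hx
    rw [show r * z ^ i = z ^ i * r from ((show Commute r z from hzc r).zpow_right i).eq, mul_inv_cancel_right]
    exact Subgroup.zpow_mem_zpowers z i⟩
  haveI : (O.map (QuotientGroup.mk' (Subgroup.zpowers z))).Normal :=
    Subgroup.Normal.map inferInstance _ (QuotientGroup.mk'_surjective _)
  have hOne : O.map (QuotientGroup.mk' (Subgroup.zpowers z)) ≠ ⊥ := by
    intro e
    rw [Subgroup.map_eq_bot_iff, QuotientGroup.ker_mk'] at e
    exact hw (e hwO)
  obtain ⟨q, hq, hq1⟩ := (Subgroup.bot_or_exists_ne_one _).resolve_left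
    (PSolvable.inf_center_ne_bot hOne)
  obtain ⟨u, hu, rfl⟩ := hq.1
  have huz : u ∉ Subgroup.zpowers z := fun h => hq1 ((QuotientGroup.eq_one_iff _).2 h)
  have hcases : ∀ r, r * u * r⁻¹ = u ∨ r * u * r⁻¹ = u * z := by
    intro r
    have h1 : r * u * r⁻¹ * u⁻¹ ∈ Subgroup.zpowers z := by
      refine (QuotientGroup.eq_one_iff _).1 ?_
      have := Subgroup.mem_center_iff.1 hq.2 (QuotientGroup.mk' _ r)
      simp only [QuotientGroup.mk'_apply] at this
      simp only [QuotientGroup.mk_mul, QuotientGroup.mk_inv]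
      rw [this]; group
    obtain ⟨i, hi⟩ := Subgroup.mem_zpowers_iff.1 h1
    rcases Int.even_or_odd i with ⟨k, rfl⟩ | ⟨k, rfl⟩
    · left
      rw [← two_mul, zpow_mul, zpow_two, hz2, one_zpow] at hi
      exact mul_inv_eq_one.1 hi.symm
    · right
      rw [zpow_add, zpow_mul, zpow_two, hz2, one_zpow, one_mul, zpow_one] at hi
      rw [hzc u]
      exact mul_inv_eq_iff_eq_mul.1 hi.symm
  refine ⟨u, hDB hu.1, fun e => huz (e ▸ one_mem _), fun e => huz (e ▸ Subgroup.mem_zpowers z), hu.2,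
    fun b hb => ?_, hcases⟩
  have hcomm : commutator I ≤ Subgroup.centralizer ({u} : Set I) := by
    rw [commutator_def, Subgroup.commutator_le]
    intro x _ y _
    rw [Subgroup.mem_centralizer_singleton_iff]
    have e1 : ∀ x y : I, x * y * u * (x * y)⁻¹ = y * x * u * (y * x)⁻¹ := by
      intro x y
      have hxz : x * z * x⁻¹ = z := mul_inv_eq_iff_eq_mul.2 (hzc x)
      have hyz : y * z * y⁻¹ = z := mul_inv_eq_iff_eq_mul.2 (hzc y)
      rw [show x * y * u * (x * y)⁻¹ = x * (y * u * y⁻¹) * x⁻¹ by group,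
        show y * x * u * (y * x)⁻¹ = y * (x * u * x⁻¹) * y⁻¹ by group]
      rcases hcases x with c | c <;> rcases hcases y with d | d <;> rw [c, d]
      · rw [c]
      · rw [show x * (u * z) * x⁻¹ = (x * u * x⁻¹) * (x * z * x⁻¹) by group, c, hxz]
      · rw [c, show y * (u * z) * y⁻¹ = (y * u * y⁻¹) * (y * z * y⁻¹) by group, d, hyz]
      · rw [show x * (u * z) * x⁻¹ = (x * u * x⁻¹) * (x * z * x⁻¹) by group, c, hxz,
          show y * (u * z) * y⁻¹ = (y * u * y⁻¹) * (y * z * y⁻¹) by group, d, hyz]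
    calc ⁅x, y⁆ * u = x * y * (x⁻¹ * y⁻¹ * u * (x⁻¹ * y⁻¹)⁻¹) * (x⁻¹ * y⁻¹) := by
          rw [commutatorElement_def]; group
      _ = x * y * (y⁻¹ * x⁻¹ * u * (y⁻¹ * x⁻¹)⁻¹) * (x⁻¹ * y⁻¹) := by rw [e1]
      _ = u * ⁅x, y⁆ := by rw [commutatorElement_def]; group
  exact Subgroup.mem_centralizer_singleton_iff.1 (hcomm (hBc hb))

variable {Y : Type*} [AddCommGroup Y] [Finite Y] {R : Type*} [Group R] [Finite R]

/-- An involution splitting the block, fixed up to sign by the whole group. -/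
theorem exists_split [Nontrivial Y] (h2 : ∀ y : Y, 2 • y = 0 → y = 0) (hR : IsPGroup 2 R)
    (σ : R →* AddMonoid.End Y) (B : Subgroup R) [B.Normal] (hBc : B ≤ commutator R)
    (hpm : ∀ b ∈ B, ∀ b' ∈ B, σ ⁅b, b'⁆ = 1 ∨ σ ⁅b, b'⁆ = -1)
    (hneg : ∃ b ∈ B, ∃ b' ∈ B, σ ⁅b, b'⁆ = -1) :
    ∃ u ∈ B, σ u ≠ 1 ∧ σ u ≠ -1 ∧ σ u * σ u = 1 ∧ (∀ b ∈ B, σ b * σ u = σ u * σ b) ∧
      ∀ r, σ (r * u * r⁻¹) = σ u ∨ σ (r * u * r⁻¹) = -σ u := by
  let τ : R →* ↥σ.toHomUnits.range := σ.toHomUnits.rangeRestrict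
  have hτ : Function.Surjective τ := σ.toHomUnits.rangeRestrict_surjective
  let val : ↥σ.toHomUnits.range →* AddMonoid.End Y :=
    (Units.coeHom _).comp σ.toHomUnits.range.subtype
  have hval : Function.Injective val := fun a b e => Subtype.ext (Units.ext e)
  have hvτ : ∀ r, val (τ r) = σ r := fun r => rfl
  haveI : Finite ↥σ.toHomUnits.range := Finite.of_surjective _ hτ
  haveI : (B.map τ).Normal := Subgroup.Normal.map inferInstance _ hτ
  obtain ⟨b₀, hb₀, b₁, hb₁, hb⟩ := hneg
  have hz : val (τ ⁅b₀, b₁⁆) = -1 := hb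
  have hne : (-1 : AddMonoid.End Y) ≠ 1 := by
    intro e
    obtain ⟨y, hy⟩ := exists_ne (0 : Y)
    refine hy (h2 y ?_)
    have h1 : -y = y := DFunLike.congr_fun e y
    rw [two_nsmul]
    nth_rewrite 1 [← h1]
    exact neg_add_cancel y
  have hBc' : B.map τ ≤ commutator ↥σ.toHomUnits.range := by
    refine (Subgroup.map_mono hBc).trans ?_
    rw [commutator_def, commutator_def, Subgroup.map_commutator]
    exact Subgroup.commutator_mono le_top le_top
  obtain ⟨u', hu', hu1, huz, hu2, huc, hur⟩ := exists_involution (hR.of_surjective τ hτ) (B.map τ) hBc'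
    (z := τ ⁅b₀, b₁⁆)
    (fun r => hval (by rw [map_mul, map_mul, hz, mul_neg_one, neg_one_mul]))
    (hval (by rw [map_mul, hz, neg_mul_neg, one_mul, map_one]))
    (fun e => hne (by rw [← hz, e, map_one]))
    ⟨τ b₀, Subgroup.mem_map_of_mem τ hb₀, τ b₁, Subgroup.mem_map_of_mem τ hb₁,
      (map_commutatorElement τ b₀ b₁).symm⟩
  obtain ⟨u, hu, rfl⟩ := hu'
  refine ⟨u, hu, fun e => hu1 (hval (by rw [hvτ, e, map_one])),
    fun e => huz (hval (by rw [hvτ, e, hz])), ?_, fun b hb => ?_, fun r => ?_⟩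
  · rw [← hvτ, ← map_mul, hu2, map_one]
  · rw [← hvτ, ← hvτ, ← map_mul val, ← map_mul val, huc _ (Subgroup.mem_map_of_mem τ hb)]
  · rcases hur (τ r) with c | c
    · left
      rw [← hvτ, map_mul τ, map_mul τ, map_inv τ, c, hvτ]
    · right
      rw [← hvτ, map_mul τ, map_mul τ, map_inv τ, c, map_mul, hz, hvτ, mul_neg_one]

theorem zmod_three_cases : ∀ t : ZMod 3, t = 0 ∨ t = 1 ∨ t = -1 := by decide

section Plane

variable (hcard : Nat.card Y = 9) (h3 : ∀ y : Y, 3 • y = 0) (ω : Y →+ Y →+ ZMod 3)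
  (halt : ∀ y, ω y y = 0) (hnd : ∀ y, (∀ z, ω y z = 0) → y = 0) (hR : IsPGroup 2 R)
  (σ : R →* AddMonoid.End Y) (hσ : ∀ r y z, ω (σ r y) (σ r z) = ω y z)
include hcard h3 halt hnd hR hσ

omit hR in
/-- The characteristic equation on a symplectic plane. -/
theorem plane_char (r : R) :
    σ r * σ r = -1 ∨ σ r * σ r + 1 = σ r ∨ σ r * σ r + 1 = -σ r := by
  letI : Module (ZMod 3) Y := AddCommGroup.zmodModule h3
  haveI : Fact (Nat.Prime 3) := ⟨Nat.prime_three⟩
  have hsk : ∀ y z, ω z y = -ω y z := fun y z => by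
    have h := halt (y + z)
    simp only [map_add, AddMonoidHom.add_apply, halt, zero_add, add_zero] at h
    exact eq_neg_of_add_eq_zero_left h
  obtain ⟨e, he⟩ : ∃ e : Y, e ≠ 0 := by
    haveI : Nontrivial Y := Finite.one_lt_card_iff_nontrivial.1 (by omega)
    exact exists_ne 0
  obtain ⟨f, hf⟩ : ∃ f, ω e f = 1 := by
    obtain ⟨g, hg⟩ : ∃ g, ω e g ≠ 0 := by
      by_contra! h
      exact he (hnd e h)
    exact ⟨(ω e g)⁻¹ • g, by rw [ZMod.map_smul, smul_eq_mul, inv_mul_cancel₀ hg]⟩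
  have hwe : ∀ a b : ZMod 3, ω e (a • e + b • f) = b := fun a b => by
    simp [ZMod.map_smul, halt, hf]
  have hwf : ∀ a b : ZMod 3, ω f (a • e + b • f) = -a := fun a b => by
    simp [ZMod.map_smul, halt, hsk e f, hf]
  have hsurj : Function.Surjective fun x : ZMod 3 × ZMod 3 => x.1 • e + x.2 • f := by
    refine ((Nat.bijective_iff_injective_and_card _).2 ⟨?_, ?_⟩).2
    · intro x y h
      have h1 := congrArg (ω e) h
      have h2 := congrArg (ω f) h
      simp only [hwe] at h1
      simp only [hwf, neg_inj] at h2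
      exact Prod.ext h2 h1
    · rw [hcard, Nat.card_prod, Nat.card_zmod]
  obtain ⟨⟨a, b⟩, hab⟩ := hsurj (σ r e)
  obtain ⟨⟨c, d⟩, hcd⟩ := hsurj (σ r f)
  simp only at hab hcd
  have hdet : a * d - b * c = 1 := by
    have h := hσ r e f
    rw [← hab, ← hcd, hf] at h
    simp only [map_add, ZMod.map_smul, AddMonoidHom.add_apply, AddMonoidHom.smul_apply, smul_eq_mul,
      halt, hf, hsk e f] at h
    linear_combination h
  have hlin : ∀ (x y : ZMod 3), σ r (x • e + y • f) = x • σ r e + y • σ r f := fun x y => by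
    rw [map_add, ZMod.map_smul, ZMod.map_smul]
  have key : ∀ w, σ r (σ r w) + w = (a + d) • σ r w := by
    intro w
    obtain ⟨⟨x, y⟩, rfl⟩ := hsurj w
    simp only [hlin, ← hab, ← hcd]
    rw [show x • (a • e + b • f) + y • (c • e + d • f) = (x * a + y * c) • e + (x * b + y * d) • f by
      module]
    simp only [hlin, ← hab, ← hcd]
    match_scalars
    · linear_combination (-x) * hdet
    · linear_combination (-y) * hdet
  have htri : ∀ t : ZMod 3, t = 0 ∨ t = 1 ∨ t = -1 := zmod_three_cases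
  rcases htri (a + d) with t | t | t <;> rw [t] at key
  · refine Or.inl (AddMonoidHom.ext fun w => ?_)
    show σ r (σ r w) = -w
    exact eq_neg_of_add_eq_zero_left (by rw [key w, zero_smul])
  · refine Or.inr (Or.inl (AddMonoidHom.ext fun w => ?_))
    show σ r (σ r w) + w = σ r w
    rw [key w, one_smul]
  · refine Or.inr (Or.inr (AddMonoidHom.ext fun w => ?_))
    show σ r (σ r w) + w = -σ r w
    rw [key w, neg_smul, one_smul]

/-- Every element of the group acts with order dividing four, and only by `1`, `-1` below four. -/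
theorem plane_square (r : R) : σ r = 1 ∨ σ r = -1 ∨ σ r * σ r = -1 := by
  letI : Module (ZMod 3) Y := AddCommGroup.zmodModule h3
  obtain ⟨k, hk⟩ := hR r
  have hk' : σ r ^ 2 ^ k = 1 := by rw [← map_pow, hk, map_one]
  have hco : Nat.Coprime 3 (2 ^ k) := Nat.Coprime.pow_right k (by norm_num)
  rcases plane_char hcard h3 ω halt hnd σ hσ r with h | h | h
  · exact Or.inr (Or.inr h)
  · right; left
    have h2 : σ r * σ r = σ r - 1 := eq_sub_of_add_eq h
    have h3' : σ r * σ r * σ r = -1 := by rw [h2, sub_mul, one_mul, h2, sub_sub_cancel_left]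
    have h4 : (-σ r) ^ 3 = 1 := by rw [pow_succ, pow_two, neg_mul_neg, mul_neg, h3', neg_neg]
    have h5 : (-σ r) ^ 2 ^ (k + 1) = 1 := by
      rw [pow_succ', pow_mul, neg_sq, ← pow_mul, ← pow_succ', pow_succ, pow_mul, hk', one_pow]
    have h6 := orderOf_eq_one_iff.1 (Nat.eq_one_of_dvd_coprimes
      (Nat.Coprime.pow_right (k + 1) (by norm_num : Nat.Coprime 3 2))
      (orderOf_dvd_of_pow_eq_one h4) (orderOf_dvd_of_pow_eq_one h5))
    rw [← neg_neg (σ r), h6]
  · left
    have h2 : σ r * σ r = -σ r - 1 := eq_sub_of_add_eq h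
    have h3' : σ r ^ 3 = 1 := by
      rw [pow_succ, pow_two, h2, sub_mul, one_mul, neg_mul, h2]; abel
    exact orderOf_eq_one_iff.1
      (Nat.eq_one_of_dvd_coprimes hco (orderOf_dvd_of_pow_eq_one h3') (orderOf_dvd_of_pow_eq_one hk'))

/-- Commutators act by a sign. -/
theorem plane_commutator (r s : R) : σ ⁅r, s⁆ = 1 ∨ σ ⁅r, s⁆ = -1 := by
  have hinv : ∀ r, σ r⁻¹ = σ r ∨ σ r⁻¹ = -σ r := by
    intro r
    have h1 : σ r * σ r⁻¹ = 1 := by rw [← map_mul, mul_inv_cancel, map_one]
    rcases plane_square hcard h3 ω halt hnd hR σ hσ r with h | h | h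
    · left; rw [h, one_mul] at h1; rw [h, h1]
    · left; rw [h, neg_one_mul, neg_eq_iff_eq_neg] at h1; rw [h, h1]
    · right
      calc σ r⁻¹ = -(σ r * σ r) * σ r⁻¹ := by rw [h, neg_neg, one_mul]
        _ = -σ r := by rw [neg_mul, mul_assoc, h1, mul_one]
  have hsq : ∀ r, σ r * σ r = 1 ∨ σ r * σ r = -1 := by
    intro r
    rcases plane_square hcard h3 ω halt hnd hR σ hσ r with h | h | h
    · left; rw [h, one_mul]
    · left; rw [h, neg_mul_neg, one_mul]
    · right; exact h
  have hrs := hsq (r * s)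
  rw [commutatorElement_def, map_mul, map_mul, map_mul]
  rw [map_mul] at hrs
  rcases hinv r with a | a <;> rcases hinv s with b | b <;> rw [a, b] <;>
    simp only [mul_neg, neg_mul, neg_neg, neg_inj, mul_assoc, neg_eq_iff_eq_neg] at hrs ⊢ <;> tauto

/-- An element fixing a nonzero vector acts trivially. -/
theorem plane_fixed (r : R) {y : Y} (hy : y ≠ 0) (h : σ r y = y) : σ r = 1 := by
  have h2 : ∀ y : Y, -y = y → y = 0 := fun y hy => by
    have : y + y = 0 := by
      nth_rewrite 1 [← hy]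
      exact neg_add_cancel y
    have h3y := h3 y
    rw [succ_nsmul, two_nsmul, this, zero_add] at h3y
    exact h3y
  rcases plane_square hcard h3 ω halt hnd hR σ hσ r with e | e | e
  · exact e
  · exact absurd (h2 y (by rw [e] at h; exact h)) hy
  · refine absurd (h2 y ?_) hy
    have := DFunLike.congr_fun e y
    change σ r (σ r y) = -y at this
    rw [h, h] at this
    exact this.symm

theorem plane_orbit (r s : R) {y : Y} (hy : y ≠ 0) (h : σ r y = σ s y) : σ r = σ s := by
  have h1 : σ (s⁻¹ * r) y = y := by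
    rw [map_mul]
    show σ s⁻¹ (σ r y) = y
    rw [h]
    show (σ s⁻¹ * σ s) y = y
    rw [← map_mul, inv_mul_cancel, map_one]; rfl
  have h2 := plane_fixed hcard h3 ω halt hnd hR σ hσ _ hy h1
  calc σ r = σ (s * (s⁻¹ * r)) := by rw [mul_inv_cancel_left]
    _ = σ s := by rw [map_mul, h2, mul_one]

/-- A subgroup acting nonabelianly is transitive on the nonzero vectors. -/
theorem plane_transitive (B : Subgroup R) (hB : ∃ b ∈ B, ∃ b' ∈ B, σ ⁅b, b'⁆ ≠ 1) {y z : Y}
    (hy : y ≠ 0) (hz : z ≠ 0) : ∃ b ∈ B, σ b y = z := by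
  classical
  haveI : Fact (Nat.Prime 2) := ⟨Nat.prime_two⟩
  let τ : ↥B →* (AddMonoid.End Y)ˣ := σ.toHomUnits.comp B.subtype
  haveI : Finite ↥τ.range := Finite.of_surjective _ τ.rangeRestrict_surjective
  obtain ⟨m, hm⟩ := IsPGroup.iff_card.1 ((hR.to_subgroup B).of_surjective _ τ.rangeRestrict_surjective)
  have hm3 : 3 ≤ m := by
    obtain ⟨b, hb, b', hb', hne⟩ := hB
    by_contra hcon
    refine hne ?_
    have hc : ∀ x y : ↥τ.range, x * y = y * x := by
      intro x y
      rcases (show m ≤ 1 ∨ m = 2 by omega) with hm1 | rfl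
      · haveI : IsCyclic ↥τ.range := by
          rcases (show m = 0 ∨ m = 1 by omega) with rfl | rfl
          · haveI : Subsingleton ↥τ.range := (Nat.card_eq_one_iff_unique.1 (by rw [hm]; rfl)).1
            exact isCyclic_of_subsingleton
          · exact isCyclic_of_prime_card (p := 2) (by rw [hm, pow_one])
        exact (IsCyclic.isMulCommutative (α := ↥τ.range)).is_comm.comm x y
      · exact IsPGroup.commutative_of_card_eq_prime_sq (p := 2) hm x y
    have h1 : τ (⟨b, hb⟩ * ⟨b', hb'⟩) = τ (⟨b', hb'⟩ * ⟨b, hb⟩) := by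
      rw [map_mul, map_mul]
      exact congrArg Subtype.val (hc ⟨_, ⟨⟨b, hb⟩, rfl⟩⟩ ⟨_, ⟨⟨b', hb'⟩, rfl⟩⟩)
    have h2 : σ (b * b') = σ (b' * b) := congrArg Units.val h1
    rw [show ⁅b, b'⁆ = b * b' * (b' * b)⁻¹ by rw [commutatorElement_def]; group, map_mul, h2, ← map_mul,
      mul_inv_cancel, map_one]
  have hne0 : ∀ g : ↥τ.range, ((g : (AddMonoid.End Y)ˣ) : AddMonoid.End Y) y ≠ 0 := by
    rintro ⟨_, b, rfl⟩ e
    refine hy ?_
    have : (σ ((b : R)⁻¹) * σ b) y = y := by rw [← map_mul, inv_mul_cancel, map_one]; rfl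
    rw [← this]
    show σ ((b : R)⁻¹) (σ b y) = 0
    rw [show σ (b : R) y = 0 from e, map_zero]
  let o : ↥τ.range → {w : Y // w ≠ 0} := fun g => ⟨_, hne0 g⟩
  have ho : Function.Injective o := by
    rintro ⟨_, b, rfl⟩ ⟨_, b', rfl⟩ e
    exact Subtype.ext (Units.ext
      (plane_orbit hcard h3 ω halt hnd hR σ hσ b b' hy (congrArg Subtype.val e)))
  have hc8 : Nat.card {w : Y // w ≠ 0} = 8 := by
    haveI := Fintype.ofFinite Y
    rw [Nat.card_eq_fintype_card, Fintype.card_subtype_compl, Fintype.card_subtype_eq,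
      ← Nat.card_eq_fintype_card, hcard]
  have hle := Nat.card_le_card_of_injective o ho
  have hb8 : Nat.card ↥τ.range = Nat.card {w : Y // w ≠ 0} := by
    have : 2 ^ 3 ≤ 2 ^ m := Nat.pow_le_pow_right (by norm_num) hm3
    omega
  obtain ⟨⟨_, b, rfl⟩, hb⟩ := ((Nat.bijective_iff_injective_and_card o).2 ⟨ho, hb8⟩).2 ⟨z, hz⟩
  exact ⟨b, b.2, congrArg Subtype.val hb⟩

/-- Such a subgroup covers the whole image. -/
theorem plane_cover (B : Subgroup R) (hB : ∃ b ∈ B, ∃ b' ∈ B, σ ⁅b, b'⁆ ≠ 1) (r : R) :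
    ∃ b ∈ B, σ r = σ b := by
  haveI : Nontrivial Y := Finite.one_lt_card_iff_nontrivial.1 (by omega)
  obtain ⟨y, hy⟩ := exists_ne (0 : Y)
  have hry : σ r y ≠ 0 := fun e => hy (by
    have : (σ r⁻¹ * σ r) y = y := by rw [← map_mul, inv_mul_cancel, map_one]; rfl
    rw [← this]
    show σ r⁻¹ (σ r y) = 0
    rw [e, map_zero])
  obtain ⟨b, hb, e⟩ := plane_transitive hcard h3 ω halt hnd hR σ hσ B hB hy hry
  exact ⟨b, hb, plane_orbit hcard h3 ω halt hnd hR σ hσ r b hy e.symm⟩

end Plane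

end CfsgLib.TwoLengthDerived
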