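import Mathlib
import Cfsg.Agent.Lib.TwoLengthDerived.Claims
import Cfsg.Agent.Lib.TwoLengthDerived.Symp
import Cfsg.Agent.Lib.TwoLengthDerived.Inverted

/-!
One half of an inverted space split by an involution: it is a plane over the field of three
elements and the fixed vectors see the symmetric sums as the identity.
-/

set_option autoImplicit false
set_option linter.style.haveILetI false
set_option linter.unusedSectionVars false

open scoped commutatorElement

namespace CfsgLib.TwoLengthDerived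

universe u v w

variable {K : Type u} [Field K] [CharP K 2] [IsAlgClosed K] {W : Type v} [AddCommGroup W] [Module K W]
  [FiniteDimensional K W] {q : ℕ} [Fact q.Prime] {Y : Type w} [AddCommGroup Y] [Finite Y]

/-- Restriction of the representation to a nondegenerate subgroup. -/
def Heis.restrict (H : Heis K W q Y) (Z : AddSubgroup Y)
    (hZ : ∀ y ∈ Z, (∀ z ∈ Z, H.ω y z = 0) → y = 0) : Heis K W q Z where
  ζ := H.ζ
  hζ := H.hζ
  ω := AddMonoidHom.mk' (fun s => (H.ω s).comp Z.subtype) (fun s t => AddMonoidHom.ext fun u => by simp)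
  alt := fun y => H.alt y
  nondeg := fun y hy => Subtype.ext (hZ y y.2 fun z hz => hy ⟨z, hz⟩)
  exp := fun y => Subtype.ext (by simpa using H.exp (y : Y))
  X := fun y => H.X y
  X_zero := H.X_zero
  X_neg := fun y => H.X_neg y
  X_nsmul := fun n y => by
    show H.X ((n • y : Z) : Y) = _
    rw [AddSubgroup.coe_nsmul, H.X_nsmul]
  X_add := fun y z => H.X_add y z
  X_comm := fun y z => H.X_comm y z

theorem pm_scalar {M : Type*} [AddCommGroup M] (h2 : ∀ y : M, y + y = 0 → y = 0) (f : M →+ M)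
    (h : ∀ y, f y = y ∨ f y = -y) : (∀ y, f y = y) ∨ ∀ y, f y = -y := by
  by_contra hne
  rw [not_or, not_forall, not_forall] at hne
  obtain ⟨⟨y, hy⟩, z, hz⟩ := hne
  have hy' := (h y).resolve_left hy
  have hz' := (h z).resolve_right hz
  rcases h (y + z) with e | e <;> rw [map_add, hy', hz'] at e
  · refine hy ?_
    have h1 : y + y = 0 := by
      have h2' := congrArg (fun x => x - z + y) e
      simp at h2'
      exact h2'.symm
    rw [hy', h2 y h1, neg_zero]
  · refine hz ?_
    have h1 : z + z = 0 := by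
      have h2' := congrArg (fun x => x + y + z) e
      simp at h2'
      exact h2'
    rw [hz', h2 z h1, neg_zero]

/-- The fixed-space hypotheses on one piece. -/
structure PieceData (H : Heis K W q Y) (a β : Module.End K W) {B : Type w} [Group B]
    (t : B →* Module.End K W) (σ : B →* AddMonoid.End Y) : Prop where
  haX : ∀ y, a * H.X y = H.X (-y) * a
  haa : a * a = 1
  hβX : ∀ y, Commute β (H.X y)
  hβ : β ≠ 0
  hbX : ∀ b y, t b * H.X y = H.X (σ b y) * t b
  hfix : ∀ b, t b * (β * (a + 1)) = β * (a + 1)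
  hσω : ∀ b y z, H.ω (σ b y) (σ b z) = H.ω y z
  hpm : ∀ b b' : B, σ ⁅b, b'⁆ = 1 ∨ σ ⁅b, b'⁆ = -1
  hneg : ∃ b b' : B, σ ⁅b, b'⁆ = -1

namespace PieceData

variable {H : Heis K W q Y} {a β : Module.End K W} {B : Type w} [Group B] {t : B →* Module.End K W}
  {σ : B →* AddMonoid.End Y}

theorem orth (hd : PieceData H a β t σ) (hq2 : q ≠ 2) (b : B) {y : Y} (hy : H.ω y (σ b y) = 0) :
    σ b y = y ∨ σ b y = -y :=
  orth_case H (σ := σ b) hq2 hd.haX hd.haa hd.hβX hd.hβ (hd.hbX b) (hd.hfix b) hy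

theorem add_self_eq_zero (hd : PieceData H a β t σ) (hq2 : q ≠ 2) {y : Y} (h : y + y = 0) : y = 0 :=
  two_nsmul_inj hq2 H.exp h

theorem ne_neg (hd : PieceData H a β t σ) (hq2 : q ≠ 2) [Nontrivial Y] :
    (1 : AddMonoid.End Y) ≠ -1 := fun h => by
  obtain ⟨y, hy⟩ := exists_ne (0 : Y)
  have h1 : y = -y := DFunLike.congr_fun h y
  exact hy (hd.add_self_eq_zero hq2 (by nth_rewrite 2 [h1]; exact add_neg_cancel y))

/-- An involution is a scalar. -/
theorem involution (hd : PieceData H a β t σ) (hq2 : q ≠ 2) (b : B) (hb : σ b * σ b = 1) :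
    σ b = 1 ∨ σ b = -1 := by
  have h : ∀ y, σ b y = y ∨ σ b y = -y := fun y => by
    refine hd.orth hq2 b ?_
    have h1 := hd.hσω b y (σ b y)
    rw [show σ b (σ b y) = y from DFunLike.congr_fun hb y] at h1
    have h2 : H.ω (σ b y) y = - H.ω y (σ b y) := by
      have h3 := H.alt (y + σ b y)
      simp only [map_add, AddMonoidHom.add_apply, H.alt, zero_add, add_zero] at h3
      exact eq_neg_of_add_eq_zero_left h3
    rw [h2, neg_eq_iff_add_eq_zero] at h1
    exact two_nsmul_inj hq2 (fun m => by rw [nsmul_eq_mul, ZMod.natCast_self, zero_mul]) h1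
  rcases pm_scalar (fun y => hd.add_self_eq_zero hq2) (σ b) h with h1 | h1
  · exact Or.inl (DFunLike.ext _ _ h1)
  · exact Or.inr (DFunLike.ext _ _ h1)

theorem exists_not_pm (hd : PieceData H a β t σ) (hq2 : q ≠ 2) [Nontrivial Y] :
    ∃ b, σ b ≠ 1 ∧ σ b ≠ -1 := by
  by_contra! hall
  obtain ⟨b, b', h⟩ := hd.hneg
  refine hd.ne_neg hq2 (Eq.trans ?_ h)
  have hc : ∀ b, ∀ f : AddMonoid.End Y, σ b * f = f * σ b := fun b f => by
    by_cases hb : σ b = 1
    · rw [hb, one_mul, mul_one]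
    · rw [hall b hb]; simp
  rw [commutatorElement_def, map_mul, map_mul, map_mul, hc b (σ b'), mul_assoc (σ b'), ← map_mul σ b,
    mul_inv_cancel, map_one, mul_one, ← map_mul, mul_inv_cancel, map_one]

theorem q_three (hd : PieceData H a β t σ) (hq2 : q ≠ 2) [Nontrivial Y] : q = 3 := by
  obtain ⟨b, hb1, hb2⟩ := hd.exists_not_pm hq2
  by_contra hq
  have h : ∀ y, σ b y = y ∨ σ b y = -y := fun y => by
    refine hd.orth hq2 b (by_contra fun hne => hq ?_)
    exact q_eq_three H (σ := σ b) hq2 hd.haX hd.haa hd.hβX hd.hβ (hd.hbX b) (hd.hfix b) hne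
  rcases pm_scalar (fun y => hd.add_self_eq_zero hq2) (σ b) h with h1 | h1
  · exact hb1 (DFunLike.ext _ _ h1)
  · exact hb2 (DFunLike.ext _ _ h1)

theorem card_nine (hd : PieceData H a β t σ) (hq2 : q ≠ 2) [Nontrivial Y] (hB : IsPGroup 2 B) :
    Nat.card Y = 9 := by
  classical
  obtain rfl := hd.q_three hq2
  obtain ⟨b, hb1, hb2⟩ := hd.exists_not_pm hq2
  obtain ⟨n, hn⟩ := hB b
  have hex : ∃ k, σ (b ^ 2 ^ k) = 1 ∨ σ (b ^ 2 ^ k) = -1 := ⟨n, Or.inl (by rw [hn, map_one])⟩
  set k := Nat.find hex with hk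
  have hk0 : k ≠ 0 := fun h0 => by
    have := Nat.find_spec hex
    rw [← hk, h0, pow_zero, pow_one] at this
    exact this.elim hb1 hb2
  obtain ⟨j, hj⟩ := Nat.exists_eq_succ_of_ne_zero hk0
  have hj' := Nat.find_min hex (show j < k by omega)
  have hspec := Nat.find_spec hex
  rw [← hk, hj, pow_succ, pow_mul, pow_two, map_mul] at hspec
  set i := b ^ 2 ^ j
  have hi : σ i * σ i = -1 := hspec.resolve_left fun h => hj' (hd.involution hq2 i h)
  exact card_eq_nine H.ω H.alt H.nondeg H.exp (σ i) (fun y => DFunLike.congr_fun hi y)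
    (hd.hσω i) (fun y => hd.orth hq2 i)

/-- On the fixed space every symmetric sum is the identity. -/
theorem phi_S (hd : PieceData H a β t σ) (hq2 : q ≠ 2) [Nontrivial Y] (hB : IsPGroup 2 B) [Finite B]
    {y : Y} (hy : y ≠ 0) : β * (a + 1) * H.S y = β * (a + 1) := by
  have hcard := hd.card_nine hq2 hB
  obtain rfl := hd.q_three hq2
  set φ := β * (a + 1) with hφ
  obtain ⟨b₀, b₀', hb₀⟩ := hd.hneg
  have htrans : ∀ z : Y, z ≠ 0 → φ * H.S z = φ * H.S y := by
    intro z hz
    obtain ⟨b, -, rfl⟩ := plane_transitive hcard H.exp H.ω H.alt H.nondeg hB σ hd.hσω ⊤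
      ⟨b₀, Subgroup.mem_top _, b₀', Subgroup.mem_top _, by
        rw [hb₀]; exact (hd.ne_neg hq2).symm⟩ hy hz
    exact S_eq_of_fixed H hd.haX hd.hβX (hd.hbX b) (hd.hfix b) y
  have hadd : ∀ f : Module.End K W, f + f = 0 := fun f => by
    rw [← two_smul K f, CharTwo.two_eq_zero, zero_smul]
  have h3 : ∀ z : Y, z + z = -z := fun z => by
    rw [eq_neg_iff_add_eq_zero]
    have := H.exp z
    rwa [succ_nsmul, two_nsmul] at this
  have hsq : ∀ z, H.S z * H.S z = H.S z := fun z => by
    have h1 : H.X z * H.X z = H.X (-z) := by rw [← pow_two, ← H.X_nsmul, two_nsmul, h3]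
    have h2 : H.X (-z) * H.X (-z) = H.X z := by rw [← pow_two, ← H.X_nsmul, two_nsmul, h3, neg_neg]
    have h4 : H.X (-z) * H.X z = 1 := by
      have := H.X_neg (-z); rwa [neg_neg] at this
    simp only [Heis.S, mul_add, add_mul, h1, h2, h4, H.X_neg]
    rw [add_assoc, ← add_assoc 1, hadd, zero_add, add_comm]
  set ψ := φ + φ * H.S y with hψ
  have hψX : ∀ z, ψ * H.X z = ψ := by
    intro z
    by_cases hz : z = 0
    · rw [hz, H.X_zero, mul_one]
    have h0 : ψ * H.S z = 0 := by
      rw [hψ, add_mul, ← htrans z hz, mul_assoc φ, hsq, hadd]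
    have h1 : ψ * H.X z = ψ * H.X (-z) := by
      rw [Heis.S, mul_add] at h0
      calc ψ * H.X z = ψ * H.X z + (ψ * H.X (-z) + ψ * H.X (-z)) := by rw [hadd, add_zero]
        _ = _ := by rw [← add_assoc, h0, zero_add]
    have h4 : H.X z * H.X z = H.X (-z) := by rw [← pow_two, ← H.X_nsmul, two_nsmul, h3]
    calc ψ * H.X z = ψ * H.X (-z) := h1
      _ = ψ * H.X z * H.X z := by rw [mul_assoc, h4]
      _ = ψ * H.X (-z) * H.X z := by rw [h1]
      _ = ψ := by
        have h5 := H.X_neg (-z); rw [neg_neg] at h5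
        rw [mul_assoc, h5, mul_one]
  obtain ⟨z, hz⟩ : ∃ z, H.ω y z ≠ 0 := by
    by_contra! h
    exact hy (H.nondeg y h)
  have hc := congrArg (ψ * ·) (H.X_comm y z)
  simp only [mul_smul_comm, ← mul_assoc, hψX] at hc
  have hψ0 : ψ = 0 := by
    have h6 : (H.ζ ^ (H.ω y z).val - 1) • ψ = 0 := by rw [sub_smul, one_smul, ← hc, sub_self]
    refine (smul_eq_zero.1 h6).resolve_left fun h => hz ?_
    have h7 := H.hζ.pow_inj (ZMod.val_lt (H.ω y z)) (by norm_num : 0 < 3)
      (by rw [sub_eq_zero.1 h, pow_zero])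
    exact (ZMod.val_eq_zero _).1 h7
  calc φ * H.S y = ψ + φ := by rw [hψ, add_comm φ, add_assoc, hadd, add_zero]
    _ = φ := by rw [hψ0, zero_add]

end PieceData

end CfsgLib.TwoLengthDerived
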