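import Mathlib
import Cfsg.Agent.Lib.PGroups.Frattini
import Cfsg.Agent.Lib.TwoLengthDerived.Half
import Cfsg.Agent.Lib.TwoLengthDerived.BlockDefs

/-!
The local theorem on one block: under the relations left by the bounded two-length argument the
last derived term of a two-group acts on the block space through at most one involution.
-/

set_option autoImplicit false
set_option linter.style.haveILetI false
set_option linter.unusedSectionVars false

open scoped commutatorElement

namespace CfsgLib.TwoLengthDerived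

universe u v w

variable {K : Type u} [Field K] [CharP K 2] {W : Type v} [AddCommGroup W] [Module K W]

/-- A commutator of two elements with commuting images has trivial image. -/
theorem map_commutator_eq_one {G : Type*} [Group G] {M : Type*} [Monoid M] (σ : G →* M) (b b' : G)
    (h : Commute (σ b) (σ b')) : σ ⁅b, b'⁆ = 1 := by
  rw [commutatorElement_def, map_mul, map_mul, map_mul, h.eq, mul_assoc (σ b'), ← map_mul σ b,
    mul_inv_cancel, map_one, mul_one, ← map_mul, mul_inv_cancel, map_one]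

theorem commute_of_pm {M : Type*} [Ring M] {f : M} (hf : f = 1 ∨ f = -1) (g : M) : Commute f g := by
  rcases hf with rfl | rfl
  · exact Commute.one_left g
  · exact (Commute.one_left g).neg_left

theorem pm_mul {M : Type*} [Ring M] {f g : M} (hf : f = 1 ∨ f = -1) (hg : g = 1 ∨ g = -1) :
    f * g = 1 ∨ f * g = -1 := by
  rcases hf with rfl | rfl <;> rcases hg with rfl | rfl <;> simp

theorem pm_sq {M : Type*} [Ring M] {f : M} (hf : f = 1 ∨ f = -1) : f * f = 1 := by
  rcases hf with rfl | rfl <;> simp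

/-- An operator of two-power order fixes a nonzero vector of every invariant additive set. -/
theorem exists_fixed_vector (V : AddSubgroup W) (g : Module.End K W) (hg : ∀ x ∈ V, g x ∈ V)
    (hne : ∃ x ∈ V, x ≠ 0) {n : ℕ} (hn : g ^ 2 ^ n = 1) : ∃ x ∈ V, g x = x ∧ x ≠ 0 := by
  induction n generalizing g with
  | zero =>
    obtain ⟨x, hx, hx0⟩ := hne
    rw [pow_zero, pow_one] at hn
    exact ⟨x, hx, by rw [hn]; rfl, hx0⟩
  | succ n ih =>
    obtain ⟨x, hx, hgx, hx0⟩ := ih (g * g) (fun x hx => hg _ (hg x hx))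
      (by rw [← pow_two, ← pow_mul, ← pow_succ', hn])
    by_cases hfix : g x = x
    · exact ⟨x, hx, hfix, hx0⟩
    refine ⟨x + g x, V.add_mem hx (hg x hx), ?_, fun h => hfix ?_⟩
    · rw [map_add, show g (g x) = x from hgx, add_comm]
    · have h2 : x + x = 0 := by rw [← two_smul K x, CharTwo.two_eq_zero, zero_smul]
      exact add_left_cancel (h.trans h2.symm)

variable [IsAlgClosed K] [FiniteDimensional K W] {q : ℕ} [Fact q.Prime] {Y : Type w} [AddCommGroup Y]
  [Finite Y]

/-- The last relation cannot hold on two orthogonal pieces. -/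
theorem final_contra (H : Heis K W q Y) (fa fb fr : Module.End K W) (σb σr : AddMonoid.End Y) (v : W)
    (hv : v ≠ 0) (hav : fa v = v) (hbv : fb v = v) (hrv : fr v = v)
    (haX : ∀ y, fa * H.X y = H.X (-y) * fa) (hbX : ∀ y, fb * H.X y = H.X (σb y) * fb)
    (hrX : ∀ y, fr * H.X y = H.X (σr y) * fr) {y z : Y} (hzy : H.ω z y = 0) (hSy : H.S y v = v)
    (hSz : H.S z v = v) (hrz : σr z = z ∨ σr z = -z) (hrk : σr y = σb y) (hbb : σb (σb y) = -y)
    (hzero : ∀ x, (fb + 1) ((fr + 1) ((fa + 1) x)) = 0) : False := by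
  have h2 : ∀ x : W, x + x = 0 := fun x => by rw [← two_smul K x, CharTwo.two_eq_zero, zero_smul]
  have hA : ∀ s x, fa (H.X s x) = H.X (-s) (fa x) := fun s x => DFunLike.congr_fun (haX s) x
  have hB : ∀ s x, fb (H.X s x) = H.X (σb s) (fb x) := fun s x => DFunLike.congr_fun (hbX s) x
  have hR : ∀ s x, fr (H.X s x) = H.X (σr s) (fr x) := fun s x => DFunLike.congr_fun (hrX s) x
  have hS : ∀ s, H.S s v = H.X s v + H.X (-s) v := fun s => rfl
  rw [hS] at hSy hSz
  have hcomm : ∀ x, H.X (-z) (H.X (-y) x) = H.X (-y) (H.X (-z) x) := fun x => by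
    have h := DFunLike.congr_fun (H.X_comm (-z) (-y)) x
    simp only [map_neg, AddMonoidHom.neg_apply, hzy, neg_zero, ZMod.val_zero, pow_zero, one_smul] at h
    exact h
  have hcomm' : H.X z (H.X y v) = H.X y (H.X z v) := by
    have h := DFunLike.congr_fun (H.X_comm z y) v
    simp only [hzy, ZMod.val_zero, pow_zero, one_smul] at h
    exact h
  have hneg : H.X (-z) v = v + H.X z v := by
    calc H.X (-z) v = (H.X z v + H.X z v) + H.X (-z) v := by rw [h2, zero_add]
      _ = v + H.X z v := by rw [add_assoc, hSz, add_comm]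
  have hw : (fa + 1) (H.X z (H.X y v)) = H.X (-y) v + H.X z v := by
    have hyz : ∀ x, H.X (-y) (H.X z x) = H.X z (H.X (-y) x) := fun x => by
      have h := DFunLike.congr_fun (H.X_comm z (-y)) x
      simp only [map_neg, hzy, neg_zero, ZMod.val_zero, pow_zero, one_smul] at h
      exact h.symm
    rw [LinearMap.add_apply, Module.End.one_apply, hA, hA, hav, hcomm, hneg, map_add, hyz]
    rw [add_assoc, ← map_add, add_comm (H.X (-y) v) (H.X y v), hSy]
  have hc : ∃ c : W, fb c = c ∧ fr (H.X z v) + H.X z v = c := by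
    refine ⟨_, ?_, rfl⟩
    rw [hR, hrv]
    rcases hrz with e | e <;> rw [e]
    · rw [h2, map_zero]
    · rw [add_comm, hSz, hbv]
  obtain ⟨c, hbc, hc⟩ := hc
  have h := hzero (H.X z (H.X y v))
  rw [hw] at h
  simp only [LinearMap.add_apply, Module.End.one_apply, map_add] at h
  have hr' : fr (H.X (-y) v) = H.X (-σb y) v := by rw [hR, hrv, map_neg, hrk]
  have hb1 : fb (H.X (-σb y) v) = H.X y v := by rw [hB, hbv, map_neg, hbb, neg_neg]
  have hb2 : fb (H.X (-y) v) = H.X (-σb y) v := by rw [hB, hbv, map_neg]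
  rw [hr', hb1, hb2] at h
  apply hv
  calc v = H.X y v + H.X (-y) v := hSy.symm
    _ = H.X y v + H.X (-y) v + (H.X (-σb y) v + H.X (-σb y) v) + (fb c + c) := by
        rw [hbc, h2, h2, add_zero, add_zero]
    _ = _ := by
        rw [← hc, map_add]
        abel
    _ = 0 := h

/-- The fixed space of the piece is not zero. -/
theorem phi_ne_zero [Nontrivial Y] (H : Heis K W 3 Y) (a β : Module.End K W)
    (haX : ∀ y, a * H.X y = H.X (-y) * a) (hβX : ∀ y, Commute β (H.X y)) (hβ : β ≠ 0) :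
    β * (a + 1) ≠ 0 := by
  intro h0
  have hadd : ∀ f : Module.End K W, f + f = 0 := fun f => by
    rw [← two_smul K f, CharTwo.two_eq_zero, zero_smul]
  have hβa : β * a = β := by
    rw [mul_add, mul_one] at h0
    calc β * a = β * a + (β + β) := by rw [hadd, add_zero]
      _ = β := by rw [← add_assoc, h0, zero_add]
  have h1 : ∀ y, β * H.X (-y) = β * H.X y := fun y => by
    calc β * H.X (-y) = H.X (-y) * β := hβX _
      _ = β * (H.X (-y) * a) := by rw [← mul_assoc, (hβX _).eq, mul_assoc, hβa]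
      _ = β * H.X y := by rw [← haX, ← mul_assoc, hβa]
  have h3 : ∀ z : Y, z + z = -z := fun z => by
    rw [eq_neg_iff_add_eq_zero]
    have := H.exp z
    rwa [succ_nsmul, two_nsmul] at this
  have hX : ∀ y, β * H.X y = β := fun y => by
    calc β * H.X y = β * (H.X (-y) * H.X (-y)) := by rw [← pow_two, ← H.X_nsmul, two_nsmul, h3, neg_neg]
      _ = β := by rw [← mul_assoc, h1, mul_assoc, H.X_neg, mul_one]
  obtain ⟨y, hy⟩ := exists_ne (0 : Y)
  refine hy (H.nondeg y fun z => ?_)
  have hc := congrArg (β * ·) (H.X_comm y z)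
  simp only [mul_smul_comm, ← mul_assoc, hX] at hc
  have h6 : (H.ζ ^ (H.ω y z).val - 1) • β = 0 := by rw [sub_smul, one_smul, ← hc, sub_self]
  have h7 := H.hζ.pow_inj (ZMod.val_lt (H.ω y z)) (by norm_num : 0 < 3)
    (by rw [sub_eq_zero.1 ((smul_eq_zero.1 h6).resolve_right hβ), pow_zero])
  exact (ZMod.val_eq_zero _).1 h7

/-- The long relation is impossible. -/
theorem split_contra [Nontrivial Y] (hq2 : q ≠ 2) (H : Heis K W q Y) {G : Type w} [Group G] [Finite G]
    (hG : IsPGroup 2 G) (f : G →* Module.End K W) (σ : G →* AddMonoid.End Y)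
    (hX : ∀ r y, f r * H.X y = H.X (σ r y) * f r) (hσω : ∀ r y z, H.ω (σ r y) (σ r z) = H.ω y z)
    (fa : Module.End K W) (haX : ∀ y, fa * H.X y = H.X (-y) * fa) (haa : fa * fa = 1)
    (hfa : ∀ r, Commute (f r) fa) (hinj : ∀ r, f r = 1 → σ r = 1) (hinj' : ∀ r, f r = fa → σ r = -1)
    (B : Subgroup G) [B.Normal] (hBc : B ≤ commutator G)
    (hpm : ∀ b ∈ B, ∀ b' ∈ B, σ ⁅b, b'⁆ = 1 ∨ σ ⁅b, b'⁆ = -1)
    (hneg : ∃ b ∈ B, ∃ b' ∈ B, σ ⁅b, b'⁆ = -1)
    (h3B : ∀ b ∈ B, ∀ b' ∈ B, (fa - 1) * ((f b - 1) * (f b' - 1)) = 0)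
    (h3G : (∀ b ∈ B, ∀ r, (fa - 1) * ((f b - 1) * (f r - 1)) = 0) ∨
      ∃ g ∈ ⁅⁅commutator G, commutator G⁆, ⁅commutator G, commutator G⁆⁆, σ g = -1) : False := by
  have h2Y : ∀ y : Y, y + y = 0 → y = 0 := fun y h => two_nsmul_inj hq2 H.exp h
  have hωq : ∀ t : ZMod q, t + t = 0 → t = 0 := fun t h =>
    two_nsmul_inj hq2 (fun m => by rw [nsmul_eq_mul, ZMod.natCast_self, zero_mul]) h
  have hadd : ∀ g : Module.End K W, g + g = 0 := fun g => by
    rw [← two_smul K g, CharTwo.two_eq_zero, zero_smul]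
  have hsub : ∀ g : Module.End K W, g - 1 = g + 1 := fun g => by
    rw [sub_eq_add_neg, neg_eq_of_add_eq_zero_left (hadd 1)]
  simp only [hsub] at h3B h3G
  obtain ⟨u, huB, hu1, hu2, huu, huc, hur⟩ :=
    exists_split (fun y h => h2Y y (by rwa [two_nsmul] at h)) hG σ B hBc hpm hneg
  set U := σ u with hUdef
  have hUU : ∀ y, U (U y) = y := fun y => DFunLike.congr_fun huu y
  have hωU : ∀ y z, H.ω (U y) (U z) = H.ω y z := hσω u
  -- the two pieces
  let Yp : AddSubgroup Y :=
    { carrier := {y | U y = y}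
      zero_mem' := map_zero U
      add_mem' := fun {y z} hy hz => by
        show U (y + z) = y + z
        rw [map_add, show U y = y from hy, show U z = z from hz]
      neg_mem' := fun {y} hy => by
        show U (-y) = -y
        rw [map_neg, show U y = y from hy] }
  let Ym : AddSubgroup Y :=
    { carrier := {y | U y = -y}
      zero_mem' := by simp
      add_mem' := fun {y z} hy hz => by
        show U (y + z) = -(y + z)
        rw [map_add, show U y = -y from hy, show U z = -z from hz, neg_add]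
      neg_mem' := fun {y} hy => by
        show U (-y) = -(-y)
        rw [map_neg, show U y = -y from hy] }
  have hp_mem : ∀ y, y + U y ∈ Yp := fun y => by
    show U (y + U y) = y + U y
    rw [map_add, hUU, add_comm]
  have hm_mem : ∀ y, y - U y ∈ Ym := fun y => by
    show U (y - U y) = -(y - U y)
    rw [map_sub, hUU, neg_sub]
  have horth : ∀ y ∈ Yp, ∀ z ∈ Ym, H.ω y z = 0 := fun y hy z hz => by
    have h := hωU y z
    rw [show U y = y from hy, show U z = -z from hz, map_neg, neg_eq_iff_add_eq_zero] at h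
    exact hωq _ h
  have hZp : ∀ y ∈ Yp, (∀ z ∈ Yp, H.ω y z = 0) → y = 0 := fun y hy h => H.nondeg y fun z => by
    refine hωq _ ?_
    calc H.ω y z + H.ω y z = H.ω y (z + U z) + H.ω y (z - U z) := by rw [map_add, map_sub]; abel
      _ = 0 := by rw [h _ (hp_mem z), horth y hy _ (hm_mem z), add_zero]
  have hZm : ∀ y ∈ Ym, (∀ z ∈ Ym, H.ω y z = 0) → y = 0 := fun y hy h => H.nondeg y fun z => by
    refine hωq _ ?_
    have hskew : ∀ x, H.ω x y = - H.ω y x := fun x => by
      have h3 := H.alt (x + y)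
      simp only [map_add, AddMonoidHom.add_apply, H.alt, zero_add, add_zero] at h3
      exact eq_neg_of_add_eq_zero_right h3
    calc H.ω y z + H.ω y z = H.ω y (z + U z) + H.ω y (z - U z) := by rw [map_add, map_sub]; abel
      _ = 0 := by
        rw [h _ (hm_mem z), neg_eq_iff_eq_neg.1 (hskew (z + U z)).symm, horth _ (hp_mem z) y hy,
          neg_zero, add_zero]
  haveI : Nontrivial Yp := by
    by_contra hn
    rw [not_nontrivial_iff_subsingleton] at hn
    refine hu2 (DFunLike.ext _ _ fun y => ?_)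
    exact eq_neg_of_add_eq_zero_right (congrArg Subtype.val (Subsingleton.elim (⟨_, hp_mem y⟩ : Yp) 0))
  haveI : Nontrivial Ym := by
    by_contra hn
    rw [not_nontrivial_iff_subsingleton] at hn
    refine hu1 (DFunLike.ext _ _ fun y => ?_)
    exact (sub_eq_zero.1 (congrArg Subtype.val (Subsingleton.elim (⟨_, hm_mem y⟩ : Ym) 0))).symm
  -- the stabiliser of the two pieces
  have hsgn : ∀ r, σ r * U = U * σ r ∨ σ r * U = -(U * σ r) := fun r => by
    have e : σ r * U = σ (r * u * r⁻¹) * σ r := by rw [hUdef, ← map_mul, ← map_mul, inv_mul_cancel_right]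
    rcases hur r with h | h <;> rw [h] at e
    · exact Or.inl e
    · exact Or.inr (by rw [e, neg_mul])
  have hinv : ∀ r, σ r⁻¹ * σ r = 1 := fun r => by rw [← map_mul, inv_mul_cancel, map_one]
  let R0 : Subgroup G :=
    { carrier := {r | σ r * U = U * σ r}
      one_mem' := by simp
      mul_mem' := fun {r s} hr hs => by
        show σ (r * s) * U = U * σ (r * s)
        rw [map_mul, mul_assoc, show σ s * U = U * σ s from hs, ← mul_assoc,
          show σ r * U = U * σ r from hr, mul_assoc]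
      inv_mem' := fun {r} hr => by
        show σ r⁻¹ * U = U * σ r⁻¹
        calc σ r⁻¹ * U = σ r⁻¹ * U * (σ r * σ r⁻¹) := by rw [← map_mul σ r r⁻¹, mul_inv_cancel, map_one, mul_one]
          _ = σ r⁻¹ * (σ r * U) * σ r⁻¹ := by rw [show σ r * U = U * σ r from hr]; simp only [mul_assoc]
          _ = U * σ r⁻¹ := by rw [← mul_assoc, hinv, one_mul] }
  have hmul2 : ∀ r s, r ∉ R0 → s ∉ R0 → r * s ∈ R0 := fun r s hr hs => by
    show σ (r * s) * U = U * σ (r * s)
    rw [map_mul, mul_assoc, (hsgn s).resolve_left hs, mul_neg, ← mul_assoc,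
      (hsgn r).resolve_left hr, neg_mul, neg_neg, mul_assoc]
  have hninv : ∀ r, r ∉ R0 → r⁻¹ ∉ R0 := fun r hr h => hr (by simpa using R0.inv_mem h)
  have hmix : ∀ r s, r ∈ R0 → s ∉ R0 → r * s ∉ R0 := fun r s hr hs h =>
    hs (by simpa using R0.mul_mem (R0.inv_mem hr) h)
  have hmix' : ∀ r s, r ∉ R0 → s ∈ R0 → r * s ∉ R0 := fun r s hr hs h =>
    hr (by simpa using R0.mul_mem h (R0.inv_mem hs))
  have hcR0 : commutator G ≤ R0 := by
    rw [commutator_def, Subgroup.commutator_le]
    rintro r - s -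
    rw [commutatorElement_def]
    by_cases hr : r ∈ R0 <;> by_cases hs : s ∈ R0
    · exact R0.mul_mem (R0.mul_mem (R0.mul_mem hr hs) (R0.inv_mem hr)) (R0.inv_mem hs)
    · exact hmul2 _ _ (hmix' _ _ (hmix _ _ hr hs) (R0.inv_mem hr)) (hninv _ hs)
    · exact R0.mul_mem (hmul2 _ _ (hmix' _ _ hr hs) (hninv _ hr)) (R0.inv_mem hs)
    · exact hmul2 _ _ (hmix _ _ (hmul2 _ _ hr hs) (hninv _ hr)) (hninv _ hs)
  have hBR0 : B ≤ R0 := fun b hb => huc b hb
  have hRp : ∀ r : R0, ∀ y ∈ Yp, σ r y ∈ Yp := fun r y hy => by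
    show U (σ r y) = σ r y
    rw [← show σ r (U y) = U (σ r y) from DFunLike.congr_fun r.2 y, show U y = y from hy]
  have hRm : ∀ r : R0, ∀ y ∈ Ym, σ r y ∈ Ym := fun r y hy => by
    show U (σ r y) = -σ r y
    rw [← show σ r (U y) = U (σ r y) from DFunLike.congr_fun r.2 y, show U y = -y from hy, map_neg]
  let σp : R0 →* AddMonoid.End Yp :=
    { toFun := fun r => ((σ (r : G)).comp Yp.subtype).codRestrict Yp (fun y => hRp r y y.2)
      map_one' := AddMonoidHom.ext fun y => Subtype.ext (by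
        show σ ((1 : R0) : G) (y : Y) = y
        rw [Subgroup.coe_one, map_one]; rfl)
      map_mul' := fun r s => AddMonoidHom.ext fun y => Subtype.ext (by
        show σ ((r * s : R0) : G) (y : Y) = σ r (σ s y)
        rw [Subgroup.coe_mul, map_mul]; rfl) }
  let σm : R0 →* AddMonoid.End Ym :=
    { toFun := fun r => ((σ (r : G)).comp Ym.subtype).codRestrict Ym (fun y => hRm r y y.2)
      map_one' := AddMonoidHom.ext fun y => Subtype.ext (by
        show σ ((1 : R0) : G) (y : Y) = y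
        rw [Subgroup.coe_one, map_one]; rfl)
      map_mul' := fun r s => AddMonoidHom.ext fun y => Subtype.ext (by
        show σ ((r * s : R0) : G) (y : Y) = σ r (σ s y)
        rw [Subgroup.coe_mul, map_mul]; rfl) }
  -- the fixed space
  set βp := f u + 1 with hβp
  set βm := f u * fa + 1 with hβm
  set φ := βp * (fa + 1) with hφ
  have hφm : βm * (fa + 1) = φ := by
    rw [hφ, hβp, hβm]
    simp only [add_mul, mul_add, mul_one, one_mul, mul_assoc, haa]
    abel
  have hφb : ∀ b ∈ B, f b * φ = φ := fun b hb => by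
    have c1 : Commute (fa + 1) (f b + 1) :=
      ((hfa b).symm.add_right (Commute.one_right fa)).add_left (Commute.one_left _)
    have c2 : Commute (fa + 1) (f u + 1) :=
      ((hfa u).symm.add_right (Commute.one_right fa)).add_left (Commute.one_left _)
    have h : (f b + 1) * φ = 0 := by
      rw [hφ, hβp, ← mul_assoc, ← (c1.mul_right c2).eq]
      exact h3B b hb u huB
    rw [add_mul, one_mul] at h
    calc f b * φ = f b * φ + (φ + φ) := by rw [hadd, add_zero]
      _ = φ := by rw [← add_assoc, h, zero_add]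
  let Bi : ↥B →* ↥R0 := Subgroup.inclusion hBR0
  have hpmB : ∀ b b' : B, σ (⁅b, b'⁆ : B) = 1 ∨ σ (⁅b, b'⁆ : B) = -1 := fun b b' => hpm b b.2 b' b'.2
  have hdp : PieceData (H.restrict Yp hZp) fa βp (f.comp B.subtype) (σp.comp Bi) := {
    haX := fun y => haX y
    haa := haa
    hβX := fun y => by
      refine Commute.add_left ?_ (Commute.one_left _)
      show f u * H.X (y : Y) = H.X (y : Y) * f u
      rw [hX, show σ u (y : Y) = y from y.2]
    hβ := fun h => hu1 (hinj u (by
      calc f u = f u + (1 + 1) := by rw [hadd, add_zero]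
        _ = 1 := by rw [← add_assoc, ← hβp, h, zero_add]))
    hbX := fun b y => hX b y
    hfix := fun b => hφb b b.2
    hσω := fun b y z => hσω b y z
    hpm := fun b b' => (hpmB b b').imp (fun e => AddMonoidHom.ext fun y => Subtype.ext (DFunLike.congr_fun e (y : Y)))
      (fun e => AddMonoidHom.ext fun y => Subtype.ext (DFunLike.congr_fun e (y : Y)))
    hneg := by
      obtain ⟨b, hb, b', hb', e⟩ := hneg
      exact ⟨⟨b, hb⟩, ⟨b', hb'⟩, AddMonoidHom.ext fun y => Subtype.ext (DFunLike.congr_fun e (y : Y))⟩ }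
  have hdm : PieceData (H.restrict Ym hZm) fa βm (f.comp B.subtype) (σm.comp Bi) := {
    haX := fun y => haX y
    haa := haa
    hβX := fun y => by
      refine Commute.add_left ?_ (Commute.one_left _)
      show f u * fa * H.X (y : Y) = H.X (y : Y) * (f u * fa)
      rw [mul_assoc, haX, ← mul_assoc, hX, show σ u (-(y : Y)) = y by
        rw [map_neg, show σ u (y : Y) = -y from y.2, neg_neg], mul_assoc]
    hβ := fun h => hu2 (hinj' u (by
      calc f u = f u * fa * fa := by rw [mul_assoc, haa, mul_one]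
        _ = (f u * fa + (1 + 1)) * fa := by rw [hadd, add_zero]
        _ = fa := by rw [← add_assoc, ← hβm, h, zero_add, one_mul]))
    hbX := fun b y => hX b y
    hfix := fun b => by rw [hφm]; exact hφb b b.2
    hσω := fun b y z => hσω b y z
    hpm := fun b b' => (hpmB b b').imp (fun e => AddMonoidHom.ext fun y => Subtype.ext (DFunLike.congr_fun e (y : Y)))
      (fun e => AddMonoidHom.ext fun y => Subtype.ext (DFunLike.congr_fun e (y : Y)))
    hneg := by
      obtain ⟨b, hb, b', hb', e⟩ := hneg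
      exact ⟨⟨b, hb⟩, ⟨b', hb'⟩, AddMonoidHom.ext fun y => Subtype.ext (DFunLike.congr_fun e (y : Y))⟩ }
  have hBp : IsPGroup 2 B := hG.to_subgroup B
  have hcp := hdp.card_nine hq2 hBp
  have hcm := hdm.card_nine hq2 hBp
  obtain rfl := hdp.q_three hq2
  have hR0 : IsPGroup 2 R0 := hG.to_subgroup R0
  have hne : ∀ {Z : Type w} [AddCommGroup Z] [Nontrivial Z], (∀ z : Z, 3 • z = 0) →
      (1 : AddMonoid.End Z) ≠ -1 := by
    intro Z _ _ h3 h
    obtain ⟨z, hz⟩ := exists_ne (0 : Z)
    have h1 : z + z = 0 := by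
      nth_rewrite 2 [show z = -z from DFunLike.congr_fun h z]
      exact add_neg_cancel z
    exact hz (two_nsmul_inj (q := 3) (by norm_num) h3 h1)
  -- the long relation with the outside group
  have h3R : ∀ b ∈ B, ∀ r, (fa + 1) * ((f b + 1) * (f r + 1)) = 0 := by
    refine h3G.resolve_right ?_
    rintro ⟨g, hg, hσg⟩
    let Pm : Subgroup R0 :=
      { carrier := {r | σp r = 1 ∨ σp r = -1}
        one_mem' := Or.inl (map_one σp)
        mul_mem' := fun {r s} hr hs => by
          show σp (r * s) = 1 ∨ σp (r * s) = -1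
          rw [map_mul]
          exact pm_mul hr hs
        inv_mem' := fun {r} hr => by
          have hsq : σp r * σp r = 1 := pm_sq hr
          have e : σp r⁻¹ = σp r := by
            calc σp r⁻¹ = σp r⁻¹ * (σp r * σp r) := by rw [hsq, mul_one]
              _ = σp r := by rw [← mul_assoc, ← map_mul, inv_mul_cancel, map_one, one_mul]
          rw [Set.mem_setOf_eq, e]
          exact hr }
    have hJ2 : ⁅commutator G, commutator G⁆ ≤ Pm.map R0.subtype := by
      refine Subgroup.commutator_le.2 fun x hx y hy => ⟨⁅(⟨x, hcR0 hx⟩ : R0), (⟨y, hcR0 hy⟩ : R0)⁆, ?_, rfl⟩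
      exact plane_commutator hcp (H.restrict Yp hZp).exp (H.restrict Yp hZp).ω (H.restrict Yp hZp).alt
        (H.restrict Yp hZp).nondeg hR0 σp (fun r y z => hσω r y z) _ _
    have hJ3 : ⁅⁅commutator G, commutator G⁆, ⁅commutator G, commutator G⁆⁆ ≤
        σp.toHomUnits.ker.map R0.subtype := by
      refine Subgroup.commutator_le.2 fun x hx y hy => ?_
      obtain ⟨x', hx', rfl⟩ := hJ2 hx
      obtain ⟨y', -, rfl⟩ := hJ2 hy
      exact ⟨⁅x', y'⁆, Units.ext (map_commutator_eq_one σp x' y' (commute_of_pm hx' _)), rfl⟩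
    obtain ⟨g', hg', rfl⟩ := hJ3 hg
    refine hne (H.restrict Yp hZp).exp ?_
    refine (show σp g' = 1 from congrArg Units.val hg').symm.trans ?_
    exact AddMonoidHom.ext fun y => Subtype.ext (DFunLike.congr_fun hσg (y : Y))
  -- an element acting by a sign on one piece only
  have hnc : ∀ {Z : Type w} [AddCommGroup Z] [Nontrivial Z], (∀ z : Z, 3 • z = 0) →
      ∀ σ' : R0 →* AddMonoid.End Z, (∃ b b' : B, σ' (Bi ⁅b, b'⁆) = -1) →
      ∃ x ∈ B.subgroupOf R0, ∃ x' ∈ B.subgroupOf R0, σ' ⁅x, x'⁆ ≠ 1 := by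
    intro Z _ _ h3 σ' hb
    obtain ⟨b, b', e⟩ := hb
    refine ⟨Bi b, b.2, Bi b', b'.2, ?_⟩
    rw [← map_commutatorElement, e]
    exact (hne h3).symm
  obtain ⟨r, hr1, hr2⟩ : ∃ r : R0, (σp r = 1 ∨ σp r = -1) ∧ ¬ (σm r = 1 ∨ σm r = -1) := by
    by_contra! hall
    let KK : Subgroup G :=
      { carrier := {x | σ x = 1 ∨ σ x = -1 ∨ σ x = U ∨ σ x = -U}
        one_mem' := Or.inl (map_one σ)
        mul_mem' := fun {r s} hr hs => by
          simp only [Set.mem_setOf_eq, map_mul] at *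
          rcases hr with a | a | a | a <;> rcases hs with b | b | b | b <;> rw [a, b] <;> simp [huu]
        inv_mem' := fun {r} hr => by
          have hsq : σ r * σ r = 1 := by rcases hr with a | a | a | a <;> rw [a] <;> simp [huu]
          have e : σ r⁻¹ = σ r := by
            calc σ r⁻¹ = σ r⁻¹ * (σ r * σ r) := by rw [hsq, mul_one]
              _ = σ r := by rw [← mul_assoc, hinv, one_mul]
          rw [Set.mem_setOf_eq, e]
          exact hr }
    haveI hKn : KK.Normal := ⟨fun x hx r => by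
      have hrr : σ r * σ r⁻¹ = 1 := by rw [← map_mul, mul_inv_cancel, map_one]
      have hrU : σ r * U * σ r⁻¹ = U ∨ σ r * U * σ r⁻¹ = -U := by
        rw [hUdef, ← map_mul, ← map_mul]; exact hur r
      show σ (r * x * r⁻¹) = 1 ∨ σ (r * x * r⁻¹) = -1 ∨ σ (r * x * r⁻¹) = U ∨ σ (r * x * r⁻¹) = -U
      rw [map_mul, map_mul]
      rcases hx with a | a | a | a <;> rcases hrU with b | b <;> rw [a] <;> simp [hrr, b]⟩
    have hin : ∀ x : R0, (σp x = 1 ∨ σp x = -1) → (x : G) ∈ KK := fun x hx => by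
      have hext : ∀ g : AddMonoid.End Y, (∀ y ∈ Yp, σ x y = g y) → (∀ y ∈ Ym, σ x y = g y) →
          σ x = g := fun g hp hm => DFunLike.ext _ _ fun y => by
        refine sub_eq_zero.1 (h2Y _ ?_)
        calc σ x y - g y + (σ x y - g y)
            = (σ x (y + U y) - g (y + U y)) + (σ x (y - U y) - g (y - U y)) := by
              simp only [map_add, map_sub]; abel
          _ = 0 := by rw [hp _ (hp_mem y), hm _ (hm_mem y), sub_self, sub_self, add_zero]
      have h1 : ∀ {Z : AddSubgroup Y} {σ' : R0 →* AddMonoid.End Z}, (∀ r (y : Z), (σ' r y : Y) = σ r y) →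
          σ' x = 1 → ∀ y ∈ Z, σ x y = y := fun hσ' e y hy => by
        have := congrArg Subtype.val (DFunLike.congr_fun e ⟨y, hy⟩)
        rwa [hσ'] at this
      have h2 : ∀ {Z : AddSubgroup Y} {σ' : R0 →* AddMonoid.End Z}, (∀ r (y : Z), (σ' r y : Y) = σ r y) →
          σ' x = -1 → ∀ y ∈ Z, σ x y = -y := fun hσ' e y hy => by
        have := congrArg Subtype.val (DFunLike.congr_fun e ⟨y, hy⟩)
        rwa [hσ'] at this
      have dp : ∀ r (y : Yp), (σp r y : Y) = σ r y := fun r y => rfl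
      have dm : ∀ r (y : Ym), (σm r y : Y) = σ r y := fun r y => rfl
      rcases hx with a | a <;>
        rcases (hall x (by first | exact Or.inl a | exact Or.inr a)) with b | b
      · exact Or.inl (hext 1 (h1 dp a) (h1 dm b))
      · refine Or.inr (Or.inr (Or.inl (hext U (fun y hy => ?_) (fun y hy => ?_))))
        · rw [h1 dp a y hy, show U y = y from hy]
        · rw [h2 dm b y hy, show U y = -y from hy]
      · refine Or.inr (Or.inr (Or.inr (hext (-U) (fun y hy => ?_) (fun y hy => ?_))))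
        · show _ = -(U y)
          rw [h2 dp a y hy, show U y = y from hy]
        · show _ = -(U y)
          rw [h1 dm b y hy, show U y = -y from hy, neg_neg]
      · exact Or.inr (Or.inl (hext (-1) (h2 dp a) (h2 dm b)))
    have hBK : ∀ x ∈ R0, x ∈ B ⊔ KK := fun x hx => by
      obtain ⟨b, hb, e⟩ := plane_cover hcp (H.restrict Yp hZp).exp (H.restrict Yp hZp).ω
        (H.restrict Yp hZp).alt (H.restrict Yp hZp).nondeg hR0 σp (fun r y z => hσω r y z)
        (B.subgroupOf R0) (hnc (H.restrict Yp hZp).exp σp hdp.hneg) ⟨x, hx⟩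
      have h := hin (b⁻¹ * ⟨x, hx⟩) (Or.inl (by
        rw [map_mul, e, ← map_mul, inv_mul_cancel, map_one]))
      have h' := Subgroup.mul_mem_sup (Subgroup.mem_subgroupOf.1 hb) h
      simpa using h'
    obtain ⟨t, htR⟩ : ∃ t, ∀ x : G, x ∈ R0 ∨ x * t⁻¹ ∈ R0 := by
      by_cases h : ∀ x : G, x ∈ R0
      · exact ⟨1, fun x => Or.inl (h x)⟩
      · push Not at h
        obtain ⟨t, ht⟩ := h
        exact ⟨t, fun x => or_iff_not_imp_left.2 fun hx => hmul2 _ _ hx (hninv _ ht)⟩
    have htop : KK ⊔ Subgroup.zpowers t ⊔ frattini G = ⊤ := by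
      refine eq_top_iff.2 fun x _ => ?_
      have hle : B ⊔ KK ≤ KK ⊔ Subgroup.zpowers t ⊔ frattini G :=
        sup_le ((hBc.trans (CfsgLib.PGroups.commutator_le_frattini hG)).trans le_sup_right)
          (le_sup_left.trans le_sup_left)
      rcases htR x with h | h
      · exact hle (hBK x h)
      · have h' := Subgroup.mul_mem _ (hle (hBK _ h))
          (Subgroup.mem_sup_left (Subgroup.mem_sup_right (Subgroup.mem_zpowers t)) :
            t ∈ KK ⊔ Subgroup.zpowers t ⊔ frattini G)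
        simpa using h'
    have htop' := frattini_nongenerating htop
    have hcK : commutator G ≤ KK := by
      rw [commutator_def, Subgroup.commutator_le]
      rintro x - y -
      rw [← QuotientGroup.eq_one_iff]
      have hz : ∀ x : G, ∃ i : ℤ, QuotientGroup.mk' KK x = QuotientGroup.mk' KK t ^ i := fun x => by
        have hx : x ∈ KK ⊔ Subgroup.zpowers t := by rw [htop']; exact Subgroup.mem_top x
        obtain ⟨k, hk, z, hz, rfl⟩ := Subgroup.mem_sup_of_normal_left.1 hx
        obtain ⟨i, rfl⟩ := Subgroup.mem_zpowers_iff.1 hz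
        exact ⟨i, by rw [map_mul, map_zpow, show QuotientGroup.mk' KK k = 1 from
          (QuotientGroup.eq_one_iff k).2 hk, one_mul]⟩
      obtain ⟨i, hi⟩ := hz x
      obtain ⟨j, hj⟩ := hz y
      show QuotientGroup.mk' KK ⁅x, y⁆ = 1
      rw [map_commutatorElement, hi, hj, commutatorElement_eq_one_iff_mul_comm, ← zpow_add, ← zpow_add,
        add_comm]
    obtain ⟨b, hb, b', hb', e⟩ := hneg
    obtain ⟨y, hy⟩ := exists_ne (0 : Y)
    refine hne H.exp ?_
    rw [← e, map_commutator_eq_one σ b b']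
    rcases hcK (hBc hb) with a | a | a | a <;> rw [a]
    · exact Commute.one_left _
    · exact (Commute.one_left _).neg_left
    · exact (huc b' hb').symm
    · exact (show Commute U (σ b') from (huc b' hb').symm).neg_left
  have hk2 : σm r * σm r = -1 := by
    rcases plane_square hcm (H.restrict Ym hZm).exp (H.restrict Ym hZm).ω (H.restrict Ym hZm).alt
      (H.restrict Ym hZm).nondeg hR0 σm (fun r y z => hσω r y z) r with e | e | e
    · exact absurd (Or.inl e) hr2
    · exact absurd (Or.inr e) hr2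
    · exact e
  obtain ⟨b, hb, hbr⟩ := plane_cover hcm (H.restrict Ym hZm).exp (H.restrict Ym hZm).ω
    (H.restrict Ym hZm).alt (H.restrict Ym hZm).nondeg hR0 σm (fun r y z => hσω r y z)
    (B.subgroupOf R0) (hnc (H.restrict Ym hZm).exp σm hdm.hneg) r
  -- a vector fixed by everything in sight
  let V : AddSubgroup W :=
    { carrier := {v | fa v = v ∧ (∀ b ∈ B, f b v = v) ∧
        ∀ y, y ≠ 0 → (y ∈ Yp ∨ y ∈ Ym) → H.S y v = v}
      zero_mem' := ⟨map_zero _, fun _ _ => map_zero _, fun _ _ _ => map_zero _⟩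
      add_mem' := fun {v w} hv hw => ⟨by rw [map_add, hv.1, hw.1],
        fun b hb => by rw [map_add, hv.2.1 b hb, hw.2.1 b hb],
        fun y h0 hy => by rw [map_add, hv.2.2 y h0 hy, hw.2.2 y h0 hy]⟩
      neg_mem' := fun {v} hv => ⟨by rw [map_neg, hv.1],
        fun b hb => by rw [map_neg, hv.2.1 b hb],
        fun y h0 hy => by rw [map_neg, hv.2.2 y h0 hy]⟩ }
  have hSa : ∀ y, fa * H.S y = H.S y * fa := fun y => by
    rw [Heis.S, mul_add, haX, haX, neg_neg, add_mul, add_comm]
  have hSβ : ∀ (β : Module.End K W) y, (∀ z, z = y ∨ z = -y → Commute β (H.X z)) →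
      Commute (H.S y) (β * (fa + 1)) := fun β y h =>
    (((h y (Or.inl rfl)).add_right (h (-y) (Or.inr rfl))).symm).mul_right
      ((show Commute (H.S y) fa from (hSa y).symm).add_right (Commute.one_right _))
  have hSφ : ∀ y, y ≠ 0 → (y ∈ Yp ∨ y ∈ Ym) → H.S y * φ = φ := by
    rintro y h0 (hy | hy)
    · have h := hdp.phi_S hq2 hBp (y := ⟨y, hy⟩) (fun e => h0 (congrArg Subtype.val e))
      rw [(hSβ βp y fun z hz => ?_).eq]
      · exact h
      · exact hdp.hβX ⟨z, by rcases hz with rfl | rfl; exacts [hy, Yp.neg_mem hy]⟩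
    · have h := hdm.phi_S hq2 hBp (y := ⟨y, hy⟩) (fun e => h0 (congrArg Subtype.val e))
      rw [hφm] at h
      rw [← hφm, (hSβ βm y fun z hz => ?_).eq, hφm]
      · exact h
      · exact hdm.hβX ⟨z, by rcases hz with rfl | rfl; exacts [hy, Ym.neg_mem hy]⟩
  have hφ0 : φ ≠ 0 := phi_ne_zero (H.restrict Yp hZp) fa βp (fun y => haX y) hdp.hβX hdp.hβ
  obtain ⟨x₀, hx₀⟩ : ∃ x, φ x ≠ 0 := by
    by_contra! h
    exact hφ0 (LinearMap.ext h)
  have hφV : φ x₀ ∈ V := by
    refine ⟨?_, fun b hb => DFunLike.congr_fun (hφb b hb) x₀,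
      fun y h0 hy => DFunLike.congr_fun (hSφ y h0 hy) x₀⟩
    have : fa * φ = φ := by
      rw [hφ, ← mul_assoc, ((hfa u).add_left (Commute.one_left fa) : Commute βp fa).symm.eq, mul_assoc,
        mul_add, haa, mul_one, add_comm 1 fa]
    exact DFunLike.congr_fun this x₀
  have hrV : ∀ v ∈ V, f r v ∈ V := by
    rintro v ⟨hva, hvb, hvS⟩
    refine ⟨?_, fun b' hb' => ?_, fun y h0 hy => ?_⟩
    · rw [← show f r (fa v) = fa (f r v) from DFunLike.congr_fun (hfa r).eq v, hva]
    · have h : f b' * f r = f r * f ((r : G)⁻¹ * b' * r) := by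
        rw [← map_mul, ← map_mul]; congr 1; group
      have hmem : (r : G)⁻¹ * b' * r ∈ B := by
        have := (inferInstance : B.Normal).conj_mem b' hb' (r : G)⁻¹
        rwa [inv_inv] at this
      rw [show f b' (f r v) = f r (f ((r : G)⁻¹ * b' * r) v) from DFunLike.congr_fun h v, hvb _ hmem]
    · have hy' : σ r (σ (r : G)⁻¹ y) = y := by
        show (σ r * σ (r : G)⁻¹) y = y
        rw [← map_mul, mul_inv_cancel, map_one]; rfl
      have hS : f r * H.S (σ (r : G)⁻¹ y) = H.S y * f r := by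
        rw [Heis.S, Heis.S, mul_add, hX, hX, map_neg, hy', add_mul]
      rw [← show f r (H.S (σ (r : G)⁻¹ y) v) = H.S y (f r v) from DFunLike.congr_fun hS v,
        hvS _ (fun e => h0 (by rw [← hy', e, map_zero])) ?_]
      rcases hy with hy | hy
      · exact Or.inl (hRp r⁻¹ y hy)
      · exact Or.inr (hRm r⁻¹ y hy)
  obtain ⟨k, hk⟩ := hG (r : G)
  obtain ⟨v, ⟨hva, hvb, hvS⟩, hvr, hv0⟩ := exists_fixed_vector V (f r) hrV ⟨_, hφV, hx₀⟩ (n := k)
    (by rw [← map_pow, hk, map_one])
  obtain ⟨y, hy⟩ := exists_ne (0 : Ym)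
  obtain ⟨z, hz⟩ := exists_ne (0 : Yp)
  refine final_contra H fa (f (b : G)) (f r) (σ (b : G)) (σ r) v hv0 hva (hvb _ hb) hvr haX (hX _) (hX _)
    (y := y) (z := z) (horth _ z.2 _ y.2) (hvS _ (fun e => hy (Subtype.ext e)) (Or.inr y.2))
    (hvS _ (fun e => hz (Subtype.ext e)) (Or.inl z.2)) ?_ ?_ ?_ ?_
  · rcases hr1 with e | e
    · exact Or.inl (congrArg Subtype.val (DFunLike.congr_fun e z))
    · exact Or.inr (congrArg Subtype.val (DFunLike.congr_fun e z))
  · exact congrArg Subtype.val (DFunLike.congr_fun hbr y)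
  · have h : σm b * σm b = -1 := by rw [← hbr, hk2]
    exact congrArg Subtype.val (DFunLike.congr_fun h y)
  · intro x
    have c1 : Commute (fa + 1) (f (b : G) + 1) :=
      ((hfa _).symm.add_right (Commute.one_right fa)).add_left (Commute.one_left _)
    have c2 : Commute (fa + 1) (f (r : G) + 1) :=
      ((hfa _).symm.add_right (Commute.one_right fa)).add_left (Commute.one_left _)
    have h : (f (b : G) + 1) * ((f (r : G) + 1) * (fa + 1)) = 0 := by
      rw [← mul_assoc, ← (c1.mul_right c2).eq]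
      exact h3R _ hb r
    exact DFunLike.congr_fun h x

theorem conj_mem_commutator {L : Type w} [Group L] {B : Subgroup L} {x : L}
    (hx : x ∈ Subgroup.normalizer (B : Set L)) {a : L} (ha : a ∈ ⁅B, B⁆) : x * a * x⁻¹ ∈ ⁅B, B⁆ := by
  have h : ⁅B, B⁆ ≤ ⁅B, B⁆.comap (MulAut.conj x).toMonoidHom := Subgroup.commutator_le.2 fun b hb c hc => by
    show x * ⁅b, c⁆ * x⁻¹ ∈ ⁅B, B⁆
    have e : x * ⁅b, c⁆ * x⁻¹ = ⁅x * b * x⁻¹, x * c * x⁻¹⁆ := by
      simp only [commutatorElement_def]; group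
    rw [e]
    exact Subgroup.commutator_mem_commutator ((Subgroup.mem_normalizer_iff.1 hx b).1 hb)
      ((Subgroup.mem_normalizer_iff.1 hx c).1 hc)
  exact h ha

/-- The local theorem. -/
theorem local_pure [Nontrivial W] {L : Type w} [Group L] [Finite L] {τ : L →* Module.End K W}
    {Q : Subgroup L} [Q.Normal] (hq2 : q ≠ 2) (hQ : IsPGroup q Q) {S : Type w}
    [AddCommGroup S] [Finite S] (P : BlockSpace τ Q q S) {B : Subgroup L} (hB : IsPGroup 2 B)
    (hA : QuadOn P ⁅B, B⁆)
    (hrel : (∀ a ∈ ⁅B, B⁆, τ a = 1) ∨ (∀ a ∈ ⁅B, B⁆, ∀ b ∈ B, (τ a - 1) * (τ b - 1) = 0) ∨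
      ((∀ a ∈ ⁅B, B⁆, ∀ b ∈ B, ∀ b' ∈ B, (τ a - 1) * ((τ b - 1) * (τ b' - 1)) = 0) ∧
        ∃ R : Subgroup L, IsPGroup 2 R ∧ B ≤ ⁅R, R⁆ ∧ R ≤ Subgroup.normalizer (B : Set L) ∧
          ((∀ a ∈ ⁅B, B⁆, ∀ b ∈ B, ∀ r ∈ R, (τ a - 1) * ((τ b - 1) * (τ r - 1)) = 0) ∨
            ⁅B, B⁆ ≤ ⁅⁅⁅R, R⁆, ⁅R, R⁆⁆, ⁅⁅R, R⁆, ⁅R, R⁆⁆⁆))) :
    (∀ a ∈ ⁅B, B⁆, P.σ a = 1) ∨
      (q = 3 ∧ (∀ a ∈ ⁅B, B⁆, ∀ a' ∈ ⁅B, B⁆, P.σ a ≠ 1 → P.σ a' ≠ 1 → P.σ (a⁻¹ * a') = 1) ∧
        ∀ n ∈ B, ∀ b ∈ B, n * n = 1 → P.σ ⁅n, b⁆ = 1) := by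
  refine or_iff_not_imp_left.2 fun hnt => ?_
  push Not at hnt
  obtain ⟨a, ha, hsa⟩ := hnt
  have hσ1 : ∀ x, τ x = 1 → P.σ x = 1 := fun x hx =>
    (P.sigma_eq_of_tau (x := x) (y := 1) (by rw [hx, map_one])).trans (map_one _)
  have hta : τ a ≠ 1 := fun h => hsa (hσ1 a h)
  have hBn : B ≤ Subgroup.normalizer (B : Set L) := Subgroup.le_normalizer
  set N := Subgroup.normalizer (B : Set L) with hN
  have hcN : ∀ x : N, Commute (τ x) (τ a) := fun x => by
    have h1 : τ (x * a * (x : L)⁻¹) * τ x = τ x * τ a := by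
      rw [← map_mul, inv_mul_cancel_right, map_mul]
    rcases hA.tau_eq hq2 hQ ha (conj_mem_commutator x.2 ha) hsa with h | h
    · refine absurd ?_ hta
      rw [h, one_mul] at h1
      have h2 := congrArg (τ (x : L)⁻¹ * ·) h1
      simp only [← mul_assoc, tau_inv_mul, one_mul] at h2
      exact h2.symm
    · rw [h] at h1
      exact h1.symm
  have hσc : ∀ (x : N) (s : S), P.σ a (P.σ x s) = P.σ x (P.σ a s) := fun x s => by
    rw [← P.sigma_apply_mul, ← P.sigma_apply_mul,
      P.sigma_eq_of_tau (x := a * x) (y := x * a) (by rw [map_mul, map_mul, (hcN x).eq])]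
  have hmem : ∀ (x : N) (y : P.negPart a), P.σ x y ∈ P.negPart a := fun x y => by
    rw [BlockSpace.mem_negPart, hσc, BlockSpace.mem_negPart.1 y.2, map_neg]
  let σY : N →* AddMonoid.End (P.negPart a) :=
    { toFun := fun x => ((P.σ (x : L)).comp (P.negPart a).subtype).codRestrict _ (hmem x)
      map_one' := AddMonoidHom.ext fun y => Subtype.ext (by
        show P.σ ((1 : N) : L) (y : S) = y
        rw [Subgroup.coe_one, map_one]; rfl)
      map_mul' := fun x y => AddMonoidHom.ext fun z => Subtype.ext (by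
        show P.σ ((x * y : N) : L) (z : S) = P.σ x (P.σ y z)
        rw [Subgroup.coe_mul, map_mul]; rfl) }
  obtain ⟨H, hHω, haX, -, hXx⟩ := hA.exists_heis hq2 hQ ha
  have hX : ∀ (x : N) y, τ x * H.X y = H.X (σY x y) * τ x := fun x y => hXx x y _ (hcN x) rfl
  have hσω : ∀ (x : N) y z, H.ω (σY x y) (σY x z) = H.ω y z := fun x y z => by
    rw [hHω, hHω]; exact P.σω x y z
  haveI : Nontrivial (P.negPart a) := by
    obtain ⟨s, hs, hs0⟩ := hA.exists_neg ha hsa
    exact ⟨⟨⟨s, hs⟩, 0, fun h => hs0 (congrArg Subtype.val h)⟩⟩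
  have hne : (1 : AddMonoid.End (P.negPart a)) ≠ -1 := fun h => by
    obtain ⟨y, hy⟩ := exists_ne (0 : P.negPart a)
    have h1 : y + y = 0 := by
      nth_rewrite 2 [show y = -y from DFunLike.congr_fun h y]
      exact add_neg_cancel y
    exact hy (two_nsmul_inj hq2 H.exp h1)
  have hσA1 : ∀ (x : N), P.σ x = 1 → σY x = 1 := fun x h => AddMonoidHom.ext fun y => Subtype.ext (by
    show P.σ x (y : S) = y
    rw [h]; rfl)
  have hσAa : ∀ (x : N), P.σ x = P.σ a → σY x = -1 := fun x h => AddMonoidHom.ext fun y => Subtype.ext (by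
    show P.σ x (y : S) = -(y : S)
    rw [h]; exact y.2)
  have hcomA : ∀ x y : N, (x : L) ∈ B → (y : L) ∈ B → ((⁅x, y⁆ : N) : L) ∈ ⁅B, B⁆ := fun x y hx hy =>
    Subgroup.commutator_mem_commutator hx hy
  have hσA : ∀ x ∈ ⁅B, B⁆, P.σ x = 1 ∨ P.σ x = P.σ a := fun x hx => by
    by_cases h : P.σ x = 1
    · exact Or.inl h
    · exact Or.inr (hA.sigma_eq hq2 hQ hx ha h hsa)
  have hpm : ∀ x : N, (x : L) ∈ ⁅B, B⁆ → σY x = 1 ∨ σY x = -1 := fun x hx =>
    (hσA x hx).imp (hσA1 x) (hσAa x)
  have hneg : ∃ b b' : N, (b : L) ∈ B ∧ (b' : L) ∈ B ∧ σY ⁅b, b'⁆ = -1 := by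
    by_contra! hall
    refine hsa (congrArg Units.val ((Subgroup.commutator_le.2 fun b hb b' hb' => ?_ :
      ⁅B, B⁆ ≤ P.σ.toHomUnits.ker) ha))
    refine Units.ext ?_
    rcases hσA _ (Subgroup.commutator_mem_commutator hb hb') with h | h
    · exact h
    · exact absurd (hσAa ⁅(⟨b, hBn hb⟩ : N), ⟨b', hBn hb'⟩⁆ h) (hall _ _ hb hb')
  have hle : ⁅B, B⁆ ≤ B := Subgroup.commutator_le.2 fun b hb c hc => by
    rw [commutatorElement_def]
    exact B.mul_mem (B.mul_mem (B.mul_mem hb hc) (B.inv_mem hb)) (B.inv_mem hc)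
  rcases hrel with h | h | ⟨h3, R, hR, hBR, hRN, h3r⟩
  · exact absurd (h a ha) hta
  · let iB : ↥B →* ↥N := Subgroup.inclusion hBn
    have hdat : PieceData H (τ a) 1 (τ.comp B.subtype) (σY.comp iB) := {
      haX := haX
      haa := hA.mul_self ha
      hβX := fun y => Commute.one_left _
      hβ := one_ne_zero
      hbX := fun b y => hX (iB b) y
      hfix := fun b => by
        rw [one_mul]
        have h0 := h a ha b b.2
        rw [end_sub_one, end_sub_one] at h0
        have hc : τ (b : L) * τ a = τ a * τ b := (hcN (iB b)).eq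
        show τ (b : L) * (τ a + 1) = τ a + 1
        calc τ (b : L) * (τ a + 1) = (τ a + 1) * (τ b + 1) + (τ a + 1) := by
              rw [mul_add, mul_one, hc, add_mul, one_mul, mul_add, mul_one]
              calc τ a * τ b + τ b = τ a * τ b + τ b + (τ a + 1 + (τ a + 1)) := by
                    rw [end_add_self, add_zero]
                _ = _ := by abel
          _ = τ a + 1 := by rw [h0, zero_add]
      hσω := fun b y z => hσω (iB b) y z
      hpm := fun b b' => by
        rw [MonoidHom.comp_apply, map_commutatorElement iB]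
        exact hpm _ (hcomA _ _ b.2 b'.2)
      hneg := by
        obtain ⟨b, b', hb, hb', e⟩ := hneg
        exact ⟨⟨b, hb⟩, ⟨b', hb'⟩, e⟩ }
    refine ⟨hdat.q_three hq2, fun x hx y hy hxs hys => ?_, fun n hn b hb hnn => ?_⟩
    · rw [map_mul, hA.sigma_eq hq2 hQ hy hx hys hxs, ← map_mul, inv_mul_cancel, map_one]
    · by_contra hne'
      have h1 := hdat.involution hq2 ⟨n, hn⟩ (by
        rw [← map_mul, show (⟨n, hn⟩ : B) * ⟨n, hn⟩ = 1 from Subtype.ext hnn, map_one])
      have h2 : σY ⁅(⟨n, hBn hn⟩ : N), ⟨b, hBn hb⟩⁆ = 1 :=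
        map_commutator_eq_one σY _ _ (commute_of_pm h1 _)
      exact hne (h2.symm.trans (hσAa _
        ((hσA _ (Subgroup.commutator_mem_commutator hn hb)).resolve_left hne')))
  · exfalso
    have hBR' : B ≤ R := hBR.trans (Subgroup.commutator_le.2 fun b hb c hc => by
      rw [commutatorElement_def]
      exact R.mul_mem (R.mul_mem (R.mul_mem hb hc) (R.inv_mem hb)) (R.inv_mem hc))
    haveI : (B.subgroupOf R).Normal := (Subgroup.normal_subgroupOf_iff_le_normalizer hBR').2 hRN
    let iR : ↥R →* ↥N := Subgroup.inclusion hRN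
    have hinj : ∀ r : R, τ (r : L) = 1 → σY (iR r) = 1 := fun r hr => hσA1 _ (hσ1 _ hr)
    have hinj' : ∀ r : R, τ (r : L) = τ a → σY (iR r) = -1 := fun r hr =>
      hσAa _ (P.sigma_eq_of_tau hr)
    have hBc : B.subgroupOf R ≤ commutator R := fun x hx => by
      have h : (x : L) ∈ (commutator R).map R.subtype := by
        rw [Subgroup.map_subtype_commutator]; exact hBR hx
      obtain ⟨y, hy, e⟩ := h
      rwa [← Subtype.ext e]
    refine split_contra hq2 H hR (τ.comp R.subtype) (σY.comp iR) (fun r => hX (iR r))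
      (fun r => hσω (iR r)) (τ a) haX (hA.mul_self ha) (fun r => hcN (iR r)) hinj hinj' (B.subgroupOf R)
      hBc (fun b hb b' hb' => ?_) ?_ (fun b hb b' hb' => h3 a ha b hb b' hb') ?_
    · rw [MonoidHom.comp_apply, map_commutatorElement iR]
      exact hpm _ (hcomA _ _ hb hb')
    · obtain ⟨b, b', hb, hb', e⟩ := hneg
      exact ⟨⟨b, hBR' hb⟩, hb, ⟨b', hBR' hb'⟩, hb', e⟩
    · refine h3r.imp (fun h b hb r => h a ha b hb r r.2) fun h => ?_
      obtain ⟨g, hg, e⟩ : a ∈ (⁅⁅commutator R, commutator R⁆, ⁅commutator R, commutator R⁆⁆).map R.subtype := by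
        rw [Subgroup.map_commutator, Subgroup.map_commutator, Subgroup.map_subtype_commutator]
        exact h ha
      exact ⟨g, hg, hσAa _ (congrArg P.σ e)⟩

end CfsgLib.TwoLengthDerived
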