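import Mathlib
import Cfsg.Agent.Lib.TwoLengthDerived.Kills
import Cfsg.Agent.Lib.HallHigmanExc.CharBlock
import Cfsg.Agent.Lib.HallHigmanExc.Module

/-!
The iterated displacement relation coming from the group, and its separation along the chain.
-/

set_option autoImplicit false
set_option linter.style.haveILetI false
set_option linter.unusedSectionVars false

open Cfsg CfsgLib.HallHigmanExc
open scoped commutatorElement IsMulCommutative

namespace CfsgLib.TwoLengthDerived

universe u v w

section Linear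

variable {K : Type u} [Field K] {W : Type v} [AddCommGroup W] [Module K W] {H : Type w} [Group H]
  {τ : H →* Module.End K W} {D : ℕ → Subgroup H}

theorem Kills.of_zero (n k : ℕ) : Kills τ D n k 0 := by
  induction n generalizing k with
  | zero => exact kills_zero.2 rfl
  | succ n ih => exact kills_succ.2 fun x _ => by rw [mul_zero]; exact ih _

theorem Kills.mul_right {n k : ℕ} {f : Module.End K W} (h : Kills τ D n k f) (g : Module.End K W) :
    Kills τ D n k (f * g) := by
  induction n generalizing k f with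
  | zero => rw [kills_zero] at h ⊢; rw [h, zero_mul]
  | succ n ih =>
    rw [kills_succ] at h ⊢
    intro x hx
    rw [← mul_assoc]
    exact ih (h x hx)

theorem Kills.mul_left {n k : ℕ} {f : Module.End K W} (h : Kills τ D n k f) (E : Module.End K W)
    (hE : ∀ i, k ≤ i → ∀ x ∈ D i, Commute E (τ x)) : Kills τ D n k (E * f) := by
  induction n generalizing k f with
  | zero => rw [kills_zero] at h ⊢; rw [h, mul_zero]
  | succ n ih =>
    rw [kills_succ] at h ⊢
    intro x hx
    have hc : Commute (τ x - 1) E :=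
      ((hE k le_rfl x hx).symm).sub_left (Commute.one_left E)
    rw [← mul_assoc, hc.eq, mul_assoc]
    exact ih (h x hx) fun i hi => hE i (by omega)

theorem Kills.sub {n k : ℕ} {f g : Module.End K W} (hf : Kills τ D n k f) (hg : Kills τ D n k g) :
    Kills τ D n k (f - g) := by
  induction n generalizing k f g with
  | zero => rw [kills_zero] at hf hg ⊢; rw [hf, hg, sub_zero]
  | succ n ih =>
    rw [kills_succ] at hf hg ⊢
    intro x hx
    rw [mul_sub]
    exact ih (hf x hx) (hg x hx)

theorem Kills.neg {n k : ℕ} {f : Module.End K W} (hf : Kills τ D n k f) : Kills τ D n k (-f) := by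
  rw [← zero_sub]; exact (Kills.of_zero n k).sub hf

theorem Kills.add {n k : ℕ} {f g : Module.End K W} (hf : Kills τ D n k f) (hg : Kills τ D n k g) :
    Kills τ D n k (f + g) := by
  rw [← sub_neg_eq_add]; exact hf.sub hg.neg

/-- Transport along a map of operators intertwining the displacements, e.g. a corner map. -/
theorem Kills.map {W' : Type*} [AddCommGroup W'] [Module K W'] {H' : Type*} [Group H']
    {τ' : H' →* Module.End K W'} {D' : ℕ → Subgroup H'}
    (φ : Module.End K W → Module.End K W') (h0 : φ 0 = 0) {n k : ℕ} {f : Module.End K W}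
    (hφ : ∀ i, k ≤ i → ∀ x' ∈ D' i, ∃ x ∈ D i, ∀ g, φ ((τ x - 1) * g) = (τ' x' - 1) * φ g)
    (h : Kills τ D n k f) : Kills τ' D' n k (φ f) := by
  induction n generalizing k f with
  | zero => rw [kills_zero] at h ⊢; rw [h, h0]
  | succ n ih =>
    rw [kills_succ] at h ⊢
    intro x' hx'
    obtain ⟨x, hx, hxφ⟩ := hφ k le_rfl x' hx'
    rw [← hxφ]
    exact ih (fun i hi => hφ i (by omega)) (h x hx)

end Linear

theorem commutator_mem_derTerm {H : Type w} [Group H] (T : Sylow 2 H) {i : ℕ} {y : H}
    (hy : y ∈ derTerm T i) {x : H} (hx : x ∈ (T : Subgroup H)) : ⁅y, x⁆ ∈ derTerm T i := by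
  obtain ⟨a, ha, rfl⟩ := hy
  refine ⟨⁅a, (⟨x, hx⟩ : (T : Subgroup H))⁆, ?_, map_commutatorElement _ _ _⟩
  rw [commutatorElement_def, mul_assoc, mul_assoc]
  have h := (inferInstance : (derivedSeries (T : Subgroup H) i).Normal).conj_mem _
    (Subgroup.inv_mem _ ha) (⟨x, hx⟩ : (T : Subgroup H))
  exact Subgroup.mul_mem _ ha (by simpa [mul_assoc] using h)

/-- The relation read off from a normal `2`-subgroup of the group. -/
theorem kills_from_group {G : Type w} [Group G] [Finite G] {K : Type u} [Field K] {V : Type v}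
    [AddCommGroup V] [Module K V] {O : Subgroup G} [O.Normal] (r : O → V)
    (hr : ∀ a b, r (a * b) = r a + r b) (ρ : G ⧸ O →* Module.End K V)
    (hρ : ∀ (g : G) (x : O),
      r ⟨g * x * g⁻¹, (inferInstance : O.Normal).conj_mem _ x.2 g⟩ = ρ g (r x))
    (hspan : Submodule.span K (Set.range r) = ⊤) (P : Sylow 2 G) (hOP : O ≤ (P : Subgroup G))
    {d : ℕ} (hd : derivedSeries (P : Subgroup G) d = ⊥) :
    Kills ρ (fun i => (derTerm P i).map (QuotientGroup.mk' O)) d 0 1 ∧
      ∀ k n, k + n = d → ∀ y ∈ (derTerm P k).map (QuotientGroup.mk' O),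
        Kills ρ (fun i => (derTerm P i).map (QuotientGroup.mk' O)) n k (ρ y - 1) := by
  have claim : ∀ (n k : ℕ) (f : Module.End K V), k + n = d →
      (∀ u : O, ∃ c : O, (c : G) ∈ derTerm P k ∧ f (r u) = r c) →
      Kills ρ (fun i => (derTerm P i).map (QuotientGroup.mk' O)) n k f := by
    intro n
    induction n with
    | zero =>
      intro k f hk h
      rw [add_zero] at hk
      subst hk
      rw [kills_zero]
      refine LinearMap.ext_on hspan ?_
      rintro _ ⟨u, rfl⟩
      obtain ⟨c, hc, hfc⟩ := h u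
      rw [derTerm, hd, Subgroup.map_bot, Subgroup.mem_bot] at hc
      have h1 : r 1 = 0 := by simpa using hr 1 1
      rw [hfc, show c = 1 from Subtype.ext hc, h1, LinearMap.zero_apply]
    | succ n ih =>
      intro k f hk h
      rw [kills_succ]
      rintro _ ⟨x, hx, rfl⟩
      refine ih (k + 1) _ (by omega) fun u => ?_
      obtain ⟨c, hc, hfc⟩ := h u
      have hmem : ⁅x, (c : G)⁆ ∈ O := by
        rw [commutatorElement_def]
        exact O.mul_mem ((inferInstance : O.Normal).conj_mem _ c.2 x) (O.inv_mem c.2)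
      refine ⟨⟨⁅x, (c : G)⁆, hmem⟩, ?_, ?_⟩
      · rw [derTerm_succ]
        exact Subgroup.commutator_mem_commutator hx hc
      · have e : (⟨⁅x, (c : G)⁆, hmem⟩ : O) * c =
            ⟨x * c * x⁻¹, (inferInstance : O.Normal).conj_mem _ c.2 x⟩ :=
          Subtype.ext (by simp [commutatorElement_def])
        have e' := congrArg r e
        rw [hr, hρ] at e'
        rw [Module.End.mul_apply, LinearMap.sub_apply, Module.End.one_apply, hfc]
        exact (eq_sub_of_add_eq e').symm
  refine ⟨claim d 0 1 (zero_add d) fun u => ⟨u, ?_, rfl⟩, ?_⟩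
  · rw [derTerm_zero]; exact hOP u.2
  rintro k n hkn _ ⟨y, hy, rfl⟩
  refine claim n k _ hkn fun u => ?_
  have hmem : ⁅y, (u : G)⁆ ∈ O := by
    rw [commutatorElement_def]
    exact O.mul_mem ((inferInstance : O.Normal).conj_mem _ u.2 y) (O.inv_mem u.2)
  refine ⟨⟨⁅y, (u : G)⁆, hmem⟩, commutator_mem_derTerm P hy (hOP u.2), ?_⟩
  have e : (⟨⁅y, (u : G)⁆, hmem⟩ : O) * u =
      ⟨y * u * y⁻¹, (inferInstance : O.Normal).conj_mem _ u.2 y⟩ :=
    Subtype.ext (by simp [commutatorElement_def])
  have e' := congrArg r e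
  rw [hr, hρ] at e'
  rw [LinearMap.sub_apply, Module.End.one_apply]
  exact (eq_sub_of_add_eq e').symm

/-- A proper subgroup of a `p`-group does not generate it together with the derived subgroup. -/
theorem eq_top_of_sup_commutator {H : Type w} [Group H] [Finite H] (hp : IsPGroup 2 H)
    {S : Subgroup H} (h : S ⊔ ⁅(⊤ : Subgroup H), ⊤⁆ = ⊤) : S = ⊤ := by
  haveI : Fact (Nat.Prime 2) := ⟨Nat.prime_two⟩
  refine frattini_nongenerating (top_unique (h ▸ sup_le_sup_left ?_ S))
  exact CfsgLib.PGroups.commutator_le_frattini hp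

/-- Separation along the chain: some term fixes the block and still satisfies the relation. -/
theorem exists_stab {H : Type w} [Group H] [Finite H] {K : Type u} [Field K] [IsAlgClosed K]
    {W : Type v} [AddCommGroup W] [Module K W] (τ : H →* Module.End K W) (D : ℕ → Subgroup H)
    (hder : ∀ i, D (i + 1) = ⁅D i, D i⁆) (h2 : IsPGroup 2 (D 0))
    (A : Subgroup (Module.End K W)ˣ) [Finite A] [IsMulCommutative A] (hA : (Nat.card A : K) ≠ 0)
    {d k : ℕ}
    (hnorm : ∀ x ∈ D k, τ.toHomUnits x ∈ Subgroup.normalizer (A : Set (Module.End K W)ˣ))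
    (hkd : k ≤ d) {l : A →* Kˣ} (hl : blk A l ≠ 0) (hk : Kills τ D (d - k) k (blk A l)) :
    ∃ j, k ≤ j ∧ j < d ∧ (∀ x ∈ D j, Commute (τ x) (blk A l)) ∧
      Kills τ D (d - j) j (blk A l) := by
  classical
  have hanti : ∀ i j, i ≤ j → D j ≤ D i := fun i j hij => by
    induction hij with
    | refl => exact le_rfl
    | step _ ih => exact le_trans (hder _ ▸ Subgroup.commutator_le_self _) ih
  obtain ⟨m, hm⟩ : ∃ m, d - k = m := ⟨_, rfl⟩
  induction m generalizing k with
  | zero =>
    rw [hm, kills_zero] at hk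
    exact absurd hk hl
  | succ m ih =>
    by_cases hall : ∀ x ∈ D k, Commute (τ x) (blk A l)
    · exact ⟨k, le_rfl, by omega, hall, hk⟩
    set e := blk A l with he
    let S : Subgroup (D k) :=
      { carrier := {x | Commute (τ (x : H)) e}
        one_mem' := by
          show Commute (τ ((1 : D k) : H)) e
          rw [OneMemClass.coe_one, map_one]; exact Commute.one_left e
        mul_mem' := fun {a b} ha hb => by
          show Commute (τ ((a * b : D k) : H)) e
          rw [Subgroup.coe_mul, map_mul]; exact ha.mul_left hb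
        inv_mem' := fun {a} ha => by
          show Commute (τ ((a⁻¹ : D k) : H)) e
          have h := (show Commute ((τ.toHomUnits (a : H) : (Module.End K W)ˣ) : Module.End K W) e
            from ha).units_inv_left
          rw [← map_inv] at h
          exact h }
    have hpk : IsPGroup 2 (D k) := h2.to_le (hanti 0 k (Nat.zero_le k))
    have hne : S ⊔ ⁅(⊤ : Subgroup (D k)), ⊤⁆ ≠ ⊤ := fun h => hall fun x hx => by
      have : (⟨x, hx⟩ : D k) ∈ S := eq_top_of_sup_commutator hpk h ▸ Subgroup.mem_top _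
      exact this
    obtain ⟨⟨x, hx⟩, hxS⟩ : ∃ x : D k, x ∉ S ⊔ ⁅(⊤ : Subgroup (D k)), ⊤⁆ := by
      by_contra h
      push Not at h
      exact hne (top_unique fun a _ => h a)
    have hD1 : Subgroup.map (D k).subtype ⁅(⊤ : Subgroup (D k)), ⊤⁆ = D (k + 1) := by
      rw [Subgroup.map_commutator, ← MonoidHom.range_eq_map, Subgroup.range_subtype, hder]
    have hsub : ∀ y ∈ D (k + 1), y ∈ D k := hanti k (k + 1) (Nat.le_succ k)
    -- the character moved by an element of the term
    let T : D k → (A →* Kˣ) := fun z => twist A (hnorm z z.2) l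
    have hcongr : ∀ {g h : (Module.End K W)ˣ}
        (hg : g ∈ Subgroup.normalizer (A : Set (Module.End K W)ˣ))
        (hh : h ∈ Subgroup.normalizer (A : Set (Module.End K W)ˣ)), g = h → ∀ μ : A →* Kˣ,
        twist A hg μ = twist A hh μ := by
      intro g h hg hh he μ; subst he; rfl
    have hT1 : T 1 = l := by
      refine (hcongr _ (one_mem _) (map_one τ.toHomUnits) l).trans ?_
      exact MonoidHom.ext fun a => twist_apply A _ l a a (by simp)
    have hTmul : ∀ z z' : D k, T (z * z') = twist A (hnorm z z.2) (T z') := fun z z' =>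
      (hcongr _ (mul_mem (hnorm z z.2) (hnorm z' z'.2)) (map_mul τ.toHomUnits _ _) l).trans
        (twist_mul A _ _ l)
    have hcomm : ∀ z : D k, T z = l → Commute (τ (z : H)) e := fun z hz => by
      have h := unit_mul_blk A (hnorm z z.2) l
      rw [show twist A (hnorm z z.2) l = l from hz] at h
      exact h
    haveI := finite_chars (K := K) A hA
    let orb : Finset (A →* Kˣ) :=
      (Set.toFinite {μ | ∃ y : D k, (y : H) ∈ D (k + 1) ∧ T y = μ}).toFinset
    have horb : ∀ {μ}, μ ∈ orb ↔ ∃ y : D k, (y : H) ∈ D (k + 1) ∧ T y = μ := fun {μ} => by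
      simp only [orb, Set.Finite.mem_toFinset, Set.mem_ofPred_eq]
    have hxorb : T ⟨x, hx⟩ ∉ orb := by
      rw [horb]
      rintro ⟨y, hy, hyx⟩
      refine hxS ?_
      have h1 : T (y⁻¹ * ⟨x, hx⟩) = l := by
        rw [hTmul, ← hyx, ← hTmul, inv_mul_cancel, hT1]
      have hy' : y ∈ ⁅(⊤ : Subgroup (D k)), (⊤ : Subgroup (D k))⁆ := by
        rw [← hD1] at hy
        obtain ⟨y', hy', he'⟩ := hy
        rwa [show y = y' from Subtype.ext he'.symm]
      rw [show (⟨x, hx⟩ : D k) = y * (y⁻¹ * ⟨x, hx⟩) by group]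
      exact mul_mem (Subgroup.mem_sup_right hy') (Subgroup.mem_sup_left (hcomm _ h1))
    set E := ∑ μ ∈ orb, blk A μ with hE
    have hEe : E * e = e := by
      have hlorb : l ∈ orb := horb.2 ⟨1, one_mem _, hT1⟩
      rw [hE, Finset.sum_mul, Finset.sum_eq_single l]
      · rw [he, blk_mul_blk A hA, if_pos rfl]
      · intro μ _ hμ
        rw [he, blk_mul_blk A hA, if_neg hμ]
      · exact fun h => absurd hlorb h
    have hEx : E * (τ x * e) = 0 := by
      have h := unit_mul_blk A (hnorm x hx) l
      rw [show τ x * e = blk A (T ⟨x, hx⟩) * τ x from h, ← mul_assoc, hE, Finset.sum_mul,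
        Finset.sum_eq_zero, zero_mul]
      intro μ hμ
      rw [blk_mul_blk A hA, if_neg]
      intro h'
      exact hxorb (h' ▸ hμ)
    have hEc : ∀ i, k + 1 ≤ i → ∀ z ∈ D i, Commute E (τ z) := by
      intro i hi z hz
      have hz1 : z ∈ D (k + 1) := hanti (k + 1) i hi hz
      have hmove : ∀ w : D k, (w : H) ∈ D (k + 1) → ∀ μ ∈ orb,
          twist A (hnorm w w.2) μ ∈ orb := by
        intro w hw μ hμ
        obtain ⟨y, hy, rfl⟩ := horb.1 hμ
        exact horb.2 ⟨w * y, mul_mem hw hy, hTmul w y⟩
      set z' : D k := ⟨z, hsub z hz1⟩ with hz'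
      show E * τ z = τ z * E
      rw [hE, Finset.mul_sum, Finset.sum_mul]
      symm
      refine Finset.sum_bij (fun μ _ => twist A (hnorm z (hsub z hz1)) μ)
        (fun μ hμ => hmove z' hz1 μ hμ) (fun μ _ μ' _ h => ?_) (fun μ hμ => ?_)
        (fun μ _ => unit_mul_blk A (hnorm z (hsub z hz1)) μ)
      · have h' := congrArg (twist A (hnorm (z'⁻¹ : D k) (z'⁻¹ : D k).2)) h
        rw [← twist_mul, ← twist_mul] at h'
        have e1 : τ.toHomUnits ((z'⁻¹ : D k) : H) * τ.toHomUnits z = 1 := by
          rw [← map_mul, hz', Subgroup.coe_inv, inv_mul_cancel, map_one]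
        rw [hcongr _ (one_mem _) e1, hcongr _ (one_mem _) e1] at h'
        have hone : ∀ ν : A →* Kˣ, twist A (one_mem _) ν = ν := fun ν =>
          MonoidHom.ext fun a => twist_apply A _ ν a a (by simp)
        rwa [hone, hone] at h'
      · refine ⟨twist A (hnorm (z'⁻¹ : D k) (z'⁻¹ : D k).2) μ, hmove _ (inv_mem hz1) μ hμ, ?_⟩
        rw [← twist_mul]
        have e1 : τ.toHomUnits z * τ.toHomUnits ((z'⁻¹ : D k) : H) = 1 := by
          rw [← map_mul, hz', Subgroup.coe_inv, mul_inv_cancel, map_one]
        rw [hcongr _ (one_mem _) e1]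
        exact MonoidHom.ext fun a => twist_apply A _ μ a a (by simp)
    rw [hm, kills_succ] at hk
    have h1 := (hk x hx).mul_left E hEc
    rw [sub_mul, one_mul, mul_sub, hEx, hEe, zero_sub] at h1
    have h2' := h1.neg
    rw [neg_neg] at h2'
    obtain ⟨j, hj, hjd, hjc, hjk⟩ := ih (k := k + 1) (fun y hy => hnorm y (hsub y hy)) (by omega)
      (by rwa [show d - (k + 1) = m by omega]) (by omega)
    exact ⟨j, by omega, hjd, hjc, hjk⟩

end CfsgLib.TwoLengthDerived
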