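import Cfsg.Agent.Lib.TwoLengthDerived.BlockDefs
import Cfsg.Agent.Lib.TwoLengthDerived.Rel
import Cfsg.Agent.Lib.TwoLengthDerived.Space
import Cfsg.Agent.Lib.TwoLengthDerived.Quad
import Cfsg.Agent.Lib.TwoLengthDerived.Local

/-!
The last derived term of a Sylow `2`-subgroup on the blocks of the centre of a `q`-group of class two.
-/

set_option autoImplicit false
set_option linter.style.haveILetI false
set_option linter.unusedSectionVars false

open CfsgLib.HallHigmanExc
open scoped commutatorElement IsMulCommutative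

namespace CfsgLib.TwoLengthDerived

universe u v w

variable {H : Type w} [Group H] [Finite H] {K : Type u} [Field K] [CharP K 2] [IsAlgClosed K] {V : Type v}
  [AddCommGroup V] [Module K V] [FiniteDimensional K V] {ρ : H →* Module.End K V}
  {q : ℕ} [Fact q.Prime] {Q : Subgroup H} {T : Sylow 2 H} {m : ℕ}

private theorem derTerm_le (i : ℕ) : derTerm T i ≤ (T : Subgroup H) := Subgroup.map_subtype_le _

private theorem derTerm_anti {i j : ℕ} (h : i ≤ j) : derTerm T j ≤ derTerm T i :=
  Subgroup.map_mono (derivedSeries_antitone _ h)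

private theorem conj_mem_derTerm {i : ℕ} {x y : H} (hx : x ∈ (T : Subgroup H)) (hy : y ∈ derTerm T i) :
    x * y * x⁻¹ ∈ derTerm T i := by
  have h := mul_mem (inv_mem (commutator_mem_derTerm T hy hx)) hy
  rwa [commutatorElement_def, show (y * x * y⁻¹ * x⁻¹)⁻¹ * y = x * y * x⁻¹ by group] at h

private theorem cast_ne_zero_of_odd (hq2 : q ≠ 2) : (q : K) ≠ 0 := by
  rw [Ne, CharP.cast_eq_zero_iff K 2]
  exact fun h => hq2 ((Nat.prime_dvd_prime_iff_eq Nat.prime_two (Fact.out : q.Prime)).1 h).symm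

/-- Two elements of the last term multiply their displacements to zero. -/
private theorem quad_rel (hrel : RelKills ρ T (m + 1)) {a b : H} (ha : a ∈ derTerm T m)
    (hb : b ∈ derTerm T m) : (ρ a - 1) * (ρ b - 1) = 0 :=
  kills_zero.1 (kills_succ.1 (hrel.2 m 1 rfl b hb) a ha)

theorem derTerm_mul_self (hρ : Function.Injective ρ) (hrel : RelKills ρ T (m + 1)) :
    ∀ a ∈ derTerm T m, a * a = 1 := by
  intro a ha
  have h := quad_rel hrel ha ha
  have e : ρ a + ρ a = 0 := by rw [← two_smul K (ρ a), CharTwo.two_eq_zero, zero_smul]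
  have e1 : (1 : Module.End K V) + 1 = 0 := by
    rw [← two_smul K (1 : Module.End K V), CharTwo.two_eq_zero, zero_smul]
  refine hρ ?_
  rw [map_mul, map_one]
  rw [sub_mul, mul_sub, mul_one, one_mul] at h
  calc ρ a * ρ a = (ρ a * ρ a - ρ a - (ρ a - 1)) + (ρ a + ρ a) - 1 := by abel
    _ = -1 := by rw [h, e, add_zero, zero_sub]
    _ = 1 := neg_eq_of_add_eq_zero_left e1

/-- Some term of the derived series fixes the block and kills it. -/
private theorem exists_fixed_term (hq2 : q ≠ 2) (hQ : IsPGroup q Q)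
    (hTQ : (T : Subgroup H) ≤ Subgroup.normalizer (Q : Set H)) (hrel : RelKills ρ T (m + 1))
    {l : centerImage ρ Q →* Kˣ} (hl : blk (centerImage ρ Q) l ≠ 0) :
    ∃ j, j ≤ m ∧ (∀ x ∈ derTerm T j, Commute (ρ x) (blk (centerImage ρ Q) l)) ∧
      Kills ρ (fun i => derTerm T i) (m + 1 - j) j (blk (centerImage ρ Q) l) := by
  obtain ⟨j, -, hj, hc, hk⟩ := exists_stab ρ (fun i => derTerm T i) (derTerm_succ T)
    (by
      show IsPGroup 2 (derTerm T 0)
      exact T.isPGroup'.to_le (derTerm_le 0))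
    (centerImage ρ Q) (card_centerImage_ne_zero hQ (cast_ne_zero_of_odd hq2)) (d := m + 1) (k := 0)
    (fun x hx => mem_normalizer_centerImage (hTQ (derTerm_le 0 hx))) (Nat.zero_le _) hl
    (by
      have h := hrel.1.mul_right (blk (centerImage ρ Q) l)
      rwa [one_mul] at h)
  exact ⟨j, by omega, hc, hk⟩

private theorem commute_blk_der (hq2 : q ≠ 2) (hQ : IsPGroup q Q)
    (hTQ : (T : Subgroup H) ≤ Subgroup.normalizer (Q : Set H)) (hrel : RelKills ρ T (m + 1))
    (l : centerImage ρ Q →* Kˣ) : ∀ a ∈ derTerm T m, Commute (ρ a) (blk (centerImage ρ Q) l) := by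
  intro a ha
  by_cases hl : blk (centerImage ρ Q) l = 0
  · rw [hl]; exact Commute.zero_right _
  obtain ⟨j, hj, hc, -⟩ := exists_fixed_term hq2 hQ hTQ hrel hl
  exact hc a (derTerm_anti hj ha)

theorem derTerm_comm_center (hρ : Function.Injective ρ) (hq2 : q ≠ 2) (hQ : IsPGroup q Q)
    (hTQ : (T : Subgroup H) ≤ Subgroup.normalizer (Q : Set H))
    (hcl : ⁅Q, Q⁆ ≤ Subgroup.centralizer (Q : Set H))
    (hpow : ∀ g ∈ Q, g ^ q ∈ Subgroup.centralizer (Q : Set H))
    (hm : 1 ≤ m) (hrel : RelKills ρ T (m + 1)) :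
    ∀ a ∈ derTerm T m, ∀ z ∈ Q ⊓ Subgroup.centralizer (Q : Set H), a * z = z * a := by
  intro a ha z hz
  have hA := card_centerImage_ne_zero (ρ := ρ) hQ (cast_ne_zero_of_odd (K := K) hq2)
  obtain ⟨hf, hsum⟩ := exists_sum_blk (K := K) (centerImage ρ Q) hA
  let x : centerImage ρ Q := ⟨ρ.toHomUnits z, Subgroup.mem_map_of_mem _ hz⟩
  have hx : ρ z = ∑ l : centerImage ρ Q →* Kˣ, (l x : K) • blk (centerImage ρ Q) l := by
    simp only [← mul_blk]
    rw [← Finset.mul_sum, hsum, mul_one]
    rfl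
  have hc : Commute (ρ a) (ρ z) := by
    rw [hx]
    exact Commute.sum_right _ _ _ fun l _ => (commute_blk_der hq2 hQ hTQ hrel l a ha).smul_right _
  exact hρ (by rw [map_mul, map_mul, hc.eq])

/-- The elements normalising `Q` and fixing the block. -/
private def fixSubgroup (ρ : H →* Module.End K V) (Q : Subgroup H) (e : Module.End K V) : Subgroup H where
  carrier := {x | x ∈ Subgroup.normalizer (Q : Set H) ∧ Commute (ρ x) e}
  one_mem' := ⟨one_mem _, by rw [map_one]; exact Commute.one_left e⟩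
  mul_mem' := fun hx hy => ⟨mul_mem hx.1 hy.1, by rw [map_mul]; exact hx.2.mul_left hy.2⟩
  inv_mem' := fun {x} hx => ⟨inv_mem hx.1, by
    have h := (show Commute ((ρ.toHomUnits x : (Module.End K V)ˣ) : Module.End K V) e from hx.2).units_inv_left
    rw [← map_inv] at h
    exact h⟩

theorem block_pure (hq2 : q ≠ 2) (hQ : IsPGroup q Q)
    (hTQ : (T : Subgroup H) ≤ Subgroup.normalizer (Q : Set H))
    (hcl : ⁅Q, Q⁆ ≤ Subgroup.centralizer (Q : Set H))
    (hpow : ∀ g ∈ Q, g ^ q ∈ Subgroup.centralizer (Q : Set H))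
    (hm : 1 ≤ m) (hrel : RelKills ρ T (m + 1))
    (l : centerImage ρ Q →* Kˣ) (hl : blk (centerImage ρ Q) l ≠ 0) :
    (∀ a ∈ derTerm T m, Commute (ρ a) (blk (centerImage ρ Q) l)) ∧
    ((∀ a ∈ derTerm T m, TrivB ρ Q (blk (centerImage ρ Q) l) a) ∨
      (q = 3 ∧ (∀ a ∈ derTerm T m, ∀ a' ∈ derTerm T m,
          ¬ TrivB ρ Q (blk (centerImage ρ Q) l) a → ¬ TrivB ρ Q (blk (centerImage ρ Q) l) a' →
          TrivB ρ Q (blk (centerImage ρ Q) l) (a⁻¹ * a')) ∧
       ∀ n ∈ derTerm T (m - 1), ∀ b ∈ derTerm T (m - 1), n * n = 1 →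
          TrivB ρ Q (blk (centerImage ρ Q) l) ⁅n, b⁆)) := by
  classical
  refine ⟨commute_blk_der hq2 hQ hTQ hrel l, ?_⟩
  have hqK : (q : K) ≠ 0 := cast_ne_zero_of_odd hq2
  have hA0 := card_centerImage_ne_zero (ρ := ρ) hQ hqK
  obtain ⟨j, hjm, hjc, hjk⟩ := exists_fixed_term hq2 hQ hTQ hrel hl
  have hll := hl
  set e := blk (centerImage ρ Q) l with he
  have hee : e * e = e := by rw [he, blk_mul_blk _ hA0, if_pos rfl]
  set L := fixSubgroup ρ Q e with hLdef
  have hQL : Q ≤ L := fun g hg => ⟨Subgroup.le_normalizer hg, commute_blk_of_mem l hg⟩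
  have hDL : ∀ i, j ≤ i → derTerm T i ≤ L := fun i hi x hx =>
    ⟨hTQ (derTerm_le i hx), hjc x (derTerm_anti hi hx)⟩
  -- the space of the block
  haveI : Nontrivial (LinearMap.range e) :=
    Submodule.nontrivial_iff_ne_bot.2 fun h => hll (LinearMap.range_eq_bot.1 h)
  have hfix : ∀ w : LinearMap.range e, e (w : V) = w := by
    rintro ⟨_, v, rfl⟩
    exact LinearMap.congr_fun hee v
  let τ : L →* Module.End K (LinearMap.range e) :=
    (corner e).comp ((ρ.comp L.subtype).codRestrict (Submonoid.centralizer ({e} : Set (Module.End K V)))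
      (fun x => by rintro _ rfl; exact x.2.2.symm))
  have hτ : ∀ (x : L) (w : LinearMap.range e), ((τ x w : LinearMap.range e) : V) = ρ x w := fun x w => rfl
  have hτone : ∀ x : L, τ x = 1 ↔ ρ x * e = e := by
    intro x
    constructor
    · intro h
      refine LinearMap.ext fun v => ?_
      exact congrArg Subtype.val (LinearMap.congr_fun h ⟨e v, v, rfl⟩)
    · intro h
      refine LinearMap.ext fun w => Subtype.ext ?_
      have h2 := LinearMap.congr_fun h (w : V)
      rw [Module.End.mul_apply, hfix] at h2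
      exact h2
  -- restriction of operators to the block
  let φ : Module.End K V → Module.End K (LinearMap.range e) := fun f =>
    e.rangeRestrict ∘ₗ f ∘ₗ (LinearMap.range e).subtype
  have hφ : ∀ (f : Module.End K V) w, ((φ f w : LinearMap.range e) : V) = e (f w) := fun f w => rfl
  have hφe : φ e = 1 := LinearMap.ext fun w => Subtype.ext (by rw [hφ, hfix, hfix]; rfl)
  have hφ0 : φ 0 = 0 := LinearMap.ext fun w => Subtype.ext (by rw [hφ]; simp)
  have hφmul : ∀ (x : L) f, φ ((ρ (x : H) - 1) * f) = (τ x - 1) * φ f := by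
    intro x f
    refine LinearMap.ext fun w => Subtype.ext ?_
    rw [hφ, Module.End.mul_apply, LinearMap.sub_apply, Module.End.one_apply, map_sub]
    show _ = ((τ x (φ f w) : LinearMap.range e) : V) - ((φ f w : LinearMap.range e) : V)
    rw [hτ, hφ, ← Module.End.mul_apply (ρ (x : H)) e, x.2.2.eq, Module.End.mul_apply]
  let D : ℕ → Subgroup L := fun i => (derTerm T (j + i)).subgroupOf L
  have htrans : ∀ (n k : ℕ) (f : Module.End K V),
      Kills ρ (fun i => derTerm T i) n (j + k) f → Kills τ D n k (φ f) := by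
    intro n
    induction n with
    | zero => intro k f h; rw [kills_zero] at h ⊢; rw [h, hφ0]
    | succ n ih =>
      intro k f h
      rw [kills_succ] at h ⊢
      intro x hx
      rw [← hφmul]
      exact ih (k + 1) _ (h (x : H) hx)
  -- two or three displacements on the block
  have hW : ∀ (x : L) f, φ f = 1 → φ ((ρ (x : H) - 1) * f) = τ x - 1 := fun x f hf => by
    rw [hφmul, hf, mul_one]
  haveI : (Q.subgroupOf L).Normal := ⟨fun g hg x => by
    rw [Subgroup.mem_subgroupOf, Subgroup.coe_mul, Subgroup.coe_mul, Subgroup.coe_inv]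
    exact (Subgroup.mem_normalizer_iff.1 x.2.1 _).1 hg⟩
  have hQ' : IsPGroup q (Q.subgroupOf L) := hQ.comap_of_injective _ L.subtype_injective
  have hscal : ∀ (x : L) (c : K), ρ (x : H) * e = c • e → τ x = c • 1 := by
    intro x c h
    refine LinearMap.ext fun w => Subtype.ext ?_
    have h2 := LinearMap.congr_fun h (w : V)
    rw [Module.End.mul_apply, LinearMap.smul_apply, hfix] at h2
    exact h2
  obtain ⟨S, _, _, ⟨P⟩⟩ := exists_blockSpace (τ := τ) (Q := Q.subgroupOf L) (q := q) hqK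
    (fun a ha b hb => by
      obtain ⟨c, hc⟩ := scalar_commutators hcl l (ρ := ρ) (show (a : H) ∈ Q from ha) (show (b : H) ∈ Q from hb)
      exact ⟨c, hscal _ c (by simpa [commutatorElement_def] using hc)⟩)
    (fun g hg => by
      have hz : ((g : H) ^ q) ∈ Q ⊓ Subgroup.centralizer (Q : Set H) :=
        ⟨Q.pow_mem hg q, hpow _ hg⟩
      exact ⟨_, hscal (g ^ q) _ (by
        rw [Subgroup.coe_pow]
        exact mul_blk (centerImage ρ Q) l ⟨_, Subgroup.mem_map_of_mem ρ.toHomUnits hz⟩)⟩)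
  -- trivial action on the space
  have hcomm0 : ∀ c h : Q.subgroupOf L, τ ⁅(c : L), (h : L)⁆ = 1 ↔ P.ω (P.pr c) (P.pr h) = 0 := by
    intro c h
    haveI : NeZero q := ⟨(Fact.out : q.Prime).ne_zero⟩
    have e1 : τ c * τ h = τ ⁅(c : L), (h : L)⁆ * (τ h * τ c) := by
      rw [← map_mul, ← map_mul, ← map_mul, commutatorElement_def]; congr 1; group
    constructor
    · intro h1
      rw [h1, one_mul] at e1
      have e2 := P.comm c h
      rw [e1] at e2
      refine zeta_pow_inj P.hζ ?_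
      rw [ZMod.val_zero, pow_zero]
      refine smul_cancel (τ := τ) (x := (h : L) * c) ?_
      rw [map_mul, one_smul]
      exact e2.symm
    · intro h1
      have e2 := P.comm_of_omega h1
      have e3 : τ ((h : L) * c) * τ ((h : L) * c)⁻¹ = 1 := tau_mul_inv τ _
      calc τ ⁅(c : L), (h : L)⁆ = τ ⁅(c : L), (h : L)⁆ * (τ h * τ c) * τ ((h : L) * c)⁻¹ := by
            rw [mul_assoc, ← map_mul τ (h : L), e3, mul_one]
        _ = 1 := by rw [← e1, e2.eq, ← map_mul τ (h : L), e3]
  have hmemQ : ∀ (x : L) (g : Q.subgroupOf L), ⁅x, (g : L)⁆ ∈ Q.subgroupOf L := fun x g => by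
    rw [commutatorElement_def]
    exact mul_mem ((inferInstance : (Q.subgroupOf L).Normal).conj_mem _ g.2 x) (inv_mem g.2)
  have hprc : ∀ (x : L) (g : Q.subgroupOf L),
      P.pr ⟨⁅x, (g : L)⁆, hmemQ x g⟩ = P.σ x (P.pr g) - P.pr g := by
    intro x g
    rw [P.σ_pr, sub_eq_add_neg, ← P.pr_inv, ← P.pr_mul]
    exact congrArg P.pr (Subtype.ext (by simp [commutatorElement_def]))
  have htriv : ∀ x : L, P.σ x = 1 ↔ TrivB ρ Q e (x : H) := by
    intro x
    constructor
    · intro hs g hg h hh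
      let g' : Q.subgroupOf L := ⟨⟨g, hQL hg⟩, hg⟩
      let h' : Q.subgroupOf L := ⟨⟨h, hQL hh⟩, hh⟩
      have := (hcomm0 ⟨_, hmemQ x g'⟩ h').2 (by
        rw [hprc, hs, AddMonoid.End.coe_one, id, sub_self, map_zero, AddMonoidHom.zero_apply])
      rw [hτone] at this
      exact this
    · intro ht
      refine DFunLike.ext _ _ fun s => ?_
      obtain ⟨g, rfl⟩ := P.surj s
      rw [AddMonoid.End.coe_one, id, ← sub_eq_zero, ← hprc]
      refine P.nondeg _ fun t => ?_
      obtain ⟨h, rfl⟩ := P.surj t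
      refine (hcomm0 _ h).1 ((hτone _).2 ?_)
      exact ht _ g.2 _ h.2
  rcases eq_or_lt_of_le hjm with rfl | hlt
  · left
    intro a ha
    refine (htriv ⟨a, hDL j le_rfl ha⟩).1 ?_
    rw [Nat.add_sub_cancel_left] at hjk
    have h0 : (ρ a - 1) * e = 0 := kills_zero.1 (kills_succ.1 hjk a ha)
    rw [sub_mul, one_mul, sub_eq_zero] at h0
    exact (P.sigma_eq_of_tau (x := ⟨a, hDL j le_rfl ha⟩) (y := 1)
      (by rw [map_one]; exact (hτone _).2 h0)).trans (map_one _)
  set B := (derTerm T (m - 1)).subgroupOf L with hBdef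
  have hder : ∀ i, j ≤ i → ⁅(derTerm T i).subgroupOf L, (derTerm T i).subgroupOf L⁆ =
      (derTerm T (i + 1)).subgroupOf L := by
    intro i hi
    refine Subgroup.map_injective L.subtype_injective ?_
    rw [Subgroup.map_commutator, Subgroup.map_subgroupOf_eq_of_le (hDL i hi),
      Subgroup.map_subgroupOf_eq_of_le (hDL (i + 1) (by omega)), derTerm_succ]
  have hBB : ⁅B, B⁆ = (derTerm T m).subgroupOf L := by
    rw [hBdef, hder (m - 1) (by omega), Nat.sub_add_cancel hm]
  have h2D : ∀ i, IsPGroup 2 ((derTerm T i).subgroupOf L) := fun i =>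
    (T.isPGroup'.to_le (derTerm_le i)).comap_of_injective _ L.subtype_injective
  have hquad : ∀ a b : L, (a : H) ∈ derTerm T m → (b : H) ∈ derTerm T m → (τ a - 1) * (τ b - 1) = 0 := by
    intro a b ha hb
    have h := quad_rel hrel ha hb
    have h' := congrArg φ (congrArg (· * e) h)
    simp only [zero_mul, hφ0, mul_assoc] at h'
    rwa [hφmul, hW b e hφe] at h'
  have hQuad : QuadOn P ⁅B, B⁆ := by
    rw [hBB]
    refine ⟨fun a ha b hb => hquad a b ha hb, fun a ha g hg => ?_⟩
    let R : Subgroup L :=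
      { carrier := {x | ∃ g : Q.subgroupOf L, P.pr g = 0 ∧ (g : L) = x}
        one_mem' := ⟨1, P.pr_one, rfl⟩
        mul_mem' := by
          rintro _ _ ⟨g, hg, rfl⟩ ⟨h, hh, rfl⟩
          exact ⟨g * h, by rw [P.pr_mul, hg, hh, add_zero], rfl⟩
        inv_mem' := by
          rintro _ ⟨g, hg, rfl⟩
          exact ⟨g⁻¹, by rw [P.pr_inv, hg, neg_zero], rfl⟩ }
    have hRQ : R ≤ Q.subgroupOf L := by rintro _ ⟨g, -, rfl⟩; exact g.2
    let Au : Subgroup (Module.End K (LinearMap.range e))ˣ := R.map τ.toHomUnits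
    haveI : Finite Au := Finite.of_surjective
      (fun x : R => (⟨τ.toHomUnits x, Subgroup.mem_map_of_mem _ x.2⟩ : Au)) (by
        rintro ⟨_, x, hx, rfl⟩; exact ⟨⟨x, hx⟩, rfl⟩)
    haveI : IsMulCommutative Au := ⟨⟨by
      rintro ⟨_, x, ⟨g, hg, rfl⟩, rfl⟩ ⟨_, y, ⟨h, hh, rfl⟩, rfl⟩
      exact Subtype.ext (Units.ext (P.comm_rad hg h).eq)⟩⟩
    have hAu : (Nat.card Au : K) ≠ 0 := by
      obtain ⟨c, hc⟩ := IsPGroup.iff_card.1 (((hQ'.to_le hRQ).map τ.toHomUnits) : IsPGroup q Au)
      rw [hc, Nat.cast_pow]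
      exact pow_ne_zero _ hqK
    have hnorm : ∀ x : L, τ.toHomUnits x ∈ Subgroup.normalizer (Au : Set (Module.End K (LinearMap.range e))ˣ) := by
      intro x
      refine Subgroup.le_normalizer_map τ.toHomUnits (Subgroup.mem_map_of_mem _ ?_)
      have key : ∀ y z : L, z ∈ R → y * z * y⁻¹ ∈ R := by
        rintro y _ ⟨g, hg, rfl⟩
        exact ⟨⟨y * g * y⁻¹, (inferInstance : (Q.subgroupOf L).Normal).conj_mem _ g.2 y⟩,
          by rw [← P.σ_pr, hg, map_zero], rfl⟩
      rw [Subgroup.mem_normalizer_iff]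
      exact fun z => ⟨key x z, fun hz => by simpa [mul_assoc] using key x⁻¹ _ hz⟩
    obtain ⟨hf, hsum⟩ := exists_sum_blk (K := K) Au hAu
    have hfixAu : ∀ μ : Au →* Kˣ, Commute (τ a) (blk Au μ) := by
      intro μ
      by_cases hμ : blk Au μ = 0
      · rw [hμ]; exact Commute.zero_right _
      have hk0 : Kills τ D (m + 1 - j) 0 (blk Au μ) := by
        have h := (htrans _ 0 e hjk).mul_right (blk Au μ)
        rwa [hφe, one_mul] at h
      obtain ⟨i, -, hi, hic, -⟩ := exists_stab τ D (fun i => (hder (j + i) (by omega)).symm) (h2D _) Au hAu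
        (d := m + 1 - j) (k := 0) (fun x _ => hnorm x) (Nat.zero_le _) hμ (by simpa using hk0)
      exact hic a (derTerm_anti (show j + i ≤ m by omega) ha)
    have hgu : (g : L) ∈ R := ⟨g, hg, rfl⟩
    let u : Au := ⟨τ.toHomUnits g, Subgroup.mem_map_of_mem _ hgu⟩
    have hx : τ (g : L) = ∑ μ : Au →* Kˣ, (μ u : K) • blk Au μ := by
      simp only [← mul_blk]
      rw [← Finset.mul_sum, hsum, mul_one]
      rfl
    rw [hx]
    exact Commute.sum_right _ _ _ fun μ _ => (hfixAu μ).smul_right _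
  -- the relations on the block
  have hthree : ∀ a b r : L, (ρ (a : H) - 1) * ((ρ (b : H) - 1) * ((ρ (r : H) - 1) * e)) = 0 →
      (τ a - 1) * ((τ b - 1) * (τ r - 1)) = 0 := by
    intro a b r h
    have h' := congrArg φ h
    rwa [hφ0, hφmul, hφmul, hW r e hφe] at h'
  have hcases := local_pure hq2 hQ' P (h2D (m - 1)) hQuad (by
    rcases (show j + 1 = m ∨ j + 2 ≤ m by omega) with hj1 | hj2
    · refine Or.inr (Or.inl fun a ha b hb => ?_)
      rw [hBB] at ha
      rw [show m + 1 - j = 2 by omega] at hjk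
      have hb' : (b : H) ∈ derTerm T j := (show j = m - 1 by omega) ▸ hb
      have ha' : (a : H) ∈ derTerm T (j + 1) := by rw [hj1]; exact ha
      have h := congrArg φ (kills_zero.1 (kills_succ.1 (kills_succ.1 hjk b hb') a ha'))
      rwa [hφ0, hφmul, hW b e hφe] at h
    · refine Or.inr (Or.inr ⟨fun a ha b hb b' hb' => ?_, (derTerm T j).subgroupOf L, h2D j, ?_, ?_, ?_⟩)
      · rw [hBB] at ha
        refine hthree a b b' ?_
        have ha' : (a : H) ∈ derTerm T (m - 1 + 1) := by rw [Nat.sub_add_cancel hm]; exact ha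
        have h := kills_zero.1 (kills_succ.1 (kills_succ.1 (hrel.2 (m - 1) 2 (by omega) b' hb') b hb) a ?_)
        · rw [← mul_assoc, ← mul_assoc]
          rw [← mul_assoc] at h
          rw [h, zero_mul]
        · exact ha'
      · rw [hder j le_rfl]
        exact fun x hx => derTerm_anti (show j + 1 ≤ m - 1 by omega) hx
      · intro r hr
        rw [Subgroup.mem_normalizer_iff]
        intro x
        constructor
        · exact fun hx => conj_mem_derTerm (derTerm_le j hr) hx
        · intro hx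
          have h := conj_mem_derTerm (derTerm_le j (inv_mem hr)) hx
          simpa [Subgroup.mem_subgroupOf, mul_assoc] using h
      · rcases (show j + 2 = m ∨ j + 3 ≤ m by omega) with hj3 | hj4
        · refine Or.inl fun a ha b hb r hr => hthree a b r ?_
          rw [hBB] at ha
          rw [show m + 1 - j = 3 by omega] at hjk
          have hb' : (b : H) ∈ derTerm T (j + 1) := (show m - 1 = j + 1 by omega) ▸ hb
          have ha' : (a : H) ∈ derTerm T (j + 1 + 1) := (show m = j + 1 + 1 by omega) ▸ ha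
          exact kills_zero.1 (kills_succ.1 (kills_succ.1 (kills_succ.1 hjk r hr) b hb') a ha')
        · refine Or.inr ?_
          rw [hBB, hder j le_rfl, hder (j + 1) (by omega), hder (j + 1 + 1) (by omega)]
          exact fun x hx => derTerm_anti (show j + 1 + 1 + 1 ≤ m by omega) hx)
  have hmemBB : ∀ (a : H) (ha : a ∈ derTerm T m), (⟨a, hDL m hjm ha⟩ : L) ∈ ⁅B, B⁆ := fun a ha => by
    rw [hBB]; exact ha
  rcases hcases with h | ⟨hq3, hpair, hinv⟩
  · left
    exact fun a ha => (htriv ⟨a, hDL m hjm ha⟩).1 (h _ (hmemBB a ha))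
  · refine Or.inr ⟨hq3, fun a ha a' ha' hna hna' => ?_, fun n hn b hb hnn => ?_⟩
    · exact (htriv (⟨a, hDL m hjm ha⟩⁻¹ * ⟨a', hDL m hjm ha'⟩)).1 (hpair _ (hmemBB a ha) _ (hmemBB a' ha')
        (fun h => hna ((htriv _).1 h)) (fun h => hna' ((htriv _).1 h)))
    · exact (htriv ⁅(⟨n, hDL _ (by omega) hn⟩ : L), (⟨b, hDL _ (by omega) hb⟩ : L)⁆).1
        (hinv _ hn _ hb (Subtype.ext hnn))

end CfsgLib.TwoLengthDerived
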