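import Mathlib
import Cfsg.Agent.Lib.TwoLengthDerived.Defs
import Cfsg.Agent.Lib.MetacyclicP.PLength

/-!
The frame of the induction for the bound of the `2`-length by the derived length of a Sylow
`2`-subgroup: an abelian normal `2`-subgroup containing the last term of the derived series.
-/

set_option autoImplicit false
set_option linter.style.haveILetI false
set_option linter.unusedSectionVars false

open scoped commutatorElement

namespace CfsgLib.TwoLengthDerived

open Cfsg CfsgLib.Cores CfsgLib.PSolvable

universe w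

section General

variable {H : Type w} [Group H]

theorem derTerm_le (T : Sylow 2 H) (j : ℕ) : derTerm T j ≤ T := Subgroup.map_subtype_le _

/-- The derived series of a Sylow subgroup vanishes when it does on one of them. -/
theorem derived_sylow_congr {p : ℕ} [Fact p.Prime] [Finite H] (S T : Sylow p H) {d : ℕ}
    (h : derivedSeries (T : Subgroup H) d = ⊥) : derivedSeries (S : Subgroup H) d = ⊥ := by
  have e := map_derivedSeries_eq (f := (T.equiv S).toMonoidHom) (T.equiv S).surjective d
  rw [h, Subgroup.map_bot] at e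
  exact e.symm

/-- The image of a Sylow subgroup. -/
theorem derTerm_mapSurjective [Finite H] {X : Type w} [Group X] {f : H →* X} (hf : Function.Surjective f)
    (T : Sylow 2 H) (j : ℕ) : derTerm (T.mapSurjective hf) j = (derTerm T j).map f := by
  induction j with
  | zero => rw [derTerm_zero, derTerm_zero, Sylow.coe_mapSurjective]
  | succ j ih => rw [derTerm_succ, derTerm_succ, ih, Subgroup.map_commutator]

theorem derived_eq_bot_iff_derTerm (T : Sylow 2 H) (j : ℕ) :
    derivedSeries (T : Subgroup H) j = ⊥ ↔ derTerm T j = ⊥ := by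
  rw [derTerm, Subgroup.map_eq_bot_iff_of_injective _ (T : Subgroup H).subtype_injective]

end General

/-- Beyond `O_{p',p}` the `p`-length is one less. -/
theorem pLengthLE_quotient_pPrimePCore {p k : ℕ} {X : Type*} [Group X] [Finite X]
    (h : PLengthLE p (k + 1) X) : PLengthLE p k (X ⧸ pPrimePCore p X) := by
  unfold PLengthLE at h ⊢
  refine top_le_iff.1 ?_
  have h1 := CfsgLib.MetacyclicP.map_upperPSeries_add_le (p := p)
    (f := QuotientGroup.mk' (pPrimePCore p X)) (QuotientGroup.mk'_surjective _) (m := 2) even_two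
    (by rw [upperPSeries_two, QuotientGroup.map_mk'_self]) (2 * k + 1)
  rwa [show 2 * k + 1 + 2 = 2 * (k + 1) + 1 by omega, h,
    Subgroup.map_top_of_surjective _ (QuotientGroup.mk'_surjective _)] at h1

/-- The `p`-length of a direct product. -/
theorem pLengthLE_prod_two {p k : ℕ} {A B : Type*} [Group A] [Group B] [Finite A] [Finite B]
    (hA : PLengthLE p k A) (hB : PLengthLE p k B) : PLengthLE p k (A × B) := by
  unfold PLengthLE
  set U := (upperPSeries p (A × B) (2 * k + 1)).1 with hU
  have key : ∀ (N : Subgroup (A × B)) [N.Normal], PLengthLE p k N → N ≤ U := fun N _ hN => by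
    have h := CfsgLib.MetacyclicP.map_subtype_upperPSeries_le (p := p) N (2 * k + 1)
    unfold PLengthLE at hN
    rwa [hN, ← MonoidHom.range_eq_map, Subgroup.range_subtype] at h
  let f : A →* (MonoidHom.snd A B).ker :=
    (MonoidHom.inl A B).codRestrict _ fun a => rfl
  have hf : Function.Surjective f := fun x => ⟨x.1.1, Subtype.ext (Prod.ext rfl x.2.symm)⟩
  let g : B →* (MonoidHom.fst A B).ker :=
    (MonoidHom.inr A B).codRestrict _ fun b => rfl
  have hg : Function.Surjective g := fun x => ⟨x.1.2, Subtype.ext (Prod.ext x.2.symm rfl)⟩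
  refine top_le_iff.1 fun x _ => ?_
  have e : x = (x.1, 1) * (1, x.2) := Prod.ext (mul_one _).symm (one_mul _).symm
  rw [e]
  exact U.mul_mem (key _ (pLengthLE_of_surjective hf hA) (MonoidHom.mem_ker.2 rfl))
    (key _ (pLengthLE_of_surjective hg hB) (MonoidHom.mem_ker.2 rfl))

/-- The semidirect product of an abelian normal `2`-subgroup and the group it induces. -/
theorem pLengthLE_conjRange {H : Type w} [Group H] [Finite H] (hsol : Group.IsSolvable H) {k : ℕ}
    (IH : ∀ (G : Type w) [Group G] [Finite G], Group.IsSolvable G →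
      (∀ S : Sylow 2 G, derivedSeries (S : Subgroup G) (k + 1) = ⊥) → PLengthLE 2 (k + 1) G)
    (T : Sylow 2 H) (N : Subgroup H) [N.Normal] (hN : IsPGroup 2 N)
    (hNc : ∀ a ∈ N, ∀ b ∈ N, a * b = b * a) (hA : derTerm T (k + 1) ≤ N)
    (hB : ∀ n ∈ N, n ∈ derTerm T k → ∀ b ∈ derTerm T k, n * b = b * n) :
    PLengthLE 2 k ((MulAut.conjNormal (H := N)).range ⧸
      pCore 2 (MulAut.conjNormal (H := N)).range) := by
  classical
  haveI := hsol
  haveI : Fact (Nat.Prime 2) := ⟨Nat.prime_two⟩
  set θ : H →* MulAut N := MulAut.conjNormal with hθ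
  let G' := N ⋊[θ.range.subtype] θ.range
  let G'' := N ⋊[θ] H
  haveI : Finite G' := Finite.of_equiv _ SemidirectProduct.equivProd.symm
  haveI : Finite G'' := Finite.of_equiv _ SemidirectProduct.equivProd.symm
  haveI hsolN : Group.IsSolvable N := inferInstance
  haveI hsolX : Group.IsSolvable θ.range := solvable_of_surjective θ.rangeRestrict_surjective
  have hsolG : Group.IsSolvable G' :=
    solvable_of_ker_le_range (SemidirectProduct.inl : N →* G') SemidirectProduct.rightHom
      SemidirectProduct.range_inl_eq_ker_rightHom.ge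
  let ν : G'' →* G' := SemidirectProduct.map (MonoidHom.id N) θ.rangeRestrict fun g => rfl
  let μ : G'' →* H := SemidirectProduct.lift N.subtype (MonoidHom.id H) fun g => by
    ext n; simp [hθ]
  have hν : Function.Surjective ν := fun x => by
    obtain ⟨h, hh⟩ := θ.rangeRestrict_surjective x.right
    exact ⟨⟨x.left, h⟩, SemidirectProduct.ext rfl hh⟩
  have hNT : N ≤ (T : Subgroup H) := (le_pCore (p := 2) hN).trans (pCore_le_sylow T)
  let S0 : Subgroup G'' := (T : Subgroup H).comap SemidirectProduct.rightHom
  let Sj : ℕ → Subgroup G'' := fun j =>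
    (derTerm T j).comap μ ⊓ (derTerm T j).comap SemidirectProduct.rightHom
  have hS : ∀ j, (derivedSeries S0 j).map S0.subtype ≤ Sj j := by
    intro j
    induction j with
    | zero =>
      rintro _ ⟨x, -, rfl⟩
      have hx : (x : G'').right ∈ (T : Subgroup H) := x.2
      simp only [Sj, derTerm_zero, Subgroup.mem_inf, Subgroup.mem_comap]
      exact ⟨(T : Subgroup H).mul_mem (hNT (x : G'').left.2) hx, hx⟩
    | succ j ih =>
      rw [derivedSeries_succ, Subgroup.map_commutator]
      refine (Subgroup.commutator_mono ih ih).trans (Subgroup.commutator_le.2 fun a ha b hb => ?_)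
      simp only [Sj, Subgroup.mem_inf, Subgroup.mem_comap, derTerm_succ, map_commutatorElement] at ha hb ⊢
      exact ⟨Subgroup.commutator_mem_commutator ha.1 hb.1, Subgroup.commutator_mem_commutator ha.2 hb.2⟩
  -- the last commutators vanish
  have hlast : ∀ x ∈ (derivedSeries S0 (k + 1)).map S0.subtype, ν x = 1 := by
    have hle : (derivedSeries S0 (k + 1)).map S0.subtype ≤ ν.ker := by
      rw [derivedSeries_succ, Subgroup.map_commutator]
      refine (Subgroup.commutator_mono (hS k) (hS k)).trans (Subgroup.commutator_le.2 fun a ha b hb => ?_)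
      simp only [Sj, Subgroup.mem_inf, Subgroup.mem_comap] at ha hb
      have hleft : ∀ c : G'', μ c ∈ derTerm T k → c.right ∈ derTerm T k →
          (c.left : H) ∈ derTerm T k := fun c h1 h2 => by
        have := (derTerm T k).mul_mem h1 ((derTerm T k).inv_mem h2)
        rwa [show μ c = (c.left : H) * c.right from rfl, mul_inv_cancel_right] at this
      have hfix : ∀ c d : G'', μ c ∈ derTerm T k → c.right ∈ derTerm T k → d.right ∈ derTerm T k →
          θ d.right c.left = c.left := fun c d h1 h2 h3 => by
        refine Subtype.ext ?_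
        show d.right * (c.left : H) * d.right⁻¹ = c.left
        rw [← hB _ c.left.2 (hleft c h1 h2) _ h3, mul_inv_cancel_right]
      have hab := hfix b a hb.1 hb.2 ha.2
      have hba := hfix a b ha.1 ha.2 hb.2
      rw [MonoidHom.mem_ker, map_commutatorElement, commutatorElement_eq_one_iff_mul_comm,
        ← map_mul, ← map_mul]
      refine SemidirectProduct.ext ?_ ?_
      · show (a * b).left = (b * a).left
        rw [SemidirectProduct.mul_left, SemidirectProduct.mul_left, hab, hba]
        exact Subtype.ext (hNc _ a.left.2 _ b.left.2)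
      · show θ.rangeRestrict (a.right * b.right) = θ.rangeRestrict (b.right * a.right)
        have hc : ⁅a.right, b.right⁆ ∈ N :=
          hA (by rw [derTerm_succ]; exact Subgroup.commutator_mem_commutator ha.2 hb.2)
        have h1 : θ ⁅a.right, b.right⁆ = 1 := MulEquiv.ext fun n => Subtype.ext (by
          show ⁅a.right, b.right⁆ * (n : H) * ⁅a.right, b.right⁆⁻¹ = n
          rw [hNc _ hc _ n.2, mul_inv_cancel_right])
        rw [map_commutatorElement, commutatorElement_eq_one_iff_mul_comm] at h1
        exact Subtype.ext (by simpa using h1)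
    exact fun x hx => MonoidHom.mem_ker.1 (hle hx)
  -- the Sylow subgroup
  have hS0 : IsPGroup 2 S0 := by
    refine T.isPGroup'.comap_of_ker_isPGroup _ ?_
    rw [← SemidirectProduct.range_inl_eq_ker_rightHom]
    exact hN.of_surjective _ (SemidirectProduct.inl : N →* G'').rangeRestrict_surjective
  have hidx : ¬ 2 ∣ (S0.map ν).index := fun hd => by
    have h := hd.trans (Subgroup.index_map_dvd S0 hν)
    rw [Subgroup.index_comap_of_surjective _ SemidirectProduct.rightHom_surjective] at h
    exact T.not_dvd_index h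
  set S' : Sylow 2 G' := (hS0.map ν).toSylow hidx with hS'
  have hd : derivedSeries ((S0.map ν : Subgroup G')) (k + 1) = ⊥ := by
    rw [← map_derivedSeries_eq (ν.subgroupMap_surjective S0), Subgroup.map_eq_bot_iff]
    exact fun x hx => MonoidHom.mem_ker.2 (Subtype.ext (hlast _ (Subgroup.mem_map_of_mem _ hx)))
  have hlen : PLengthLE 2 (k + 1) G' := IH G' hsolG fun S =>
    derived_sylow_congr S S' (by rw [hS', IsPGroup.toSylow_coe]; exact hd)
  -- no odd core
  have hR : IsPGroup 2 (SemidirectProduct.inl : N →* G').range :=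
    hN.of_surjective _ (MonoidHom.rangeRestrict_surjective _)
  have hodd : pPrimeCore 2 G' = ⊥ := by
    haveI : (SemidirectProduct.inl : N →* G').range.Normal := by
      rw [SemidirectProduct.range_inl_eq_ker_rightHom]; infer_instance
    have hdisj : pPrimeCore 2 G' ⊓ (SemidirectProduct.inl : N →* G').range = ⊥ := by
      obtain ⟨j, hj⟩ := IsPGroup.iff_card.1 hR
      refine Subgroup.inf_eq_bot_of_coprime ?_
      rw [hj]
      exact (card_pPrimeCore_coprime 2).pow_right j
    refine eq_bot_iff.2 fun x hx => ?_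
    have hright : x.right = 1 := by
      refine Subtype.ext (MulEquiv.ext fun n => ?_)
      have hc := Subgroup.commute_of_normal_of_disjoint _ _ inferInstance inferInstance
        (disjoint_iff.2 hdisj) x _ hx ⟨n, rfl⟩
      have h := congrArg SemidirectProduct.left hc.eq
      rw [SemidirectProduct.mul_left, SemidirectProduct.mul_left, SemidirectProduct.left_inl,
        SemidirectProduct.right_inl, map_one, MulAut.one_apply] at h
      show (x.right : MulAut N) n = n
      have h2 : n * x.left = x.left * n := Subtype.ext (hNc _ n.2 _ x.left.2)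
      rw [h2, mul_left_cancel_iff] at h
      exact h
    have hxr : x ∈ pPrimeCore 2 G' ⊓ (SemidirectProduct.inl : N →* G').range := ⟨hx, by
      rw [SemidirectProduct.range_inl_eq_ker_rightHom]; exact MonoidHom.mem_ker.2 hright⟩
    rwa [hdisj] at hxr
  have hq := pLengthLE_quotient_pPrimePCore hlen
  refine pLengthLE_of_surjective (f := QuotientGroup.map (pPrimePCore 2 G') (pCore 2 θ.range)
    SemidirectProduct.rightHom ?_) ?_ hq
  · rw [← Subgroup.map_le_iff_le_comap, pPrimePCore_eq_pCore hodd]
    exact map_pCore_le_of_surjective SemidirectProduct.rightHom_surjective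
  · intro y
    obtain ⟨z, rfl⟩ := QuotientGroup.mk'_surjective _ y
    obtain ⟨g, rfl⟩ := SemidirectProduct.rightHom_surjective (φ := θ.range.subtype) z
    exact ⟨QuotientGroup.mk' _ g, rfl⟩

/-- The frame: an abelian normal `2`-subgroup holding the last derived term. -/
theorem pLengthLE_of_elementary {H : Type w} [Group H] [Finite H] (hsol : Group.IsSolvable H)
    (hO : pPrimeCore 2 H = ⊥) {m : ℕ} (hm : 1 ≤ m)
    (IH : ∀ (G : Type w) [Group G] [Finite G], Group.IsSolvable G →
      (∀ S : Sylow 2 G, derivedSeries (S : Subgroup G) m = ⊥) → PLengthLE 2 m G)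
    (T : Sylow 2 H) (N : Subgroup H) [N.Normal] (hN : IsPGroup 2 N)
    (hNc : ∀ a ∈ N, ∀ b ∈ N, a * b = b * a) (hA : derTerm T m ≤ N)
    (hB : ∀ n ∈ N, n ∈ derTerm T (m - 1) → ∀ b ∈ derTerm T (m - 1), n * b = b * n) :
    PLengthLE 2 m H := by
  classical
  haveI := hsol
  haveI : Fact (Nat.Prime 2) := ⟨Nat.prime_two⟩
  obtain ⟨k, rfl⟩ : ∃ k, m = k + 1 := ⟨m - 1, by omega⟩
  rw [Nat.add_sub_cancel] at hB
  set π := QuotientGroup.mk' N with hπ
  haveI : Group.IsSolvable (H ⧸ N) := solvable_of_surjective (QuotientGroup.mk'_surjective N)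
  have h1 : PLengthLE 2 (k + 1) (H ⧸ N) := IH _ inferInstance fun S => by
    refine derived_sylow_congr S (T.mapSurjective (QuotientGroup.mk'_surjective N)) ?_
    rw [derived_eq_bot_iff_derTerm, derTerm_mapSurjective, Subgroup.map_eq_bot_iff, QuotientGroup.ker_mk']
    exact hA
  have h1' := pLengthLE_quotient_pPrimePCore h1
  have h2 := pLengthLE_conjRange hsol IH T N hN hNc hA hB
  set θ : H →* MulAut N := MulAut.conjNormal with hθ
  set φ : H →* ((H ⧸ N) ⧸ pPrimePCore 2 (H ⧸ N)) × (θ.range ⧸ pCore 2 θ.range) :=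
    ((QuotientGroup.mk' _).comp π).prod ((QuotientGroup.mk' _).comp θ.rangeRestrict)
  have himg : PLengthLE 2 k φ.range := pLengthLE_subgroup (pLengthLE_prod_two h1' h2) _
  have hNC : N ≤ θ.ker := fun n hn => MonoidHom.mem_ker.2 (MulEquiv.ext fun x => Subtype.ext (by
    rw [hθ, MulAut.conjNormal_apply, hNc _ hn _ x.2, mul_inv_cancel_right, MulAut.one_apply]))
  -- the part centralising `N` over the odd core of the quotient is `N`
  set K := (pPrimeCore 2 (H ⧸ N)).comap π ⊓ θ.ker with hKdef
  have hNK : N ≤ K := le_inf (QuotientGroup.le_comap_mk' N _) hNC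
  have hKN : K ≤ N := by
    obtain ⟨j, hj⟩ := IsPGroup.iff_card.1 hN
    haveI : (N.subgroupOf K).Normal := inferInstance
    have hcardN : Nat.card (N.subgroupOf K) = 2 ^ j := by
      rw [Nat.card_congr (Subgroup.subgroupOfEquivOfLe hNK).toEquiv, hj]
    have hidx : (N.subgroupOf K).index.Coprime 2 := by
      show (N.relIndex K).Coprime 2
      rw [relIndex_eq_card_map]
      refine (card_pPrimeCore_coprime (G := H ⧸ N) 2).coprime_dvd_left (Subgroup.card_dvd_of_le ?_)
      exact Subgroup.map_le_iff_le_comap.2 inf_le_left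
    obtain ⟨J, hJ⟩ := Subgroup.exists_right_complement'_of_coprime (N := N.subgroupOf K)
      (by rw [hcardN]; exact (hidx.pow_right j).symm)
    have hcent : ∀ n ∈ N.subgroupOf K, ∀ x : K, n * x = x * n := by
      intro n hn x
      refine Subtype.ext ?_
      have hx : θ (x : H) = 1 := MonoidHom.mem_ker.1 (Subgroup.mem_inf.1 x.2).2
      have h := congrArg Subtype.val (DFunLike.congr_fun hx ⟨(n : H), hn⟩)
      rw [hθ, MulAut.conjNormal_apply, MulAut.one_apply, mul_inv_eq_iff_eq_mul] at h
      exact h.symm
    haveI hJn : J.Normal := by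
      refine Subgroup.normalizer_eq_top_iff.1 (top_le_iff.1 ?_)
      rw [← hJ.sup_eq_top, sup_le_iff]
      refine ⟨fun n hn => Subgroup.mem_normalizer_iff.2 fun x => ?_, Subgroup.le_normalizer⟩
      rw [hcent n hn x, mul_inv_cancel_right]
    have hJodd : (Nat.card J).Coprime 2 := by rwa [← hJ.symm.index_eq_card]
    have hJ1 : J = ⊥ := by
      have h := (le_pPrimeCore hJodd : J ≤ pPrimeCore 2 K)
      have hKn : K.Normal := by rw [hKdef]; infer_instance
      have h' := map_subtype_pPrimeCore_le (p := 2) hKn.isSubnormal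
      rw [hO, le_bot_iff, Subgroup.map_eq_bot_iff_of_injective _ K.subtype_injective] at h'
      rw [h', le_bot_iff] at h
      exact h
    have htop := hJ.sup_eq_top
    rw [hJ1, sup_bot_eq, Subgroup.subgroupOf_eq_top] at htop
    exact htop
  -- so the kernel of both actions is a `2`-group
  have hC : IsPGroup 2 (((pPrimePCore 2 (H ⧸ N)).comap π ⊓ θ.ker : Subgroup H)) := by
    set f := ((QuotientGroup.mk' (pPrimeCore 2 (H ⧸ N))).comp π).comp θ.ker.subtype with hf
    have hker : IsPGroup 2 f.ker := by
      refine hN.comap_of_ker_isPGroup θ.ker.subtype (IsPGroup.ker_isPGroup_of_injective θ.ker.subtype_injective)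
        |>.to_le fun x hx => ?_
      refine hKN ⟨?_, x.2⟩
      rw [hf, ← MonoidHom.comap_ker, ← MonoidHom.comap_ker, QuotientGroup.ker_mk'] at hx
      exact hx
    refine ((((isPGroup_pCore 2 _).comap_of_ker_isPGroup f hker)).map θ.ker.subtype).to_le ?_
    rintro x ⟨hx1, hx2⟩
    exact ⟨⟨x, hx2⟩, hx1, rfl⟩
  have hZ : IsPGroup 2 φ.ker := by
    set L := (pPrimePCore 2 (H ⧸ N)).comap π with hL
    set f := θ.rangeRestrict.comp L.subtype with hf
    have hker : IsPGroup 2 f.ker := by
      refine hC.comap_of_ker_isPGroup L.subtype (IsPGroup.ker_isPGroup_of_injective L.subtype_injective)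
        |>.to_le fun x hx => ?_
      rw [hf, ← MonoidHom.comap_ker, MonoidHom.ker_rangeRestrict] at hx
      exact ⟨x.2, hx⟩
    refine ((((isPGroup_pCore 2 _).comap_of_ker_isPGroup f hker)).map L.subtype).to_le ?_
    intro x hx
    rw [MonoidHom.ker_prod, Subgroup.mem_inf, ← MonoidHom.comap_ker, ← MonoidHom.comap_ker,
      QuotientGroup.ker_mk', QuotientGroup.ker_mk'] at hx
    exact ⟨⟨x, hx.1⟩, hx.2, rfl⟩
  have hkerlen : PLengthLE 2 1 φ.rangeRestrict.ker := by
    rw [MonoidHom.ker_rangeRestrict]
    exact CfsgLib.MetacyclicP.pLengthLE_one_of_isPGroup hZ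
  have h := CfsgLib.MetacyclicP.pLengthLE_extension φ.rangeRestrict_surjective hkerlen himg
  rwa [Nat.add_comm] at h

end CfsgLib.TwoLengthDerived
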