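import Mathlib
import Cfsg.Agent.Lib.TwoLengthDerived.Defs
import Cfsg.Agent.Lib.TwoLengthDerived.Frame
import Cfsg.Agent.Lib.InvChar.BaerSuzuki

/-!
From the block data to an elementary abelian normal `2`-subgroup holding the last derived term of a
Sylow `2`-subgroup, above the odd core.
-/

set_option autoImplicit false
set_option linter.style.haveILetI false
set_option linter.unusedSectionVars false

open scoped commutatorElement

namespace CfsgLib.TwoLengthDerived

open Cfsg CfsgLib.Cores CfsgLib.PSolvable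

universe w v

variable {H : Type w} [Group H] [Finite H]

theorem smul_derTerm (g : H) (T : Sylow 2 H) (j : ℕ) :
    derTerm (g • T) j = (derTerm T j).map (MulAut.conj g).toMonoidHom := by
  induction j with
  | zero => rw [derTerm_zero, derTerm_zero]; rfl
  | succ j ih => rw [derTerm_succ, derTerm_succ, ih, Subgroup.map_commutator]

theorem conj_mem_derClosure {m : ℕ} {x : H} (g : H) (hx : x ∈ derClosure H m) :
    g * x * g⁻¹ ∈ derClosure H m := by
  revert x
  suffices h : derClosure H m ≤ (derClosure H m).comap (MulAut.conj g).toMonoidHom from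
    fun {x} hx => h hx
  refine iSup_le fun T a ha => ?_
  exact le_iSup (fun T : Sylow 2 H => derTerm T m) (g • T)
    (by rw [smul_derTerm]; exact Subgroup.mem_map_of_mem _ ha)

theorem derTerm_normal_in {m : ℕ} (T : Sylow 2 H) {t a : H} (ht : t ∈ (T : Subgroup H))
    (ha : a ∈ derTerm T m) : t * a * t⁻¹ ∈ derTerm T m := by
  obtain ⟨b, hb, rfl⟩ := ha
  exact ⟨⟨t, ht⟩ * b * ⟨t, ht⟩⁻¹, (inferInstance : (derivedSeries (T : Subgroup H) m).Normal).conj_mem b hb _, rfl⟩

theorem not_dvd_relIndex_inter (T : Sylow 2 H) (U : Subgroup H) [U.Normal] :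
    ¬ 2 ∣ (T : Subgroup H).relIndex U := by
  haveI : Fact (Nat.Prime 2) := ⟨Nat.prime_two⟩
  intro h
  refine T.not_dvd_index (h.trans ?_)
  have e1 := Subgroup.relIndex_mul_relIndex ((T : Subgroup H) ⊓ U) (T : Subgroup H)
    ((T : Subgroup H) ⊔ U) inf_le_left le_sup_left
  have e2 := Subgroup.relIndex_mul_relIndex ((T : Subgroup H) ⊓ U) U
    ((T : Subgroup H) ⊔ U) inf_le_right le_sup_right
  rw [Subgroup.inf_relIndex_left] at e1
  rw [Subgroup.inf_relIndex_right, Subgroup.relIndex_sup_right, ← e1, mul_comm] at e2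
  rw [Nat.eq_of_mul_eq_mul_left (Nat.pos_of_ne_zero Subgroup.index_ne_zero_of_finite) e2]
  exact Subgroup.relIndex_dvd_index_of_le le_sup_left

variable {m : ℕ} {ι : Type v} (D : PureData H m ι)
include D

theorem derClosure_le_fix (i : ι) : derClosure H m ≤ D.fix i := iSup_le fun T => D.der_le_fix T i

omit [Finite H] in
theorem ker_conj (i : ι) {x y : H} (hx : x ∈ D.fix i) (hy : y ∈ D.ker i) : x * y * x⁻¹ ∈ D.ker i :=
  D.ker_norm i x hx y hy

/-- A subgroup of elements of the closure killed by every block with `2`-power order is trivial. -/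
theorem eq_one_of_forall_ker {T : Sylow 2 H} {x : H} (hx : x ∈ derClosure H m) (hxT : x ∈ (T : Subgroup H))
    (h : ∀ i, x ∈ D.ker i) : x = 1 := by
  haveI : Fact (Nat.Prime 2) := ⟨Nat.prime_two⟩
  obtain ⟨k, hk⟩ := T.isPGroup' ⟨x, hxT⟩
  exact D.faithful x hx ⟨k, congrArg Subtype.val hk⟩ h

omit [Finite H] in
theorem ker_subgroupOf_normal (i : ι) (hle : derClosure H m ≤ D.fix i) :
    ((D.ker i).subgroupOf (derClosure H m)).Normal :=
  ⟨fun _ hy x => ker_conj D i (hle x.2) hy⟩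

/-- Two members of one term and their commutator: the commutator lies in every kernel. -/
theorem commutator_mem_ker {T₁ T₂ : Sylow 2 H} {x y : H} (hx : x ∈ derTerm T₁ m) (hy : y ∈ derTerm T₂ m)
    (hyT : y ∈ (T₁ : Subgroup H)) (hxT : x ∈ (T₂ : Subgroup H)) (i : ι) : ⁅x, y⁆ ∈ D.ker i := by
  have hC : ∀ {T : Sylow 2 H} {z : H}, z ∈ derTerm T m → z ∈ derClosure H m := fun {T z} hz =>
    le_iSup (fun T : Sylow 2 H => derTerm T m) T hz
  set c := ⁅x, y⁆ with hc
  have hc1 : c ∈ derTerm T₁ m := by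
    rw [hc, commutatorElement_def, mul_assoc, mul_assoc]
    refine (derTerm T₁ m).mul_mem hx ?_
    rw [← mul_assoc]
    exact derTerm_normal_in T₁ hyT ((derTerm T₁ m).inv_mem hx)
  have hc2 : c ∈ derTerm T₂ m := by
    rw [hc, commutatorElement_def]
    exact (derTerm T₂ m).mul_mem (derTerm_normal_in T₂ hxT hy) ((derTerm T₂ m).inv_mem hy)
  have hfix := fun {z : H} (hz : z ∈ derClosure H m) {w : H} (hw : w ∈ D.ker i) =>
    ker_conj D i (derClosure_le_fix D i hz) hw
  by_contra hck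
  by_cases hxk : x ∈ D.ker i
  · refine hck ?_
    rw [hc, commutatorElement_def, mul_assoc, mul_assoc, ← mul_assoc y]
    exact (D.ker i).mul_mem hxk (hfix (hC hy) ((D.ker i).inv_mem hxk))
  by_cases hyk : y ∈ D.ker i
  · refine hck ?_
    rw [hc, commutatorElement_def]
    exact (D.ker i).mul_mem (hfix (hC hx) hyk) ((D.ker i).inv_mem hyk)
  haveI := ker_subgroupOf_normal D i (derClosure_le_fix D i)
  set q := QuotientGroup.mk' ((D.ker i).subgroupOf (derClosure H m))
  have e1 : q ⟨x, hC hx⟩ = q ⟨c, hC hc1⟩ :=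
    QuotientGroup.eq.2 (D.pair T₁ i x hx c hc1 hxk hck)
  have e2 : q ⟨y, hC hy⟩ = q ⟨c, hC hc1⟩ :=
    QuotientGroup.eq.2 (D.pair T₂ i y hy c hc2 hyk hck)
  refine hck ?_
  have e3 : q ⟨c, hC hc1⟩ = ⁅q ⟨x, hC hx⟩, q ⟨y, hC hy⟩⁆ := by
    rw [← map_commutatorElement]; rfl
  rw [e1, e2, commutatorElement_self] at e3
  exact (QuotientGroup.eq_one_iff (⟨c, hC hc1⟩ : derClosure H m)).1 e3

/-- The part of a Sylow subgroup in `O_{2',2}` covers it above the odd core. -/
theorem exists_mem_inter (T : Sylow 2 H) {y : H} (hy : y ∈ pPrimePCore 2 H) :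
    ∃ z ∈ (T : Subgroup H) ⊓ pPrimePCore 2 H,
      QuotientGroup.mk' (pPrimeCore 2 H) z = QuotientGroup.mk' (pPrimeCore 2 H) y := by
  haveI : Fact (Nat.Prime 2) := ⟨Nat.prime_two⟩
  set U := pPrimePCore 2 H
  haveI : U.Normal := by show (pPrimePCore 2 H).Normal; rw [pPrimePCore]; infer_instance
  set P2 := (T : Subgroup H) ⊓ U
  have hp : IsPGroup 2 (P2.subgroupOf U) :=
    (T.isPGroup'.to_le inf_le_left).comap_of_injective U.subtype U.subtype_injective
  have hidx : ¬ 2 ∣ (P2.subgroupOf U).index := by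
    show ¬ 2 ∣ P2.relIndex U
    rw [Subgroup.inf_relIndex_right]
    exact not_dvd_relIndex_inter T U
  let g : U →* pCore 2 (H ⧸ pPrimeCore 2 H) :=
    ((QuotientGroup.mk' (pPrimeCore 2 H)).comp U.subtype).codRestrict _ (fun x => x.2)
  have hgs : Function.Surjective g := fun x => by
    obtain ⟨h, hh⟩ := QuotientGroup.mk'_surjective _ (x : H ⧸ pPrimeCore 2 H)
    exact ⟨⟨h, show _ ∈ pCore 2 _ by rw [hh]; exact x.2⟩, Subtype.ext hh⟩
  set S := hp.toSylow hidx
  have htop : ((S.mapSurjective hgs : Sylow 2 (pCore 2 (H ⧸ pPrimeCore 2 H))) :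
      Subgroup (pCore 2 (H ⧸ pPrimeCore 2 H))) = ⊤ :=
    ((S.mapSurjective hgs).is_maximal' (IsPGroup.to_subgroup (isPGroup_pCore 2 _) ⊤) le_top).symm
  have h9 : g ⟨y, hy⟩ ∈ ((S.mapSurjective hgs : Sylow 2 (pCore 2 (H ⧸ pPrimeCore 2 H))) :
      Subgroup (pCore 2 (H ⧸ pPrimeCore 2 H))) := htop ▸ Subgroup.mem_top _
  obtain ⟨z, hz, he⟩ := h9
  exact ⟨z, hz, congrArg Subtype.val he⟩

/-- The normalizer of that part covers the group above the odd core. -/
theorem exists_mem_normalizer (T : Sylow 2 H) (x : H) :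
    ∃ a ∈ Subgroup.normalizer (((T : Subgroup H) ⊓ pPrimePCore 2 H : Subgroup H) : Set H),
      QuotientGroup.mk' (pPrimeCore 2 H) a = QuotientGroup.mk' (pPrimeCore 2 H) x := by
  haveI : Fact (Nat.Prime 2) := ⟨Nat.prime_two⟩
  set U := pPrimePCore 2 H
  haveI : U.Normal := by show (pPrimePCore 2 H).Normal; rw [pPrimePCore]; infer_instance
  set P2 := (T : Subgroup H) ⊓ U
  have hp : IsPGroup 2 (P2.subgroupOf U) :=
    (T.isPGroup'.to_le inf_le_left).comap_of_injective U.subtype U.subtype_injective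
  have hidx : ¬ 2 ∣ (P2.subgroupOf U).index := by
    show ¬ 2 ∣ P2.relIndex U
    rw [Subgroup.inf_relIndex_right]
    exact not_dvd_relIndex_inter T U
  have htop := Sylow.normalizer_sup_eq_top (hp.toSylow hidx)
  rw [IsPGroup.toSylow_coe, Subgroup.map_subgroupOf_eq_of_le inf_le_right] at htop
  obtain ⟨a, ha, b, hb, rfl⟩ := Subgroup.mem_sup_of_normal_right.1 (htop.ge (Subgroup.mem_top x))
  obtain ⟨z, hz, hze⟩ := exists_mem_inter D T hb
  exact ⟨a * z, mul_mem ha (Subgroup.le_normalizer hz), by rw [map_mul, map_mul, hze]⟩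

theorem le_normalizer_inter (T : Sylow 2 H) :
    (T : Subgroup H) ≤ Subgroup.normalizer (((T : Subgroup H) ⊓ pPrimePCore 2 H : Subgroup H) : Set H) := by
  haveI : (pPrimePCore 2 H).Normal := by rw [pPrimePCore]; infer_instance
  intro t ht
  refine Subgroup.mem_normalizer_iff.2 fun z => ?_
  simp only [Subgroup.mem_inf]
  constructor
  · rintro ⟨h1, h2⟩
    exact ⟨(T : Subgroup H).mul_mem ((T : Subgroup H).mul_mem ht h1) ((T : Subgroup H).inv_mem ht),
      (inferInstance : (pPrimePCore 2 H).Normal).conj_mem z h2 t⟩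
  · rintro ⟨h1, h2⟩
    constructor
    · have := (T : Subgroup H).mul_mem ((T : Subgroup H).mul_mem ((T : Subgroup H).inv_mem ht) h1) ht
      rwa [show t⁻¹ * (t * z * t⁻¹) * t = z by group] at this
    · have := (inferInstance : (pPrimePCore 2 H).Normal).conj_mem _ h2 t⁻¹
      rwa [show t⁻¹ * (t * z * t⁻¹) * t⁻¹⁻¹ = z by group] at this

theorem inter_le_smul (T : Sylow 2 H) {h : H}
    (hh : h ∈ Subgroup.normalizer (((T : Subgroup H) ⊓ pPrimePCore 2 H : Subgroup H) : Set H)) :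
    (T : Subgroup H) ⊓ pPrimePCore 2 H ≤ ((h • T : Sylow 2 H) : Subgroup H) := by
  intro z hz
  have hz' := (Subgroup.mem_normalizer_iff.1 (inv_mem hh) z).1 hz
  exact ⟨h⁻¹ * z * h⁻¹⁻¹, hz'.1, by simp [mul_assoc]⟩

/-- The last derived term lies in `O_{2',2}`. -/
theorem derTerm_le_pPrimePCore (hsol : Group.IsSolvable H) (T : Sylow 2 H) :
    derTerm T m ≤ pPrimePCore 2 H := by
  classical
  haveI := hsol
  haveI : Fact (Nat.Prime 2) := ⟨Nat.prime_two⟩
  set O := pPrimeCore 2 H with hO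
  set U := pPrimePCore 2 H with hU
  haveI : U.Normal := by rw [hU, pPrimePCore]; infer_instance
  set P2 := (T : Subgroup H) ⊓ U with hP2
  set K := Subgroup.normalizer (P2 : Set H) with hK
  intro α hα
  by_contra hαU
  set ρ := QuotientGroup.mk' U with hρ
  have hα2 : α * α = 1 := D.sq T α hα
  have hane : ρ α ≠ 1 := fun h => hαU ((QuotientGroup.eq_one_iff α).1 h)
  have hord : orderOf (ρ α) = 2 := orderOf_eq_prime (by rw [pow_two, ← map_mul, hα2, map_one]) hane
  have hcore : pCore 2 (H ⧸ U) = ⊥ := pCore_quotient_comap_pCore O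
  obtain ⟨y, hy, hyodd, hy1⟩ := InvChar.exists_conj_odd_orderOf_mul (ρ α) hord (by
    rw [hcore]; exact fun h => hane (Subgroup.mem_bot.1 h))
  obtain ⟨c, hc⟩ := isConj_iff.1 hy
  obtain ⟨c', rfl⟩ := QuotientGroup.mk'_surjective U c
  obtain ⟨h, hhK, hh0⟩ := exists_mem_normalizer D T c'
  have hh : ρ h = ρ c' := by
    refine QuotientGroup.eq.2 (pPrimeCore_le_pPrimePCore 2 H ?_)
    exact QuotientGroup.eq.1 hh0
  set T2 : Sylow 2 H := h • T with hT2
  obtain ⟨α', hα'⟩ : ∃ z, z = h * α * h⁻¹ := ⟨_, rfl⟩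
  have hα'T : α' ∈ derTerm T2 m := by rw [hT2, smul_derTerm, hα']; exact Subgroup.mem_map_of_mem _ hα
  have hα'2 : α' * α' = 1 := D.sq T2 α' hα'T
  have hαK : α ∈ K := le_normalizer_inter D T (derTerm_le T m hα)
  have hα'K : α' ∈ K := by rw [hα']; exact K.mul_mem (K.mul_mem hhK hαK) (K.inv_mem hhK)
  obtain ⟨a, b, hb, hab⟩ := Nat.exists_eq_two_pow_mul_odd (orderOf_pos (α * α')).ne'
  set d := α * α' with hd
  set g := d ^ 2 ^ a with hg
  have hgodd : Odd (orderOf g) := by
    rw [hg, orderOf_pow_of_dvd (by positivity) (hab ▸ dvd_mul_right _ _), hab,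
      Nat.mul_div_cancel_left _ (by positivity)]
    exact hb
  have hρy : ρ α' = y := by rw [hα', map_mul, map_mul, map_inv, hh, hc]
  have hgU : ρ g ≠ 1 := by
    rw [hg, map_pow]
    intro h1
    refine hy1 ?_
    rw [← hρy, ← map_mul]
    obtain ⟨j, -, hj⟩ := (Nat.dvd_prime_pow Nat.prime_two).1 (orderOf_dvd_of_pow_eq_one h1)
    have hodd' : Odd (orderOf (ρ d)) := by rw [hd, map_mul, hρy]; exact hyodd
    rw [hj] at hodd'
    have hj0 : j = 0 := by
      by_contra hne
      exact Nat.not_even_iff_odd.2 hodd' ((Nat.even_pow' hne).2 even_two)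
    rwa [hj0, pow_zero, orderOf_eq_one_iff] at hj
  -- inversion by the two involutions
  have hgα : α * g * α⁻¹ = g⁻¹ := by
    rw [hg, ← conj_pow, ← inv_pow]
    congr 1
    rw [hd, inv_eq_of_mul_eq_one_right hα2, mul_inv_rev, inv_eq_of_mul_eq_one_right hα2,
      inv_eq_of_mul_eq_one_right hα'2, ← mul_assoc, hα2, one_mul]
  have hgα' : α' * g * α'⁻¹ = g⁻¹ := by
    rw [hg, ← conj_pow, ← inv_pow]
    congr 1
    rw [hd, inv_eq_of_mul_eq_one_right hα'2, mul_inv_rev, inv_eq_of_mul_eq_one_right hα2,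
      inv_eq_of_mul_eq_one_right hα'2, mul_assoc, mul_assoc, hα'2, mul_one]
  have hgK : g ∈ K := K.pow_mem (K.mul_mem hαK hα'K) _
  set C := derClosure H m with hC
  have hmemC : ∀ {S : Sylow 2 H} {z : H}, z ∈ derTerm S m → z ∈ C := fun {S z} hz =>
    le_iSup (fun T : Sylow 2 H => derTerm T m) S hz
  have hdN : d ∈ C := C.mul_mem (hmemC hα) (hmemC hα'T)
  have hgN : g ∈ C := C.pow_mem hdN _
  have hfix : ∀ i {x : H}, x ∈ C → ∀ {z : H}, z ∈ D.ker i → x * z * x⁻¹ ∈ D.ker i :=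
    fun i x hx z hz => ker_conj D i (derClosure_le_fix D i hx) hz
  have hP2p : ∀ {z : H}, z ∈ P2 → ∃ j, z ^ 2 ^ j = 1 := fun {z} hz => by
    obtain ⟨j, hj⟩ := T.isPGroup' ⟨z, hz.1⟩
    exact ⟨j, congrArg Subtype.val hj⟩
  -- the dichotomy on one block
  have key : ∀ (S : Sylow 2 H) (a₀ : H), a₀ ∈ derTerm S m → a₀ * g * a₀⁻¹ = g⁻¹ → P2 ≤ (S : Subgroup H) →
      a₀ ∈ K → ∀ i, g ∉ D.ker i → ∀ e ∈ P2, ⁅e, a₀⁆ ∈ D.ker i := by
    intro S a₀ ha₀ hinv hPS ha₀K i hgi e he
    set z := ⁅e, a₀⁆ with hz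
    have hzA : z ∈ derTerm S m := by
      rw [hz, commutatorElement_def]
      exact (derTerm S m).mul_mem (derTerm_normal_in S (hPS he) ha₀) ((derTerm S m).inv_mem ha₀)
    have hzP : z ∈ P2 := by
      rw [hz, commutatorElement_def, mul_assoc e a₀, mul_assoc e]
      exact P2.mul_mem he ((Subgroup.mem_normalizer_iff.1 ha₀K e⁻¹).1 (P2.inv_mem he))
    by_contra hzk
    haveI := ker_subgroupOf_normal D i (derClosure_le_fix D i)
    set q := QuotientGroup.mk' ((D.ker i).subgroupOf (derClosure H m))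
    set gc : C := ⟨g, hgN⟩
    have hg2 : gc * gc = ⁅gc, (⟨a₀, hmemC ha₀⟩ : C)⁆ := Subtype.ext (by
      show g * g = g * a₀ * g⁻¹ * a₀⁻¹
      rw [mul_assoc g a₀, mul_assoc g, show a₀ * g⁻¹ * a₀⁻¹ = (a₀ * g * a₀⁻¹)⁻¹ by group, hinv, inv_inv])
    obtain ⟨j, hj⟩ : ∃ j, q (gc * gc) ^ 2 ^ j = 1 := by
      by_cases ha₀k : a₀ ∈ D.ker i
      · refine ⟨0, ?_⟩
        rw [pow_zero, pow_one, hg2, map_commutatorElement,
          show q ⟨a₀, hmemC ha₀⟩ = 1 from (QuotientGroup.eq_one_iff _).2 ha₀k, commutatorElement_one_right]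
      · have hq : q ⟨a₀, hmemC ha₀⟩ = q ⟨z, hmemC hzA⟩ :=
          QuotientGroup.eq.2 (D.pair S i a₀ ha₀ z hzA ha₀k hzk)
        have huP : g * z * g⁻¹ * z⁻¹ ∈ P2 :=
          P2.mul_mem ((Subgroup.mem_normalizer_iff.1 hgK z).1 hzP) (P2.inv_mem hzP)
        obtain ⟨j, hj⟩ := hP2p huP
        refine ⟨j, ?_⟩
        rw [hg2, map_commutatorElement, hq, ← map_commutatorElement, ← map_pow]
        rw [show ⁅gc, (⟨z, hmemC hzA⟩ : C)⁆ ^ 2 ^ j = 1 from Subtype.ext hj, map_one]
    have hgq : q gc = 1 := by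
      refine orderOf_eq_one_iff.1 (Nat.eq_one_of_dvd_coprimes (Nat.Coprime.pow_right (j + 1) ?_)
        (orderOf_dvd_of_pow_eq_one (n := orderOf g) ?_) (orderOf_dvd_of_pow_eq_one (n := 2 ^ (j + 1)) ?_))
      · exact Nat.coprime_two_right.2 hgodd
      · rw [← map_pow, show gc ^ orderOf g = 1 from Subtype.ext (pow_orderOf_eq_one g), map_one]
      · rw [pow_succ', pow_mul, pow_two, ← map_mul]; exact hj
    exact hgi ((QuotientGroup.eq_one_iff gc).1 hgq)
  -- `g` commutes with `P2`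
  have hcent : ∀ e ∈ P2, e * g = g * e := by
    intro e he
    set f := ⁅e, g⁆ with hf
    have hfC : f ∈ C := C.mul_mem (conj_mem_derClosure e hgN) (C.inv_mem hgN)
    have hfP : f ∈ P2 := by
      rw [hf, commutatorElement_def, mul_assoc e g, mul_assoc e]
      exact P2.mul_mem he ((Subgroup.mem_normalizer_iff.1 hgK e⁻¹).1 (P2.inv_mem he))
    have hfk : ∀ i, g ∉ D.ker i → f ∈ D.ker i := by
      intro i hgi
      have h1 := key T α hα hgα inf_le_left hαK i hgi e he
      have h2 := key T2 α' hα'T hgα' (inter_le_smul D T hhK) hα'K i hgi e he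
      have hmul : ∀ {x x' : H}, x ∈ C → ⁅e, x⁆ ∈ D.ker i → ⁅e, x'⁆ ∈ D.ker i →
          ⁅e, x * x'⁆ ∈ D.ker i := fun {x x'} hx hk hk' => by
        rw [show ⁅e, x * x'⁆ = ⁅e, x⁆ * (x * ⁅e, x'⁆ * x⁻¹) by simp only [commutatorElement_def]; group]
        exact (D.ker i).mul_mem hk (hfix i hx hk')
      have h3 : ⁅e, d⁆ ∈ D.ker i := hmul (hmemC hα) h1 h2
      suffices hp : ∀ n : ℕ, ⁅e, d ^ n⁆ ∈ D.ker i from hp _
      intro n
      induction n with
      | zero => rw [pow_zero, commutatorElement_one_right]; exact (D.ker i).one_mem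
      | succ n ih => rw [pow_succ']; exact hmul hdN h3 ih
    have hfg : ⁅f, g⁆ = 1 := by
      refine eq_one_of_forall_ker D (T := T) (C.mul_mem (conj_mem_derClosure f hgN) (C.inv_mem hgN)) ?_ ?_
      · rw [commutatorElement_def, mul_assoc f g, mul_assoc f]
        exact (P2.mul_mem hfP ((Subgroup.mem_normalizer_iff.1 hgK f⁻¹).1 (P2.inv_mem hfP))).1
      · intro i
        by_cases hgi : g ∈ D.ker i
        · exact (D.ker i).mul_mem (hfix i hfC hgi) ((D.ker i).inv_mem hgi)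
        · rw [commutatorElement_def, mul_assoc f g, mul_assoc f]
          exact (D.ker i).mul_mem (hfk i hgi) (hfix i hgN ((D.ker i).inv_mem (hfk i hgi)))
    have hc : Commute f g := commutatorElement_eq_one_iff_mul_comm.1 hfg
    have hconj : e * g * e⁻¹ = f * g := by rw [hf, commutatorElement_def]; group
    have h4 := congrArg (· ^ orderOf g) hconj
    simp only [conj_pow, hc.mul_pow, pow_orderOf_eq_one, mul_one, mul_inv_cancel] at h4
    obtain ⟨j, hj⟩ := hP2p hfP
    have hf1 : f = 1 := orderOf_eq_one_iff.1 (Nat.eq_one_of_dvd_coprimes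
      ((Nat.coprime_two_right.2 hgodd).pow_right j) (orderOf_dvd_of_pow_eq_one h4.symm)
      (orderOf_dvd_of_pow_eq_one hj))
    rw [hf] at hf1
    exact commutatorElement_eq_one_iff_mul_comm.1 hf1
  -- so it is trivial above `O_{2',2}`
  refine hgU ((QuotientGroup.eq_one_iff g).2 ?_)
  show QuotientGroup.mk' O g ∈ pCore 2 (H ⧸ O)
  refine centralizer_pCore_le (isPSolvable_quotient isPSolvable_of_isSolvable O)
    (pPrimeCore_quotient_pPrimeCore 2) (Subgroup.mem_centralizer_iff.2 fun x hx => ?_)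
  obtain ⟨w, rfl⟩ := QuotientGroup.mk'_surjective O x
  obtain ⟨z, hz, hze⟩ := exists_mem_inter D T (show w ∈ pPrimePCore 2 H from hx)
  rw [← hze, ← map_mul, ← map_mul, hcent z hz]

omit D in
/-- An abelian normal `2`-subgroup above the odd core holding the last derived term. -/
theorem exists_elementary {H : Type w} [Group H] [Finite H] (hsol : Group.IsSolvable H) {m : ℕ} (hm : 1 ≤ m)
    {ι : Type} (D : PureData H m ι) (T : Sylow 2 H) :
    let T' := T.mapSurjective (QuotientGroup.mk'_surjective (pPrimeCore 2 H))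
    ∃ N : Subgroup (H ⧸ pPrimeCore 2 H), N.Normal ∧ IsPGroup 2 N ∧ (∀ a ∈ N, ∀ b ∈ N, a * b = b * a) ∧
      derTerm T' m ≤ N ∧ ∀ n ∈ N, n ∈ derTerm T' (m - 1) → ∀ b ∈ derTerm T' (m - 1), n * b = b * n := by
  classical
  intro T'
  haveI : Fact (Nat.Prime 2) := ⟨Nat.prime_two⟩
  set O := pPrimeCore 2 H with hO
  set π := QuotientGroup.mk' O with hπ
  set P2 := (T : Subgroup H) ⊓ pPrimePCore 2 H with hP2
  set K := Subgroup.normalizer (P2 : Set H) with hK
  set NP : Subgroup H := ⨆ h : K, derTerm ((h : H) • T) m with hNP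
  have hAP : derTerm T m ≤ P2 := le_inf (derTerm_le T m) (derTerm_le_pPrimePCore D hsol T)
  have hpiece : ∀ h : K, derTerm ((h : H) • T) m ≤ P2 := by
    rintro ⟨h, hh⟩ x hx
    rw [smul_derTerm] at hx
    obtain ⟨a, ha, rfl⟩ := hx
    exact (Subgroup.mem_normalizer_iff.1 hh a).1 (hAP ha)
  have hNP2 : NP ≤ P2 := iSup_le hpiece
  have hNPC : NP ≤ derClosure H m := iSup_le fun h => le_iSup (fun T : Sylow 2 H => derTerm T m) _
  have hab : ∀ (h h' : K) (x : H), x ∈ derTerm ((h : H) • T) m → ∀ y ∈ derTerm ((h' : H) • T) m,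
      x * y = y * x := by
    intro h h' x hx y hy
    refine commutatorElement_eq_one_iff_mul_comm.1 (eq_one_of_forall_ker D (T := T)
      ((derClosure H m).mul_mem (conj_mem_derClosure x (hNPC (le_iSup (fun h : K => derTerm ((h : H) • T) m) h' hy)))
        ((derClosure H m).inv_mem (hNPC (le_iSup (fun h : K => derTerm ((h : H) • T) m) h' hy)))) ?_ fun i =>
      commutator_mem_ker D hx hy (inter_le_smul D T h.2 (hpiece h' hy)) (inter_le_smul D T h'.2 (hpiece h hx)) i)
    exact (Subgroup.commutator_le_self P2 (Subgroup.commutator_mem_commutator (hpiece h hx) (hpiece h' hy))).1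
  have hcomm : ∀ x ∈ NP, ∀ y ∈ NP, x * y = y * x := by
    have h1 : NP ≤ Subgroup.centralizer (NP : Set H) := by
      refine iSup_le fun h => Subgroup.le_centralizer_iff.1 (iSup_le fun h' => fun x hx => ?_)
      exact Subgroup.mem_centralizer_iff.2 fun y hy => hab h h' y hy x hx
    exact fun x hx y hy => (Subgroup.mem_centralizer_iff.1 (h1 hx) y hy).symm
  have hsq : ∀ x ∈ NP, x * x = 1 := by
    let E : Subgroup H :=
      { carrier := {x | x ∈ NP ∧ x * x = 1}
        one_mem' := ⟨NP.one_mem, mul_one 1⟩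
        mul_mem' := fun {x y} hx hy => ⟨NP.mul_mem hx.1 hy.1, by
          rw [mul_assoc x y, ← mul_assoc y x, ← hcomm x hx.1 y hy.1, mul_assoc x y, hy.2, mul_one, hx.2]⟩
        inv_mem' := fun {x} hx => ⟨NP.inv_mem hx.1, by rw [← mul_inv_rev, hx.2, inv_one]⟩ }
    have hE : NP ≤ E := iSup_le fun h x hx =>
      ⟨le_iSup (fun h : K => derTerm ((h : H) • T) m) h hx, D.sq _ x hx⟩
    exact fun x hx => (hE hx).2
  refine ⟨NP.map π, ?_, (T.isPGroup'.to_le (hNP2.trans inf_le_left)).map π, ?_, ?_, ?_⟩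
  · refine ⟨?_⟩
    rintro _ ⟨n, hn, rfl⟩ gb
    obtain ⟨x, rfl⟩ := QuotientGroup.mk'_surjective O gb
    obtain ⟨a, ha, hax⟩ := exists_mem_normalizer D T x
    rw [← hax, ← map_inv, ← map_mul, ← map_mul]
    refine Subgroup.mem_map_of_mem π ?_
    have hmap : NP.map (MulAut.conj a).toMonoidHom ≤ NP := by
      rw [hNP, Subgroup.map_iSup]
      refine iSup_le fun h => ?_
      rw [← smul_derTerm, ← mul_smul]
      exact le_iSup (fun h : K => derTerm ((h : H) • T) m) ⟨a * h, K.mul_mem ha h.2⟩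
    exact hmap (Subgroup.mem_map_of_mem _ hn)
  · rintro _ ⟨x, hx, rfl⟩ _ ⟨y, hy, rfl⟩
    rw [← map_mul, ← map_mul, hcomm x hx y hy]
  · rw [derTerm_mapSurjective]
    refine Subgroup.map_mono ?_
    have := le_iSup (fun h : K => derTerm ((h : H) • T) m) (1 : K)
    rwa [OneMemClass.coe_one, one_smul] at this
  · intro n hn hn' b hb
    rw [derTerm_mapSurjective] at hn' hb
    obtain ⟨n0, hn0, rfl⟩ := hn
    obtain ⟨n1, hn1, he⟩ := hn'
    obtain ⟨b0, hb0, rfl⟩ := hb
    have hinj : n1 = n0 := by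
      have h1 : n1⁻¹ * n0 ∈ (T : Subgroup H) ⊓ O :=
        ⟨(T : Subgroup H).mul_mem ((T : Subgroup H).inv_mem (derTerm_le T _ hn1)) (hNP2 hn0).1,
          QuotientGroup.eq.1 he⟩
      have h2 : (T : Subgroup H) ⊓ O = ⊥ := by
        obtain ⟨j, hj⟩ := IsPGroup.iff_card.1 T.isPGroup'
        exact Subgroup.inf_eq_bot_of_coprime (by rw [hj]; exact ((card_pPrimeCore_coprime 2).pow_right j).symm)
      rw [h2, Subgroup.mem_bot, inv_mul_eq_one] at h1
      exact h1
    subst hinj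
    rw [← map_mul, ← map_mul]
    congr 1
    refine commutatorElement_eq_one_iff_mul_comm.1 (eq_one_of_forall_ker D (T := T) ?_ ?_
      fun i => D.inv_comm T i n1 hn1 b0 hb0 (hsq n1 hn0))
    · refine le_iSup (fun T : Sylow 2 H => derTerm T m) T ?_
      show ⁅n1, b0⁆ ∈ derTerm T m
      have hsucc := derTerm_succ T (m - 1)
      rw [show m - 1 + 1 = m by omega] at hsucc
      rw [hsucc]
      exact Subgroup.commutator_mem_commutator hn1 hb0
    · exact Subgroup.commutator_le_self _ (Subgroup.commutator_mem_commutator (derTerm_le T _ hn1) (derTerm_le T _ hb0))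

end CfsgLib.TwoLengthDerived
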