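import Cfsg.Agent.Lib.TwoLengthDerived.Rel
import Cfsg.Agent.Lib.TwoLengthDerived.BlockDefs

/-!
The representation on the Frattini quotient of the `2`-core, with the iterated relations.
-/

set_option autoImplicit false
set_option linter.style.haveILetI false

open Cfsg CfsgLib.HallHigmanExc CfsgLib.Cores CfsgLib.PSolvable
open scoped commutatorElement

namespace CfsgLib.TwoLengthDerived

universe u v w

theorem kills_shift {K : Type u} [Field K] {W : Type v} [AddCommGroup W] [Module K W] {H : Type w}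
    [Group H] {τ : H →* Module.End K W} {D : ℕ → Subgroup H} {n j k : ℕ} {f : Module.End K W} :
    Kills τ D n (j + k) f ↔ Kills τ (fun i => D (j + i)) n k f := by
  induction n generalizing k f with
  | zero => rw [kills_zero, kills_zero]
  | succ n ih =>
    rw [kills_succ, kills_succ]
    exact forall_congr' fun x => forall_congr' fun _ => by rw [add_assoc]; exact ih

theorem kills_congr {K : Type u} [Field K] {W : Type v} [AddCommGroup W] [Module K W] {H : Type w}
    [Group H] {τ : H →* Module.End K W} {D D' : ℕ → Subgroup H} {n k : ℕ} {f : Module.End K W}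
    (hD : ∀ i, k ≤ i → D' i ≤ D i) (h : Kills τ D n k f) : Kills τ D' n k f := by
  induction n generalizing k f with
  | zero => exact h
  | succ n ih =>
    rw [kills_succ] at h ⊢
    exact fun x hx => ih (fun i hi => hD i (by omega)) (h x (hD k le_rfl hx))

theorem derTerm_map {G H : Type*} [Group G] [Group H] (f : G →* H) (P : Sylow 2 G) (T : Sylow 2 H)
    (hT : (T : Subgroup H) = (P : Subgroup G).map f) (i : ℕ) :
    derTerm T i = (derTerm P i).map f := by
  induction i with
  | zero => rw [derTerm_zero, derTerm_zero, hT]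
  | succ i ih => rw [derTerm_succ, derTerm_succ, Subgroup.map_commutator, ih]

theorem exists_rel {G : Type w} [Group G] [Finite G] (hG : Cfsg.IsPSolvable 2 G)
    (hO : Cfsg.pPrimeCore 2 G = ⊥) {d : ℕ}
    (hd : ∀ S : Sylow 2 G, derivedSeries (S : Subgroup G) d = ⊥) :
    ∃ (k : ℕ) (ρ : G ⧸ Cfsg.pCore 2 G →*
        Module.End (AlgebraicClosure (ZMod 2)) (Fin k → AlgebraicClosure (ZMod 2))),
      Function.Injective ρ ∧ ∀ T : Sylow 2 (G ⧸ Cfsg.pCore 2 G),
        derivedSeries (T : Subgroup (G ⧸ Cfsg.pCore 2 G)) d = ⊥ ∧ RelKills ρ T d := by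
  haveI : Fact (Nat.Prime 2) := ⟨Nat.prime_two⟩
  obtain ⟨k, r, ρ, hinj, hr, -, hρ, hspan⟩ := exists_frattini_rep (p := 2) hG hO
  refine ⟨k, ρ, hinj, fun T => ?_⟩
  obtain ⟨P, rfl⟩ := Sylow.mapSurjective_surjective
    (QuotientGroup.mk'_surjective (Cfsg.pCore 2 G)) 2 T
  have hOP : Cfsg.pCore 2 G ≤ (P : Subgroup G) := pCore_le_sylow P
  set T := P.mapSurjective (QuotientGroup.mk'_surjective (Cfsg.pCore 2 G))
  have hmap : ∀ i, derTerm T i = (derTerm P i).map (QuotientGroup.mk' (Cfsg.pCore 2 G)) :=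
    derTerm_map _ P T rfl
  refine ⟨?_, ?_⟩
  · have h : derTerm T d = ⊥ := by rw [hmap, derTerm, hd P, Subgroup.map_bot, Subgroup.map_bot]
    rw [derTerm] at h
    exact (Subgroup.map_eq_bot_iff_of_injective _ (Subgroup.subtype_injective _)).1 h
  · obtain ⟨h1, h2⟩ := kills_from_group r hr ρ hρ hspan P hOP (hd P)
    refine ⟨kills_congr (fun i _ => (hmap i).le) h1, fun j n hjn y hy => ?_⟩
    exact kills_congr (fun i _ => (hmap i).le) (h2 j n hjn y (hmap j ▸ hy))

end CfsgLib.TwoLengthDerived
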