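import Mathlib
import Cfsg.Agent.Lib.TwoLengthDerived.Defs
import Cfsg.Agent.Lib.TwoLengthDerived.Frame
import Cfsg.Agent.Lib.TwoLengthDerived.Core
import Cfsg.Agent.Lib.HallHigmanExc.PLengthExp

/-!
The bound of the `2`-length by the derived length of a Sylow `2`-subgroup from the block data.
-/

set_option autoImplicit false
set_option linter.style.haveILetI false

namespace CfsgLib.TwoLengthDerived

open Cfsg CfsgLib.Cores CfsgLib.PSolvable

universe w

/-- The `p`-length when the Sylow subgroups are abelian. -/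
theorem pLengthLE_one_of_abelian {G : Type w} [Group G] [Finite G] (hsol : Group.IsSolvable G)
    (hd : ∀ S : Sylow 2 G, derivedSeries (S : Subgroup G) 1 = ⊥) : PLengthLE 2 1 G := by
  haveI := hsol
  haveI : Fact (Nat.Prime 2) := ⟨Nat.prime_two⟩
  refine CfsgLib.HallHigmanExc.pLengthLE_succ_of_quotient ?_
  set O := pPrimeCore 2 G
  haveI : Group.IsSolvable (G ⧸ O) := solvable_of_surjective (QuotientGroup.mk'_surjective O)
  rw [pLengthLE_zero_iff, Nat.coprime_comm, Nat.prime_two.coprime_iff_not_dvd]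
  intro h2
  obtain ⟨S⟩ := (inferInstance : Nonempty (Sylow 2 G))
  set S1 : Sylow 2 (G ⧸ O) := S.mapSurjective (QuotientGroup.mk'_surjective O)
  have hle : (S1 : Subgroup (G ⧸ O)) ≤ pCore 2 (G ⧸ O) := by
    refine le_trans ?_ (centralizer_pCore_le isPSolvable_of_isSolvable (pPrimeCore_quotient_pPrimeCore 2))
    intro x hx
    refine Subgroup.mem_centralizer_iff.2 fun y hy => ?_
    have hy' := pCore_le_sylow S1 hy
    have h1 : derTerm S1 1 = ⊥ := by
      rw [derTerm_mapSurjective (QuotientGroup.mk'_surjective O) S 1,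
        (derived_eq_bot_iff_derTerm S 1).1 (hd S), Subgroup.map_bot]
    rw [show (1 : ℕ) = 0 + 1 from rfl, derTerm_succ, derTerm_zero,
      Subgroup.commutator_eq_bot_iff_le_centralizer] at h1
    exact Subgroup.mem_centralizer_iff.1 (h1 hx) y hy'
  refine S1.not_dvd_index ((?_ : 2 ∣ (pCore 2 (G ⧸ O)).index).trans (Subgroup.index_dvd_of_le hle))
  rw [Subgroup.index_eq_card]
  exact h2

/-- The `2`-length is at most the derived length of a Sylow `2`-subgroup, given the block data. -/
theorem pLengthLE_derived_two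
    (hkey : ∀ (G : Type w) [Group G] [Finite G], Group.IsSolvable G → pPrimeCore 2 G = ⊥ → ∀ m : ℕ, 1 ≤ m →
      (∀ S : Sylow 2 G, derivedSeries (S : Subgroup G) (m + 1) = ⊥) →
      ∃ ι : Type, Nonempty (PureData.{0, w} (G ⧸ pCore 2 G) m ι)) :
    ∀ (d : ℕ) (G : Type w) [Group G] [Finite G], Group.IsSolvable G →
      (∀ S : Sylow 2 G, derivedSeries (S : Subgroup G) d = ⊥) → PLengthLE 2 d G := by
  haveI : Fact (Nat.Prime 2) := ⟨Nat.prime_two⟩
  intro d
  induction d with
  | zero =>
    intro G _ _ _ hd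
    rw [pLengthLE_zero_iff, Nat.coprime_comm, Nat.prime_two.coprime_iff_not_dvd]
    intro h2
    obtain ⟨S⟩ := (inferInstance : Nonempty (Sylow 2 G))
    have h := hd S
    rw [derivedSeries_zero] at h
    have hS : (S : Subgroup G) = ⊥ := (Subgroup.eq_bot_iff_forall _).2 fun x hx => by
      have h' : (⟨x, hx⟩ : (S : Subgroup G)) ∈ (⊥ : Subgroup (S : Subgroup G)) := h ▸ Subgroup.mem_top _
      exact congrArg Subtype.val (Subgroup.mem_bot.1 h')
    refine S.not_dvd_index ?_
    rwa [hS, Subgroup.index_bot]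
  | succ m ih =>
    intro G _ _ hsol hd
    haveI := hsol
    rcases Nat.eq_zero_or_pos m with rfl | hm
    · exact pLengthLE_one_of_abelian hsol hd
    refine CfsgLib.HallHigmanExc.pLengthLE_succ_of_quotient ?_
    set O := pPrimeCore 2 G
    haveI hs1 : Group.IsSolvable (G ⧸ O) := solvable_of_surjective (QuotientGroup.mk'_surjective O)
    have hd1 : ∀ S : Sylow 2 (G ⧸ O), derivedSeries (S : Subgroup (G ⧸ O)) (m + 1) = ⊥ := fun S => by
      obtain ⟨S0, rfl⟩ := Sylow.mapSurjective_surjective (QuotientGroup.mk'_surjective O) 2 S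
      rw [derived_eq_bot_iff_derTerm, derTerm_mapSurjective, (derived_eq_bot_iff_derTerm S0 _).1 (hd S0),
        Subgroup.map_bot]
    obtain ⟨ι, ⟨D⟩⟩ := hkey (G ⧸ O) hs1 (pPrimeCore_quotient_pPrimeCore 2) m hm hd1
    set X := (G ⧸ O) ⧸ pCore 2 (G ⧸ O) with hX
    haveI hsX : Group.IsSolvable X := solvable_of_surjective (QuotientGroup.mk'_surjective _)
    obtain ⟨T⟩ := (inferInstance : Nonempty (Sylow 2 X))
    obtain ⟨N, hNn, hN, hNc, hA, hB⟩ := exists_elementary hsX hm D T
    haveI := hNn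
    haveI hsX1 : Group.IsSolvable (X ⧸ pPrimeCore 2 X) :=
      solvable_of_surjective (QuotientGroup.mk'_surjective _)
    have h := pLengthLE_of_elementary hsX1 (pPrimeCore_quotient_pPrimeCore 2) hm
      (fun K _ _ hK hdK => ih K hK hdK) _ N hN hNc hA hB
    have hker : PLengthLE 2 0 (QuotientGroup.mk' (pPrimeCore 2 X)).ker := by
      rw [QuotientGroup.ker_mk', pLengthLE_zero_iff]
      exact card_pPrimeCore_coprime 2
    have h' := CfsgLib.MetacyclicP.pLengthLE_extension (QuotientGroup.mk'_surjective _) hker h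
    rwa [Nat.zero_add] at h'

end CfsgLib.TwoLengthDerived
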