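import Cfsg.Agent.S0205
import Cfsg.Agent.Lib.TwoLengthDerived.Top
import Cfsg.Agent.Lib.TwoLengthDerived.Rep
import Cfsg.Agent.Lib.TwoLengthDerived.Block
import Cfsg.Agent.Lib.GrossTwoLength.Main
import Cfsg.Agent.Lib.Transfer.Critical

/-!
The block data on a critical `3`-subgroup from the relations on the Frattini quotient of the `2`-core.
-/

set_option autoImplicit false
set_option linter.style.haveILetI false
set_option linter.unusedSectionVars false

open scoped commutatorElement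

namespace CfsgLib.TwoLengthDerived

open Cfsg CfsgLib.HallHigmanExc CfsgLib.GrossTwoLength CfsgLib.CoprimeAction

universe u v w

/-- A finite `2`-solvable group is solvable. -/
theorem isSolvable_of_isPSolvable_two {G : Type w} [Group G] [Finite G]
    (hG : Cfsg.IsPSolvable 2 G) : Group.IsSolvable G := by
  haveI : Fact (Nat.Prime 2) := ⟨Nat.prime_two⟩
  obtain ⟨n, c, h0, hlast, hmono, hn, hf⟩ := hG
  have key : ∀ i : Fin (n + 1), Group.IsSolvable ↥(c i) := by
    intro i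
    induction i using Fin.induction with
    | zero => rw [h0]; infer_instance
    | succ i ih =>
      haveI := hn i.castSucc
      haveI := ih
      have hle : c i.castSucc ≤ c i.succ := hmono i.castSucc_lt_succ.le
      let N : Subgroup ↥(c i.succ) := (c i.castSucc).subgroupOf (c i.succ)
      haveI : Group.IsSolvable ↥N :=
        Group.isSolvable_of_isSolvable_injective (f := (Subgroup.subgroupOfEquivOfLe hle).toMonoidHom)
          (Subgroup.subgroupOfEquivOfLe hle).injective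
      haveI : Group.IsSolvable (↥(c i.succ) ⧸ N) := by
        have hcard : Nat.card (↥(c i.succ) ⧸ N) = (c i.castSucc).relIndex (c i.succ) := rfl
        rcases hf i with ⟨k, hk⟩ | hk
        · haveI := (IsPGroup.of_card (hcard.trans hk) : IsPGroup 2 (↥(c i.succ) ⧸ N)).isNilpotent
          infer_instance
        · exact Cfsg.Agent.S0205.result (hcard ▸ Nat.coprime_two_right.1 hk)
      exact (Group.isSolvable_iff_subgroup_quotient N).2 ⟨inferInstance, inferInstance⟩
  have h := key (Fin.last n)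
  rw [hlast] at h
  exact Group.isSolvable_of_surjective (f := (⊤ : Subgroup G).subtype) fun g => ⟨⟨g, trivial⟩, rfl⟩

section Coprime

variable {H : Type w} [Group H] [Finite H]

/-- A `2`-element moving `u` by a fixed element of odd prime power order fixes `u`. -/
theorem eq_one_of_step {q k : ℕ} (hq : q.Prime) (hq2 : q ≠ 2) {x u z : H} (hx : x ^ 2 ^ k = 1)
    (hu : x * u * x⁻¹ = u * z) (hz : x * z * x⁻¹ = z) (hzq : ∃ j, z ^ q ^ j = 1) : z = 1 := by
  have key : ∀ n, x ^ n * u * (x ^ n)⁻¹ = u * z ^ n := by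
    intro n
    induction n with
    | zero => simp
    | succ n ih =>
      have hzn : x * z ^ n * x⁻¹ = z ^ n := by rw [← conj_pow, hz]
      calc x ^ (n + 1) * u * (x ^ (n + 1))⁻¹ = x * (x ^ n * u * (x ^ n)⁻¹) * x⁻¹ := by
            rw [pow_succ']; group
        _ = x * u * x⁻¹ * (x * z ^ n * x⁻¹) := by rw [ih]; group
        _ = u * z ^ (n + 1) := by rw [hu, hzn, mul_assoc, ← pow_succ']
  have h2 : z ^ 2 ^ k = 1 := by
    have h := key (2 ^ k)
    rw [hx, one_mul, inv_one, mul_one] at h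
    exact mul_eq_left.1 h.symm
  obtain ⟨j, hj⟩ := hzq
  exact orderOf_eq_one_iff.1 (Nat.eq_one_of_dvd_coprimes
    (((Nat.coprime_primes Nat.prime_two hq).2 hq2.symm).pow k j) (orderOf_dvd_of_pow_eq_one h2)
    (orderOf_dvd_of_pow_eq_one hj))

end Coprime

section Ker

variable {K : Type u} [Field K] {V : Type v} [AddCommGroup V] [Module K V] {H : Type w} [Group H]
  (ρ : H →* Module.End K V) (C : Subgroup H) [C.Normal]

theorem commutator_mem_of_normal (x : H) {g : H} (hg : g ∈ C) : ⁅x, g⁆ ∈ C := by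
  rw [commutatorElement_def]
  exact C.mul_mem ((inferInstance : C.Normal).conj_mem g hg x) (C.inv_mem hg)

theorem commute_rho_inv {e : Module.End K V} {x : H} (hx : Commute (ρ x) e) :
    Commute (ρ x⁻¹) e := by
  have h : Commute ((ρ.toHomUnits x : (Module.End K V)ˣ) : Module.End K V) e := hx
  have h2 := h.units_inv_left
  rw [← map_inv] at h2
  exact h2

/-- The elements commuting with an operator. -/
def fixB (e : Module.End K V) : Subgroup H where
  carrier := {x | Commute (ρ x) e}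
  one_mem' := by simp
  mul_mem' := fun {a b} ha hb => by
    show Commute (ρ (a * b)) e
    rw [map_mul]
    exact ha.mul_left hb
  inv_mem' := fun hx => commute_rho_inv ρ hx

variable (hcl : ⁅C, C⁆ ≤ Subgroup.centralizer (C : Set H))

/-- The radical of the commutator form on a block. -/
def radB (e : Module.End K V) : Subgroup H where
  carrier := {a | a ∈ C ∧ ∀ h ∈ C, ρ ⁅a, h⁆ * e = e}
  one_mem' := ⟨C.one_mem, fun h _ => by simp⟩
  mul_mem' := fun {a b} ha hb => ⟨C.mul_mem ha.1 hb.1, fun h hh => by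
    rw [commutator_mul_left_of_central hcl ha.1 hb.1 hh, map_mul, mul_assoc, hb.2 h hh, ha.2 h hh]⟩
  inv_mem' := fun {a} ha => ⟨C.inv_mem ha.1, fun h hh => by
    calc ρ ⁅a⁻¹, h⁆ * e = ρ ⁅a⁻¹, h⁆ * (ρ ⁅a, h⁆ * e) := by rw [ha.2 h hh]
      _ = ρ ⁅a⁻¹ * a, h⁆ * e := by
        rw [← mul_assoc, ← map_mul, ← commutator_mul_left_of_central hcl (C.inv_mem ha.1) ha.1 hh]
      _ = e := by simp⟩

theorem conj_mem_radB {e : Module.End K V} {x a : H} (hx : Commute (ρ x) e)
    (ha : a ∈ radB ρ C hcl e) : x * a * x⁻¹ ∈ radB ρ C hcl e := by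
  refine ⟨(inferInstance : C.Normal).conj_mem a ha.1 x, fun h hh => ?_⟩
  rw [show ⁅x * a * x⁻¹, h⁆ = x * ⁅a, x⁻¹ * h * x⁆ * x⁻¹ by
    rw [commutatorElement_def, commutatorElement_def]; group]
  have hh' : x⁻¹ * h * x ∈ C := by
    simpa using (inferInstance : C.Normal).conj_mem h hh x⁻¹
  rw [map_mul, map_mul, mul_assoc, (commute_rho_inv ρ hx).eq, mul_assoc, ← mul_assoc (ρ ⁅_, _⁆),
    ha.2 _ hh', ← mul_assoc, hx.eq, mul_assoc, ← map_mul, mul_inv_cancel, map_one, mul_one]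

/-- The elements of the stabiliser moving the critical subgroup within the radical. -/
def kerB (e : Module.End K V) : Subgroup H where
  carrier := {x | Commute (ρ x) e ∧ TrivB ρ C e x}
  one_mem' := ⟨by simp, fun g _ h _ => by simp⟩
  mul_mem' := fun {x y} hx hy => ⟨(fixB ρ e).mul_mem hx.1 hy.1, fun g hg h hh => by
    have h1 : x * ⁅y, g⁆ * x⁻¹ ∈ radB ρ C hcl e :=
      conj_mem_radB ρ C hcl hx.1 ⟨commutator_mem_of_normal C y hg, hy.2 g hg⟩
    have h2 : ⁅x, g⁆ ∈ radB ρ C hcl e := ⟨commutator_mem_of_normal C x hg, hx.2 g hg⟩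
    rw [show ⁅x * y, g⁆ = x * ⁅y, g⁆ * x⁻¹ * ⁅x, g⁆ by simp only [commutatorElement_def]; group]
    exact ((radB ρ C hcl e).mul_mem h1 h2).2 h hh⟩
  inv_mem' := fun {x} hx => ⟨commute_rho_inv ρ hx.1, fun g hg h hh => by
    have h2 : ⁅x, g⁆⁻¹ ∈ radB ρ C hcl e :=
      (radB ρ C hcl e).inv_mem ⟨commutator_mem_of_normal C x hg, hx.2 g hg⟩
    rw [show ⁅x⁻¹, g⁆ = x⁻¹ * ⁅x, g⁆⁻¹ * x⁻¹⁻¹ by simp only [commutatorElement_def]; group]
    exact (conj_mem_radB ρ C hcl (commute_rho_inv ρ hx.1) h2).2 h hh⟩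

theorem kerB_conj {e : Module.End K V} {x y : H} (hx : x ∈ fixB ρ e) (hy : y ∈ kerB ρ C hcl e) :
    x * y * x⁻¹ ∈ kerB ρ C hcl e := by
  refine ⟨(fixB ρ e).mul_mem ((fixB ρ e).mul_mem hx hy.1) ((fixB ρ e).inv_mem hx), fun g hg h hh => ?_⟩
  have hg' : x⁻¹ * g * x ∈ C := by
    simpa using (inferInstance : C.Normal).conj_mem g hg x⁻¹
  rw [show ⁅x * y * x⁻¹, g⁆ = x * ⁅y, x⁻¹ * g * x⁆ * x⁻¹ by
    rw [commutatorElement_def, commutatorElement_def]; group]
  exact (conj_mem_radB ρ C hcl hx ⟨commutator_mem_of_normal C y hg', hy.2 _ hg'⟩).2 h hh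

end Ker

section Main

variable {K : Type u} [Field K] [IsAlgClosed K] {V : Type v} [AddCommGroup V] [Module K V]
  {H : Type w} [Group H] [Finite H] {ρ : H →* Module.End K V}

/-- Acting trivially on every block means moving into the centre of `Q`. -/
theorem commutator_mem_centralizer (hρ : Function.Injective ρ) {q : ℕ} [Fact q.Prime]
    {Q : Subgroup H} (hQ : IsPGroup q Q) (hqK : (q : K) ≠ 0) {x : H}
    (h : ∀ l : centerImage ρ Q →* Kˣ, blk (centerImage ρ Q) l ≠ 0 →
      TrivB ρ Q (blk (centerImage ρ Q) l) x) {g : H} (hg : g ∈ Q) :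
    ⁅x, g⁆ ∈ Subgroup.centralizer (Q : Set H) := by
  obtain ⟨hfin, hsum⟩ := exists_sum_blk (K := K) (centerImage ρ Q)
    (card_centerImage_ne_zero (ρ := ρ) hQ hqK)
  refine Subgroup.mem_centralizer_iff.2 fun b hb => ?_
  refine (commutatorElement_eq_one_iff_mul_comm.1 (hρ ?_)).symm
  rw [map_one, ← mul_one (ρ _), ← hsum, Finset.mul_sum]
  refine Finset.sum_congr rfl fun l _ => ?_
  by_cases hl : blk (centerImage ρ Q) l = 0
  · rw [hl, mul_zero]
  · exact h l hl g hg b hb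

variable [CharP K 2] [FiniteDimensional K V] {T : Sylow 2 H} {m : ℕ}

/-- The last term centralises every invariant `q`-subgroup, `q` a prime different from `2` and `3`. -/
theorem derTerm_le_centralizer (hρ : Function.Injective ρ) (hm : 1 ≤ m)
    (hrel : RelKills ρ T (m + 1)) {q : ℕ} [Fact q.Prime] (hq2 : q ≠ 2) (hq3 : q ≠ 3) {Q : Subgroup H}
    (hQ : IsPGroup q Q) (hTQ : (T : Subgroup H) ≤ Subgroup.normalizer (Q : Set H)) :
    derTerm T m ≤ Subgroup.centralizer (Q : Set H) := by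
  haveI : Fact (Nat.Prime 2) := ⟨Nat.prime_two⟩
  by_contra hne0
  obtain ⟨Q₀, hQm⟩ := exists_minimal_of_wellFoundedLT (fun X : Subgroup H =>
    IsPGroup q X ∧ (T : Subgroup H) ≤ Subgroup.normalizer (X : Set H) ∧
      ¬ derTerm T m ≤ Subgroup.centralizer (X : Set H)) ⟨Q, hQ, hTQ, hne0⟩
  clear hQ hTQ hne0 Q
  obtain ⟨hQ, hTQ, hne⟩ := hQm.prop
  rename' Q₀ => Q
  have hmin : ∀ X : Subgroup H, X < Q → (T : Subgroup H) ≤ Subgroup.normalizer (X : Set H) →
      derTerm T m ≤ Subgroup.centralizer (X : Set H) := fun X hX hTX => by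
    by_contra h
    exact hX.not_ge (hQm.le_of_le ⟨hQ.to_le hX.le, hTX, h⟩ hX.le)
  have hAD : (T : Subgroup H) ≤ Subgroup.normalizer (derTerm T m : Set H) := fun t ht =>
    Subgroup.mem_normalizer_iff.2 fun a => ⟨fun ha => derTerm_normal_in T ht ha, fun ha => by
      simpa [mul_assoc] using derTerm_normal_in T (inv_mem ht) ha⟩
  have hDQ : derTerm T m ≤ Subgroup.normalizer (Q : Set H) := (derTerm_le T m).trans hTQ
  have hcop : (Nat.card (derTerm T m)).Coprime (Nat.card Q) :=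
    IsPGroup.coprime_card_of_ne 2 q hq2.symm (derTerm T m) Q (T.isPGroup'.to_le (derTerm_le T m)) hQ
  obtain ⟨hgen, hcl, -⟩ := structure_of_minimal (A := (T : Subgroup H)) (D := derTerm T m)
    hQ hTQ hAD hDQ hcop hne hmin
  haveI := hQ.isNilpotent
  have hQ1 : Q ≠ ⊥ := fun h => hne fun x _ => Subgroup.mem_centralizer_iff.2 fun g hg => by
    rw [h, SetLike.mem_coe, Subgroup.mem_bot] at hg
    simp [hg]
  set Φ := (frattini Q).map Q.subtype with hΦ
  have hΦn : ∀ x ∈ Subgroup.normalizer (Q : Set H), x ∈ Subgroup.normalizer (Φ : Set H) := by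
    intro x hx
    refine mem_normalizer_of_conj_mem ?_
    rintro _ ⟨g, hg, rfl⟩
    exact ⟨Subgroup.normalizerMonoidHom Q ⟨x, hx⟩ g,
      (Subgroup.characteristic_iff_map_le.1 (inferInstance : (frattini Q).Characteristic) _)
        ⟨g, hg, rfl⟩, rfl⟩
  have hΦlt : Φ < Q := by
    refine lt_of_le_of_ne (Subgroup.map_subtype_le _) fun h => hQ1 ?_
    have h2 : frattini Q = ⊤ := Subgroup.map_injective Q.subtype_injective
      (h.trans (Subgroup.range_subtype Q).symm |>.trans (MonoidHom.range_eq_map _))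
    have h3 : (⊥ : Subgroup Q) = ⊤ := frattini_nongenerating (by rw [bot_sup_eq, h2])
    rw [← Subgroup.range_subtype Q, MonoidHom.range_eq_map, ← h3, Subgroup.map_bot]
  have hDΦ := hmin Φ hΦlt fun x hx => hΦn x (hTQ hx)
  have hΦc : Φ ≤ Subgroup.centralizer (Q : Set H) := by
    rw [← Subgroup.commutator_eq_bot_iff_le_centralizer]
    have hQDΦ : ⁅⁅Q, derTerm T m⁆, Φ⁆ = ⊥ := by
      refine Subgroup.commutator_commutator_eq_bot_of_rotate ?_ ?_
      · rw [Subgroup.commutator_eq_bot_iff_le_centralizer.2 hDΦ, Subgroup.commutator_bot_left]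
      · refine le_bot_iff.1 (le_trans (Subgroup.commutator_mono
          (commutator_le_left fun x hx => hΦn x (Subgroup.le_normalizer hx)) le_rfl) ?_)
        rw [Subgroup.commutator_comm, Subgroup.commutator_eq_bot_iff_le_centralizer.2 hDΦ]
    refine le_bot_iff.1 ((Subgroup.commutator_mono le_rfl hgen).trans ?_)
    rw [Subgroup.commutator_comm, hQDΦ]
  have hpow : ∀ g ∈ Q, g ^ q ∈ Subgroup.centralizer (Q : Set H) := fun g hg =>
    hΦc ⟨⟨g, hg⟩ ^ q, CfsgLib.PGroups.pow_mem_frattini hQ ⟨g, hg⟩, rfl⟩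
  have hqK : (q : K) ≠ 0 := by
    rw [Ne, CharP.cast_eq_zero_iff K 2]
    exact fun h => hq2 ((Nat.prime_dvd_prime_iff_eq Nat.prime_two Fact.out).1 h).symm
  have htriv : ∀ a ∈ derTerm T m, ∀ g ∈ Q, ⁅g, a⁆ ∈ Q ⊓ Subgroup.centralizer (Q : Set H) := by
    intro a ha g hg
    have h1 : ⁅a, g⁆ ∈ Q := by
      rw [commutatorElement_def]
      exact Q.mul_mem ((Subgroup.mem_normalizer_iff.1 (hDQ ha) g).1 hg) (Q.inv_mem hg)
    have h2 : ⁅a, g⁆ ∈ Subgroup.centralizer (Q : Set H) :=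
      commutator_mem_centralizer hρ hQ hqK (fun l hl =>
        (block_pure (hq2 := hq2) (hQ := hQ) (hTQ := hTQ) (hcl := hcl) (hpow := hpow) (hm := hm)
          (hrel := hrel) l hl).2.elim (fun h => h a ha) fun h => absurd h.1 hq3) hg
    rw [← commutatorElement_inv]
    exact Subgroup.inv_mem _ ⟨h1, h2⟩
  refine hne fun a ha => Subgroup.mem_centralizer_iff.2 fun g hg => ?_
  exact (derTerm_comm_center (hρ := hρ) (hq2 := hq2) (hQ := hQ) (hTQ := hTQ) (hcl := hcl)
    (hpow := hpow) (hm := hm) (hrel := hrel) a ha g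
    ((hgen.trans (Subgroup.commutator_le.2 fun b hb d hd => htriv d hd b hb)) hg)).symm

end Main

theorem pureData_of_rel {K : Type} [Field K] [IsAlgClosed K] [CharP K 2] {V : Type} [AddCommGroup V]
    [Module K V] [FiniteDimensional K V] {H : Type w} [Group H] [Finite H] [Group.IsSolvable H]
    (hcore : Cfsg.pCore 2 H = ⊥) {ρ : H →* Module.End K V} (hρ : Function.Injective ρ) {m : ℕ}
    (hm : 1 ≤ m) (hrel : ∀ T : Sylow 2 H, RelKills ρ T (m + 1)) :
    ∃ ι : Type, Nonempty (PureData.{0, w} H m ι) := by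
  haveI : Fact (Nat.Prime 2) := ⟨Nat.prime_two⟩
  haveI : Fact (Nat.Prime 3) := ⟨Nat.prime_three⟩
  have hP : IsPGroup 3 ↥(pCore 3 H) := CfsgLib.Cores.isPGroup_pCore 3 H
  obtain ⟨Hc, hch, hfrat, hcom, hcent⟩ := CfsgLib.Transfer.exists_critical hP
  haveI := hch
  haveI hPn : (pCore 3 H).Normal := inferInstance
  set C : Subgroup H := Hc.map (pCore 3 H).subtype with hC
  have hCP : C ≤ pCore 3 H := Subgroup.map_subtype_le _
  have hQ : IsPGroup 3 ↥C := hP.to_le hCP
  haveI hCn : C.Normal := by rw [hC]; infer_instance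
  have hTQ : ∀ T : Sylow 2 H, (T : Subgroup H) ≤ Subgroup.normalizer (C : Set H) := fun T => by
    rw [Subgroup.normalizer_eq_top_iff.2 hCn]; exact le_top
  have hcl : ⁅C, C⁆ ≤ Subgroup.centralizer (C : Set H) := by
    refine Subgroup.commutator_le.2 ?_
    rintro _ ⟨a, ha, rfl⟩ _ ⟨b, _, rfl⟩
    refine Subgroup.mem_centralizer_iff.2 ?_
    rintro _ ⟨c, hc, rfl⟩
    rw [← map_commutatorElement, ← map_mul, ← map_mul]
    exact congrArg _ ((hcom (Subgroup.commutator_mem_commutator ha trivial)).2 c hc)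
  have hpow : ∀ g ∈ C, g ^ 3 ∈ Subgroup.centralizer (C : Set H) := by
    rintro _ ⟨a, ha, rfl⟩
    refine Subgroup.mem_centralizer_iff.2 ?_
    rintro _ ⟨c, hc, rfl⟩
    rw [← map_pow, ← map_mul, ← map_mul]
    exact congrArg _ (hfrat ⟨⟨a, ha⟩ ^ 3,
      CfsgLib.PGroups.pow_mem_frattini (hP.to_subgroup Hc) ⟨a, ha⟩, rfl⟩ c hc)
  have h3K : (3 : ℕ) ≠ 2 := by norm_num
  have hqK : ((3 : ℕ) : K) ≠ 0 := by
    rw [Ne, CharP.cast_eq_zero_iff K 2]; norm_num
  have hpure := fun (T : Sylow 2 H) l hl => block_pure (hq2 := h3K) (hQ := hQ) (hTQ := hTQ T)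
    (hcl := hcl) (hpow := hpow) (hm := hm) (hrel := hrel T) l hl
  let ι := {l : centerImage ρ C →* Kˣ // blk (centerImage ρ C) l ≠ 0}
  refine ⟨ι, ⟨{
    fix := fun l => fixB ρ (blk (centerImage ρ C) l.1)
    ker := fun l => kerB ρ C hcl (blk (centerImage ρ C) l.1)
    ker_le := fun l x hx => hx.1
    ker_norm := fun l x hx y hy => kerB_conj ρ C hcl hx hy
    der_le_fix := fun T l a ha => (hpure T l.1 l.2).1 a ha
    sq := fun T => derTerm_mul_self (hρ := hρ) (hrel := hrel T)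
    pair := ?_
    inv_comm := ?_
    faithful := ?_ }⟩⟩
  · intro T l a ha a' ha' hak hak'
    rcases (hpure T l.1 l.2).2 with h | ⟨-, h, -⟩
    · exact absurd ⟨(hpure T l.1 l.2).1 a ha, h a ha⟩ hak
    · exact ⟨(hpure T l.1 l.2).1 _ ((derTerm T m).mul_mem ((derTerm T m).inv_mem ha) ha'),
        h a ha a' ha' (fun e => hak ⟨(hpure T l.1 l.2).1 a ha, e⟩)
          (fun e => hak' ⟨(hpure T l.1 l.2).1 a' ha', e⟩)⟩
  · intro T l n hn b hb hn2
    have hc : ⁅n, b⁆ ∈ derTerm T m := by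
      have h := Subgroup.commutator_mem_commutator hn hb
      rw [← derTerm_succ T (m - 1), Nat.sub_add_cancel hm] at h
      exact h
    rcases (hpure T l.1 l.2).2 with h | ⟨-, -, h⟩
    · exact ⟨(hpure T l.1 l.2).1 _ hc, h _ hc⟩
    · exact ⟨(hpure T l.1 l.2).1 _ hc, h n hn b hb hn2⟩
  intro x hx hxk hker
  refine eq_one_of_centralizes_cores hcore hxk fun r hr => ?_
  haveI : Fact r.Prime := ⟨hr⟩
  by_cases hr2 : r = 2
  · subst hr2
    exact Subgroup.mem_centralizer_iff.2 fun g hg => by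
      rw [hcore, SetLike.mem_coe, Subgroup.mem_bot] at hg
      simp [hg]
  by_cases hr3 : r = 3
  swap
  · have hle : derClosure H m ≤ Subgroup.centralizer (pCore r H : Set H) := iSup_le fun T =>
      derTerm_le_centralizer hρ hm (hrel T) hr2 hr3 (CfsgLib.Cores.isPGroup_pCore r H) (by
        rw [Subgroup.normalizer_eq_top_iff.2 (inferInstance : (pCore r H).Normal)]; exact le_top)
    exact hle hx
  subst hr3
  obtain ⟨j, hj⟩ := hxk
  have hZ : derClosure H m ≤
      Subgroup.centralizer ((C ⊓ Subgroup.centralizer (C : Set H) : Subgroup H) : Set H) :=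
    iSup_le fun T a ha => Subgroup.mem_centralizer_iff.2 fun z hz =>
      (derTerm_comm_center (hρ := hρ) (hq2 := h3K) (hQ := hQ) (hTQ := hTQ T) (hcl := hcl)
        (hpow := hpow) (hm := hm) (hrel := hrel T) a ha z hz).symm
  have hfixZ : ∀ z ∈ C, z ∈ Subgroup.centralizer (C : Set H) → x * z * x⁻¹ = z := fun z hz hzc =>
    mul_inv_eq_iff_eq_mul.2 (Subgroup.mem_centralizer_iff.1 (hZ hx) z ⟨hz, hzc⟩).symm
  have hpow3 : ∀ z ∈ pCore 3 H, ∃ i, z ^ 3 ^ i = 1 := fun z hz => by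
    obtain ⟨i, hi⟩ := hP ⟨z, hz⟩
    exact ⟨i, congrArg Subtype.val hi⟩
  have hfixC : ∀ g ∈ C, x * g * x⁻¹ = g := by
    intro g hg
    set w := g⁻¹ * (x * g * x⁻¹) with hw
    have hwC : w ∈ C := C.mul_mem (C.inv_mem hg) (hCn.conj_mem g hg x)
    have hwc : w ∈ Subgroup.centralizer (C : Set H) := by
      have h1 : ⁅x, g⁆ ∈ Subgroup.centralizer (C : Set H) :=
        commutator_mem_centralizer hρ hQ hqK (fun l hl => (hker ⟨l, hl⟩).2) hg
      have e : w = ⁅x, g⁆ := by
        rw [hw, show g⁻¹ * (x * g * x⁻¹) = g⁻¹ * (⁅x, g⁆ * g) by rw [commutatorElement_def]; group,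
          ← Subgroup.mem_centralizer_iff.1 h1 g hg, inv_mul_cancel_left]
      rw [e]; exact h1
    have h := eq_one_of_step Nat.prime_three h3K hj (show x * g * x⁻¹ = g * w by rw [hw]; group)
      (hfixZ w hwC hwc) (hpow3 w (hCP hwC))
    exact (inv_mul_eq_one.1 h).symm
  refine Subgroup.mem_centralizer_iff.2 fun u hu => ?_
  set w := u⁻¹ * (x * u * x⁻¹) with hw
  have hwP : w ∈ pCore 3 H :=
    (pCore 3 H).mul_mem ((pCore 3 H).inv_mem hu) (hPn.conj_mem u hu x)
  have hwc : w ∈ Subgroup.centralizer (C : Set H) := by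
    refine Subgroup.mem_centralizer_iff.2 fun c hc => ?_
    have h1 := hfixC _ (hCn.conj_mem c hc u)
    have h2 := hfixC c hc
    calc c * w = u⁻¹ * (u * c * u⁻¹) * (x * u * x⁻¹) := by rw [hw]; group
      _ = u⁻¹ * (x * (u * c * u⁻¹) * x⁻¹) * (x * u * x⁻¹) := by rw [h1]
      _ = u⁻¹ * (x * u * x⁻¹) * (x * c * x⁻¹) := by group
      _ = w * c := by rw [h2, hw]
  have hwC : w ∈ C := by
    refine ⟨⟨w, hwP⟩, hcent (Subgroup.mem_centralizer_iff.2 fun c hc => Subtype.ext ?_), rfl⟩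
    exact Subgroup.mem_centralizer_iff.1 hwc _ ⟨c, hc, rfl⟩
  have h := eq_one_of_step Nat.prime_three h3K hj (show x * u * x⁻¹ = u * w by rw [hw]; group)
    (hfixZ w hwC hwc) (hpow3 w hwP)
  exact mul_inv_eq_iff_eq_mul.1 ((inv_mul_eq_one.1 h).symm) |>.symm

theorem exists_pureData {G : Type w} [Group G] [Finite G] (hsol : Group.IsSolvable G)
    (hO : Cfsg.pPrimeCore 2 G = ⊥) (m : ℕ) (hm : 1 ≤ m)
    (hd : ∀ S : Sylow 2 G, derivedSeries (S : Subgroup G) (m + 1) = ⊥) :
    ∃ ι : Type, Nonempty (PureData.{0, w} (G ⧸ Cfsg.pCore 2 G) m ι) := by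
  haveI : Fact (Nat.Prime 2) := ⟨Nat.prime_two⟩
  haveI := hsol
  obtain ⟨k, ρ, hρ, hT⟩ := exists_rel CfsgLib.PSolvable.isPSolvable_of_isSolvable hO hd
  haveI : Group.IsSolvable (G ⧸ pCore 2 G) :=
    Group.isSolvable_of_surjective (QuotientGroup.mk'_surjective (pCore 2 G))
  exact pureData_of_rel (CfsgLib.Cores.pCore_quotient_pCore 2 G) hρ hm fun T => (hT T).2

end CfsgLib.TwoLengthDerived
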